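import Cfsg.Prelude

/-!
Normalisers of field subalgebras of matrix algebras.
-/

set_option autoImplicit false
set_option linter.unusedSectionVars false

namespace Cfsg.Agent.H7.FieldSub

open Matrix Module
open scoped MatrixGroups
open Cfsg Cfsg.Geo

variable {F : Type*} [Field F] [Finite F] {n : ℕ}

theorem det_unip {N : Matrix (Fin n) (Fin n) F} (hN : N * N = 0) : (1 + N).det = 1 := by
  obtain ⟨p, hp⟩ := CharP.exists F
  haveI := hp
  have hp0 : p ≠ 0 := by
    rintro rfl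
    haveI := CharP.charP_to_charZero F
    exact not_finite F
  haveI : Fact p.Prime := ⟨(CharP.char_is_prime_or_zero F p).resolve_right hp0⟩
  have h1 : ∀ k : ℕ, (1 + N) ^ k = 1 + (k : F) • N := by
    intro k
    induction k with
    | zero => simp
    | succ k ih =>
      rw [pow_succ, ih, mul_add, mul_one, add_mul, one_mul, smul_mul_assoc, hN, smul_zero, add_zero]
      push_cast
      rw [add_smul, one_smul, add_assoc]
  have h2 := h1 p
  rw [CharP.cast_eq_zero, zero_smul, add_zero] at h2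
  have h3 : (1 + N).det ^ p = 1 ^ p := by rw [← det_pow, h2, det_one, one_pow]
  have h4 := frobenius_inj F p
  exact h4 h3

theorem mover_aux {E : Type*} [Field E] [Algebra F E] [Module E (Fin n → F)] [IsScalarTower F E (Fin n → F)]
    {K0 K : Subalgebra F (Matrix (Fin n) (Fin n) F)} (ψ : E → Matrix (Fin n) (Fin n) F) (hsmul : ∀ (k : E) (v : Fin n → F), k • v = ψ k *ᵥ v)
    (hψ : ∀ k, ψ k ∈ K0) (hψ' : ∀ x ∈ K0, ∃ k, ψ k = x) (hψi : finrank F E ≤ finrank F K0)
    (hc : ∀ x ∈ K, ∀ y ∈ K, x * y = y * x)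
    (hi : ∀ x ∈ K, x ≠ 0 → ∃ y ∈ K, x * y = 1) (hle : K0 ≤ K) (hne : ∃ k ∈ K, k ∉ K0)
    (hd : 3 * finrank F K0 ≤ n) (hn0 : n ≠ 0) :
    ∃ t : GL (Fin n) F, t ∈ specialLinear (Fin n) F ∧ t ∈ subalgebraNormalizer K0 ∧ t ∉ subalgebraNormalizer K := by
  haveI : Nonempty (Fin n) := ⟨⟨0, Nat.pos_of_ne_zero hn0⟩⟩
  haveI : Module.Finite E (Fin n → F) := Module.Finite.of_restrictScalars_finite F E _
  have hfr := Module.finrank_mul_finrank F E (Fin n → F)
  rw [Module.finrank_fintype_fun_eq_card, Fintype.card_fin] at hfr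
  have h3 : 3 ≤ finrank E (Fin n → F) := by
    by_contra hcon
    push Not at hcon
    have : finrank F E * finrank E (Fin n → F) ≤ finrank F E * 2 := Nat.mul_le_mul_left _ (by omega)
    omega
  obtain ⟨v, hv⟩ := exists_ne (0 : Fin n → F)
  have hlt : Submodule.span E {v} < ⊤ := by
    rw [lt_top_iff_ne_top]
    intro h
    have h4 := finrank_span_le_card (R := E) ({v} : Set (Fin n → F))
    rw [h, finrank_top] at h4
    simp at h4
    omega
  obtain ⟨φ, hφ0, hφ⟩ := Submodule.exists_le_ker_of_lt_top _ hlt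
  have hφv : φ v = 0 := hφ (Submodule.mem_span_singleton_self v)
  have hker := Module.Dual.finrank_ker_add_one_of_ne_zero hφ0
  set N : Matrix (Fin n) (Fin n) F := LinearMap.toMatrix' ((φ.smulRight v).restrictScalars F) with hN
  have hNx : ∀ x, N *ᵥ x = ψ (φ x) *ᵥ v := by
    intro x
    rw [hN, LinearMap.toMatrix'_mulVec, ← hsmul]
    rfl
  have hN0 : ∀ x, φ x = 0 → N *ᵥ x = 0 := by
    intro x hx
    rw [hNx, hx, ← hsmul, zero_smul]
  have hmx : ∀ A B : Matrix (Fin n) (Fin n) F, (∀ x, A *ᵥ x = B *ᵥ x) → A = B := by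
    intro A B h
    exact Matrix.toLin'.injective (LinearMap.ext fun x => h x)
  have hNN : N * N = 0 := by
    apply hmx
    intro x
    rw [← mulVec_mulVec, zero_mulVec]
    apply hN0
    rw [hNx, ← hsmul, map_smul, hφv, smul_zero]
  let t : GL (Fin n) F := ⟨1 + N, 1 - N, by rw [mul_sub, mul_one, add_mul, one_mul, hNN]; abel,
    by rw [mul_add, mul_one, sub_mul, one_mul, hNN]; abel⟩
  have ht : (t : Matrix (Fin n) (Fin n) F) = 1 + N := rfl
  have hti : ((t⁻¹ : GL (Fin n) F) : Matrix (Fin n) (Fin n) F) = 1 - N := rfl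
  have hcomm : ∀ k ∈ K0, N * k = k * N := by
    intro k hk
    obtain ⟨k, rfl⟩ := hψ' k hk
    apply hmx
    intro x
    rw [← mulVec_mulVec, ← mulVec_mulVec, hNx, hNx, ← hsmul k x, map_smul, smul_eq_mul, ← hsmul, ← hsmul, ← hsmul, mul_smul]
  refine ⟨t, ?_, ?_, ?_⟩
  · refine MonoidHom.mem_ker.2 (Units.ext ?_)
    exact det_unip hNN
  · intro k
    have h4 : ∀ k ∈ K0, (t : Matrix (Fin n) (Fin n) F) * k * ((t⁻¹ : GL (Fin n) F) : Matrix (Fin n) (Fin n) F) = k := by
      intro k hk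
      rw [ht, hti, add_mul, one_mul, hcomm k hk, mul_sub, mul_one, add_mul, mul_assoc k N N, hNN, mul_zero, add_zero]
      abel
    constructor
    · intro hk
      rw [h4 k hk]; exact hk
    · intro hk
      have h5 : k = ((t⁻¹ : GL (Fin n) F) : Matrix (Fin n) (Fin n) F) *
          ((t : Matrix (Fin n) (Fin n) F) * k * ((t⁻¹ : GL (Fin n) F) : Matrix (Fin n) (Fin n) F)) * (t : Matrix (Fin n) (Fin n) F) := by
        simp only [← mul_assoc, ← Units.val_mul, inv_mul_cancel, Units.val_one, one_mul]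
        rw [mul_assoc, ← Units.val_mul, inv_mul_cancel, Units.val_one, mul_one]
      have h6 := h4 _ hk
      set k' := (t : Matrix (Fin n) (Fin n) F) * k * ((t⁻¹ : GL (Fin n) F) : Matrix (Fin n) (Fin n) F) with hk'
      have h7 : k' = k := by
        rw [h5]
        conv_lhs => rw [← one_mul k', ← Units.val_one, ← inv_mul_cancel t, Units.val_mul]
        rw [mul_assoc, mul_assoc]
        congr 1
        have h8 : (t : Matrix (Fin n) (Fin n) F) * k' = k' * t := by
          rw [ht, add_mul, mul_add, one_mul, mul_one, hcomm k' hk]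
        exact h8
      rw [← h7]; exact hk
  · intro hmem
    have key : ∀ k ∈ K, (t : Matrix (Fin n) (Fin n) F) * k * ((t⁻¹ : GL (Fin n) F) : Matrix (Fin n) (Fin n) F) = k := by
      intro k hk
      set k' := (t : Matrix (Fin n) (Fin n) F) * k * ((t⁻¹ : GL (Fin n) F) : Matrix (Fin n) (Fin n) F) with hk'
      have hk'K : k' ∈ K := (hmem k).1 hk
      by_contra hcon
      obtain ⟨c, hcK, hc1⟩ := hi (k' - k) (K.sub_mem hk'K hk) (sub_ne_zero.2 hcon)
      have hle1 : LinearMap.ker φ ≤ Submodule.span E {c *ᵥ v} := by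
        intro x hx
        have hx0 : φ x = 0 := hx
        have h4 : N *ᵥ x = 0 := hN0 x hx0
        have h5 : k' *ᵥ x = k *ᵥ x + ψ (φ (k *ᵥ x)) *ᵥ v := by
          rw [hk', ht, hti, ← mulVec_mulVec, sub_mulVec, one_mulVec, h4, sub_zero, ← mulVec_mulVec, add_mulVec,
            one_mulVec, hNx]
        rw [Submodule.mem_span_singleton]
        refine ⟨φ (k *ᵥ x), ?_⟩
        rw [hsmul, mulVec_mulVec, hc _ (hle (hψ (φ (k *ᵥ x)))) c hcK, ← mulVec_mulVec]
        have h6 : ψ (φ (k *ᵥ x)) *ᵥ v = (k' - k) *ᵥ x := by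
          rw [sub_mulVec, h5]; abel
        rw [h6, mulVec_mulVec, ← hc _ (K.sub_mem hk'K hk) c hcK, hc1, one_mulVec]
      have h4 := Submodule.finrank_mono hle1
      have h5 := finrank_span_le_card (R := E) ({c *ᵥ v} : Set (Fin n → F))
      simp at h5
      omega
    obtain ⟨k, hk, hk0⟩ := hne
    obtain ⟨x, hx⟩ : ∃ x, φ x = 1 := by
      obtain ⟨y, hy⟩ : ∃ y, φ y ≠ 0 := by
        by_contra hcon
        push Not at hcon
        exact hφ0 (LinearMap.ext hcon)
      exact ⟨(φ y)⁻¹ • y, by rw [map_smul, smul_eq_mul, inv_mul_cancel₀ hy]⟩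
    have h4 : (t : Matrix (Fin n) (Fin n) F) * k = k * (t : Matrix (Fin n) (Fin n) F) := by
      have h5 := key k hk
      have h6 : ((t⁻¹ : GL (Fin n) F) : Matrix (Fin n) (Fin n) F) * t = 1 := by
        rw [← Units.val_mul, inv_mul_cancel, Units.val_one]
      calc (t : Matrix (Fin n) (Fin n) F) * k = (t : Matrix (Fin n) (Fin n) F) * k * (((t⁻¹ : GL (Fin n) F) : Matrix (Fin n) (Fin n) F) * t) := by
            rw [h6, mul_one]
        _ = (t : Matrix (Fin n) (Fin n) F) * k * ((t⁻¹ : GL (Fin n) F) : Matrix (Fin n) (Fin n) F) * t := by rw [mul_assoc _ _ (t : Matrix (Fin n) (Fin n) F)]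
        _ = k * t := by rw [h5]
    have h5 : ψ (φ (k *ᵥ x)) *ᵥ v = k *ᵥ v := by
      have h6 : ((t : Matrix (Fin n) (Fin n) F) * k) *ᵥ x = (k * (t : Matrix (Fin n) (Fin n) F)) *ᵥ x := by rw [h4]
      rw [ht, add_mul, mul_add, one_mul, mul_one, add_mulVec, add_mulVec] at h6
      have h7 := add_left_cancel h6
      rw [← mulVec_mulVec, ← mulVec_mulVec, hNx, hNx, hx] at h7
      rw [h7, ← hsmul 1 v, one_smul]
    have h6 : k - ψ (φ (k *ᵥ x)) ≠ 0 := by
      intro h
      rw [sub_eq_zero] at h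
      rw [h] at hk0
      exact hk0 (hψ _)
    have h8 := K.sub_mem hk (hle (hψ (φ (k *ᵥ x))))
    obtain ⟨c, hcK, hc1⟩ := hi _ h8 h6
    apply hv
    rw [← one_mulVec v, ← hc1, hc _ h8 c hcK, ← mulVec_mulVec, sub_mulVec, h5, sub_self, mulVec_zero]

theorem mover {K0 K : Subalgebra F (Matrix (Fin n) (Fin n) F)} (h0 : ∀ x ∈ K0, ∀ y ∈ K0, x * y = y * x)
    (i0 : ∀ x ∈ K0, x ≠ 0 → ∃ y ∈ K0, x * y = 1) (hc : ∀ x ∈ K, ∀ y ∈ K, x * y = y * x)
    (hi : ∀ x ∈ K, x ≠ 0 → ∃ y ∈ K, x * y = 1) (hle : K0 ≤ K) (hne : ∃ k ∈ K, k ∉ K0)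
    (hd : 3 * finrank F K0 ≤ n) :
    ∃ t : GL (Fin n) F, t ∈ specialLinear (Fin n) F ∧ t ∈ subalgebraNormalizer K0 ∧ t ∉ subalgebraNormalizer K := by
  have hn0 : n ≠ 0 := by
    rintro rfl
    obtain ⟨k, -, hk⟩ := hne
    apply hk
    have : k = 0 := Subsingleton.elim _ _
    rw [this]; exact K0.zero_mem
  haveI : Nonempty (Fin n) := ⟨⟨0, Nat.pos_of_ne_zero hn0⟩⟩
  have hF0 : IsField K0 := by
    refine ⟨⟨0, 1, ?_⟩, fun x y => Subtype.ext (h0 _ x.2 _ y.2), ?_⟩
    · intro h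
      exact zero_ne_one (congrArg Subtype.val h)
    · intro x hx
      obtain ⟨y, hy, hxy⟩ := i0 x.1 x.2 (fun h => hx (Subtype.ext h))
      exact ⟨⟨y, hy⟩, Subtype.ext hxy⟩
  let ρ : K0 →+* Module.End F (Fin n → F) := (((Matrix.toLinAlgEquiv' : Matrix (Fin n) (Fin n) F ≃ₐ[F] _).toAlgHom.comp K0.val).toRingHom)
  letI M : Module K0 (Fin n → F) := Module.compHom _ ρ
  have hst : IsScalarTower F K0 (Fin n → F) := ⟨fun a k v => by
    change (a • k).1 *ᵥ v = a • (k.1 *ᵥ v)
    exact Matrix.smul_mulVec a k.1 v⟩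
  exact @mover_aux F _ _ n K0 hF0.toField (inferInstanceAs (Algebra F K0)) M
    hst K0 K (fun k => k.1) (fun k v => rfl)
    (fun k => k.2) (fun x hx => ⟨⟨x, hx⟩, rfl⟩) le_rfl hc hi hle hne hd hn0

theorem inter_aux {E : Type*} [Field E] [Algebra F E] [FiniteDimensional F E] (hcomp : ¬ (finrank F E).Prime)
    (h1 : 1 < finrank F E) {A : Type*} [Ring A] [Algebra F A] (ψ : E →ₐ[F] A) (hψ : Function.Injective ψ) :
    ∃ K0 : Subalgebra F A, K0 ≤ ψ.range ∧ (∃ k ∈ ψ.range, k ∉ K0) ∧ (∃ k ∈ K0, k ∉ (⊥ : Subalgebra F A)) ∧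
      2 * finrank F K0 ≤ finrank F E ∧ (∀ x ∈ K0, x ≠ 0 → ∃ y ∈ K0, x * y = 1) ∧
      ∀ τ : A →ₐ[F] A, (∀ x ∈ ψ.range, τ x ∈ ψ.range) → ∀ x ∈ K0, τ x ∈ K0 := by
  haveI : Finite E := Module.finite_of_finite F
  have hp : (finrank F E).minFac.Prime := Nat.minFac_prime (by omega)
  set p := (finrank F E).minFac with hpdef
  haveI : Fact p.Prime := ⟨hp⟩
  have hcard := IsGalois.card_aut_eq_finrank F E
  obtain ⟨g, hg⟩ := exists_prime_orderOf_dvd_card' (G := Gal(E/F)) p (by rw [hcard]; exact Nat.minFac_dvd _)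
  set H := Subgroup.zpowers g with hH
  have hHc : Nat.card H = p := by rw [hH, Nat.card_zpowers, hg]
  set S := IntermediateField.fixedField H with hS
  have h2 : finrank S E = p := by rw [hS, IntermediateField.finrank_fixedField_eq_card, hHc]
  have h3 : finrank F S * finrank S E = finrank F E := Module.finrank_mul_finrank F S E
  rw [h2] at h3
  have h4 : 1 < finrank F S := by
    rcases Nat.lt_or_ge 1 (finrank F S) with h | h
    · exact h
    · exfalso
      have h5 : finrank F S ≠ 0 := by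
        intro h0
        rw [h0, zero_mul] at h3
        omega
      have h6 : finrank F S = 1 := by omega
      rw [h6, one_mul] at h3
      exact hcomp (h3 ▸ hp)
  have hmem : ∀ x, ψ x ∈ S.toSubalgebra.map ψ ↔ x ∈ S := by
    intro x
    constructor
    · rintro ⟨y, hy, hxy⟩
      have : y = x := hψ hxy
      rw [← this]; exact hy
    · intro hx
      exact ⟨x, hx, rfl⟩
  refine ⟨S.toSubalgebra.map ψ, ?_, ?_, ?_, ?_, ?_, ?_⟩
  · rintro _ ⟨x, -, rfl⟩
    exact ⟨x, rfl⟩
  · by_contra hcon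
    push Not at hcon
    have h5 : S = ⊤ := by
      rw [eq_top_iff]
      intro x _
      exact (hmem x).1 (hcon _ ⟨x, rfl⟩)
    rw [h5, IntermediateField.finrank_top] at h2
    exact hp.one_lt.ne h2
  · by_contra hcon
    push Not at hcon
    have h5 : S = ⊥ := by
      rw [eq_bot_iff]
      intro x hx
      have h6 := hcon _ ((hmem x).2 hx)
      rw [Algebra.mem_bot] at h6
      obtain ⟨a, ha⟩ := h6
      rw [IntermediateField.mem_bot]
      refine ⟨a, hψ ?_⟩
      rw [← ha]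
      exact ψ.commutes a
    rw [h5, IntermediateField.finrank_bot] at h4
    exact lt_irrefl _ h4
  · have h5 : finrank F (S.toSubalgebra.map ψ) = finrank F S := by
      exact (LinearEquiv.finrank_eq (S.toSubalgebra.equivMapOfInjective ψ hψ).toLinearEquiv).symm
    rw [h5, ← h3, mul_comm]
    exact Nat.mul_le_mul_left _ hp.two_le
  · rintro _ ⟨x, hx, rfl⟩ h0
    have hx0 : x ≠ 0 := by rintro rfl; exact h0 (map_zero _)
    refine ⟨ψ x⁻¹, (hmem _).2 (S.inv_mem hx), ?_⟩
    change ψ x * ψ x⁻¹ = 1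
    rw [← map_mul, mul_inv_cancel₀ hx0, map_one]
  · intro τ hτ
    let e := AlgEquiv.ofInjective ψ hψ
    let σ : E →ₐ[F] E := e.symm.toAlgHom.comp ((τ.comp ψ).codRestrict ψ.range (fun x => hτ _ ⟨x, rfl⟩))
    have hσ : ∀ x, ψ (σ x) = τ (ψ x) := by
      intro x
      have h5 : (e (σ x)).1 = τ (ψ x) := by
        change (e (e.symm _)).1 = _
        rw [AlgEquiv.apply_symm_apply]
        rfl
      exact h5
    have hbij : Function.Bijective σ :=
      ⟨σ.toRingHom.injective, (LinearMap.injective_iff_surjective (f := σ.toLinearMap)).1 σ.toRingHom.injective⟩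
    let σ' : Gal(E/F) := AlgEquiv.ofBijective σ hbij
    rintro _ ⟨x, hx, rfl⟩
    change τ (ψ x) ∈ _
    rw [← hσ, hmem, hS, IntermediateField.mem_fixedField_iff]
    intro f hf
    have hx' : ∀ f ∈ H, f x = x := by
      have : x ∈ IntermediateField.fixedField H := hx
      rwa [IntermediateField.mem_fixedField_iff] at this
    have h5 : f * σ' = σ' * f := IsCyclic.isMulCommutative.is_comm.comm _ _
    have h6 : (f * σ') x = (σ' * f) x := by rw [h5]
    change f (σ x) = σ (f x) at h6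
    rw [h6, hx' f hf]

/-- the intermediate field -/
theorem inter {r : ℕ} (hr1 : 1 < r) (hrp : ¬ r.Prime) {K : Subalgebra F (Matrix (Fin n) (Fin n) F)} (hn : n ≠ 0)
    (hK : IsFieldSubalgebra r K) :
    ∃ K0 : Subalgebra F (Matrix (Fin n) (Fin n) F), K0 ≤ K ∧ (∃ k ∈ K, k ∉ K0) ∧
      (∃ k ∈ K0, k ∉ (⊥ : Subalgebra F (Matrix (Fin n) (Fin n) F))) ∧
      2 * finrank F K0 ≤ r ∧ (∀ x ∈ K0, x ≠ 0 → ∃ y ∈ K0, x * y = 1) ∧ subalgebraNormalizer K ≤ subalgebraNormalizer K0 := by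
  haveI : Nonempty (Fin n) := ⟨⟨0, Nat.pos_of_ne_zero hn⟩⟩
  have hF0 : IsField K := by
    refine ⟨⟨0, 1, ?_⟩, fun x y => Subtype.ext (hK.comm _ x.2 _ y.2), ?_⟩
    · intro h
      exact zero_ne_one (congrArg Subtype.val h)
    · intro x hx
      obtain ⟨y, hy, hxy⟩ := hK.inv x.1 x.2 (fun h => hx (Subtype.ext h))
      exact ⟨⟨y, hy⟩, Subtype.ext hxy⟩
  have hdim := hK.finrank_eq
  obtain ⟨K0, h1, h2, h3, h4, h5, h6⟩ := @inter_aux F _ _ K hF0.toField (inferInstanceAs (Algebra F K))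
    (inferInstanceAs (FiniteDimensional F K)) (by rw [← hdim] at hrp; exact hrp) (by rw [← hdim] at hr1; exact hr1)
    (Matrix (Fin n) (Fin n) F) _ _ K.val Subtype.val_injective
  have hrange : ∀ x, x ∈ K.val.range ↔ x ∈ K := by
    intro x
    rw [Subalgebra.range_val]
  have h1' : K0 ≤ K := fun x hx => (hrange x).1 (h1 hx)
  refine ⟨K0, h1', ?_, h3, by rw [← hdim]; exact h4, h5, ?_⟩
  · obtain ⟨k, hk, hk0⟩ := h2
    exact ⟨k, (hrange k).1 hk, hk0⟩
  · have key : ∀ g ∈ subalgebraNormalizer K, ∀ k ∈ K0,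
        (g : Matrix (Fin n) (Fin n) F) * k * ((g⁻¹ : GL (Fin n) F) : Matrix (Fin n) (Fin n) F) ∈ K0 := by
      intro g hg
      have hgi : ((g⁻¹ : GL (Fin n) F) : Matrix (Fin n) (Fin n) F) * (g : Matrix (Fin n) (Fin n) F) = 1 := by
        rw [← Units.val_mul, inv_mul_cancel, Units.val_one]
      have hgi' : (g : Matrix (Fin n) (Fin n) F) * ((g⁻¹ : GL (Fin n) F) : Matrix (Fin n) (Fin n) F) = 1 := by
        rw [← Units.val_mul, mul_inv_cancel, Units.val_one]
      let τ : Matrix (Fin n) (Fin n) F →ₐ[F] Matrix (Fin n) (Fin n) F :=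
        { toFun := fun k => (g : Matrix (Fin n) (Fin n) F) * k * ((g⁻¹ : GL (Fin n) F) : Matrix (Fin n) (Fin n) F)
          map_one' := by rw [mul_one, hgi']
          map_mul' := fun x y => by
            have : (g : Matrix (Fin n) (Fin n) F) * x * ((g⁻¹ : GL (Fin n) F) : Matrix (Fin n) (Fin n) F) *
              ((g : Matrix (Fin n) (Fin n) F) * y * ((g⁻¹ : GL (Fin n) F) : Matrix (Fin n) (Fin n) F)) =
              (g : Matrix (Fin n) (Fin n) F) * x * (((g⁻¹ : GL (Fin n) F) : Matrix (Fin n) (Fin n) F) * (g : Matrix (Fin n) (Fin n) F)) *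
                (y * ((g⁻¹ : GL (Fin n) F) : Matrix (Fin n) (Fin n) F)) := by
              simp only [mul_assoc]
            rw [this, hgi, mul_one]
            simp only [mul_assoc]
          map_zero' := by rw [mul_zero, zero_mul]
          map_add' := fun x y => by rw [mul_add, add_mul]
          commutes' := fun a => by
            change (g : Matrix (Fin n) (Fin n) F) * (algebraMap F (Matrix (Fin n) (Fin n) F) a) * _ = _
            rw [← Algebra.commutes, mul_assoc, hgi', mul_one] }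
      intro k hk
      exact h6 τ (fun x hx => (hrange _).2 ((hg x).1 ((hrange x).1 hx))) k hk
    intro g hg k
    constructor
    · exact key g hg k
    · intro hk
      have h7 := key g⁻¹ (inv_mem hg) _ hk
      have h8 : ((g⁻¹ : GL (Fin n) F) : Matrix (Fin n) (Fin n) F) *
          ((g : Matrix (Fin n) (Fin n) F) * k * ((g⁻¹ : GL (Fin n) F) : Matrix (Fin n) (Fin n) F)) *
          (((g⁻¹)⁻¹ : GL (Fin n) F) : Matrix (Fin n) (Fin n) F) = k := by
        rw [inv_inv]
        simp only [← mul_assoc, ← Units.val_mul, inv_mul_cancel, Units.val_one, one_mul]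
        rw [mul_assoc, ← Units.val_mul, inv_mul_cancel, Units.val_one, mul_one]
      rw [h8] at h7
      exact h7

theorem not_max {r : ℕ} (hr1 : 1 < r) (hrp : ¬ r.Prime) (hrn : r ∣ n) (hlt : r < n)
    {K : Subalgebra F (Matrix (Fin n) (Fin n) F)} (hK : IsFieldSubalgebra r K) :
    ¬ IsCoatom (subalgebraNormalizer K) ∧
      ¬ IsMaximalIn (specialLinear (Fin n) F) (subalgebraNormalizer K ⊓ specialLinear (Fin n) F) := by
  have hn : 2 * r ≤ n := by
    obtain ⟨c, rfl⟩ := hrn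
    have : 2 ≤ c := by
      by_contra hcon
      push Not at hcon
      have : r * c ≤ r * 1 := Nat.mul_le_mul_left _ (by omega)
      omega
    rw [mul_comm]
    exact Nat.mul_le_mul_left _ this
  obtain ⟨K0, h1, h2, h3, h4, h5, h6⟩ := inter hr1 hrp (by omega) hK
  haveI : Nonempty (Fin n) := ⟨⟨0, by omega⟩⟩
  have hbot : ∀ x ∈ (⊥ : Subalgebra F (Matrix (Fin n) (Fin n) F)), ∀ y : Matrix (Fin n) (Fin n) F, x * y = y * x := by
    intro x hx y
    rw [Algebra.mem_bot] at hx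
    obtain ⟨a, rfl⟩ := hx
    exact Algebra.commutes a y
  have hboti : ∀ x ∈ (⊥ : Subalgebra F (Matrix (Fin n) (Fin n) F)), x ≠ 0 →
      ∃ y ∈ (⊥ : Subalgebra F (Matrix (Fin n) (Fin n) F)), x * y = 1 := by
    intro x hx hx0
    rw [Algebra.mem_bot] at hx
    obtain ⟨a, rfl⟩ := hx
    have ha : a ≠ 0 := by rintro rfl; exact hx0 (map_zero _)
    exact ⟨algebraMap F _ a⁻¹, Algebra.mem_bot.2 ⟨_, rfl⟩, by rw [← map_mul, mul_inv_cancel₀ ha, map_one]⟩
  have hc0 : ∀ x ∈ K0, ∀ y ∈ K0, x * y = y * x := fun x hx y hy => hK.comm x (h1 hx) y (h1 hy)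
  obtain ⟨t, htS, ht0, htK⟩ := mover hc0 h5 hK.comm hK.inv h1 h2 (by omega)
  obtain ⟨s, hsS, -, hs0⟩ := mover (K0 := ⊥) (K := K0) (fun x hx y _ => hbot x hx y) hboti hc0 h5 bot_le h3
    (by rw [Subalgebra.finrank_bot]; omega)
  constructor
  · intro hco
    have h7 : subalgebraNormalizer K < subalgebraNormalizer K0 := lt_of_le_of_ne h6 (fun h => htK (h ▸ ht0))
    have h8 := hco.2 _ h7
    exact hs0 (h8 ▸ Subgroup.mem_top s)
  · rintro ⟨-, hmax⟩
    rcases hmax (subalgebraNormalizer K0 ⊓ specialLinear (Fin n) F) (inf_le_inf_right _ h6) inf_le_right with h | h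
    · have : t ∈ subalgebraNormalizer K0 ⊓ specialLinear (Fin n) F := ⟨ht0, htS⟩
      rw [h] at this
      exact htK this.1
    · have : s ∈ specialLinear (Fin n) F := hsS
      rw [← h] at this
      exact hs0 this.1

end Cfsg.Agent.H7.FieldSub
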