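import Cfsg.Agent.H7.Quat

set_option autoImplicit false

/-! Frobenius groups of order 72. -/

namespace Cfsg.Agent.H7

theorem frob72 {G : Type*} [Group G] [Finite G] (hG : Nat.card G = 72) (S : Subgroup G) (hS : Nat.card S = 8)
    (hmal : ∀ g ∉ S, ∀ x ∈ S, g * x * g⁻¹ ∈ S → x = 1) : ∃ (N : Subgroup G) (_ : N.Normal), Nat.card N = 9 ∧
      (∀ x ∈ N, x ^ 3 = 1) ∧ Nonempty (G ⧸ N ≃* S) := by
  classical
  haveI : Fact (Nat.Prime 3) := ⟨Nat.prime_three⟩
  have hcard9 : ∀ P : Sylow 3 G, Nat.card P = 9 := by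
    intro P
    rw [P.card_eq_multiplicity, hG]
    have : (72 : ℕ) = 2 ^ 3 * 3 ^ 2 := by norm_num
    rw [this, Nat.factorization_mul (by norm_num) (by norm_num), Nat.Prime.factorization_pow Nat.prime_two,
      Nat.Prime.factorization_pow Nat.prime_three]
    simp
  -- elements of order dividing 8 and 9
  have hcop : ∀ (P : Sylow 3 G) (g x : G), g * x * g⁻¹ ∈ (P : Subgroup G) → x ∈ S → x = 1 := by
    intro P g x hx hxS
    have h1 : x ^ 8 = 1 := by
      have h : (⟨x, hxS⟩ : S) ^ Nat.card S = 1 := pow_card_eq_one'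
      rw [hS] at h
      exact congrArg Subtype.val h
    have h2 : x ^ 9 = 1 := by
      have h : (⟨g * x * g⁻¹, hx⟩ : (P : Subgroup G)) ^ Nat.card P = 1 := pow_card_eq_one'
      rw [hcard9] at h
      have h3 : (g * x * g⁻¹) ^ 9 = 1 := congrArg Subtype.val h
      rw [conj_pow] at h3
      have h4 := congrArg (fun z => g⁻¹ * z * g) h3
      simpa [mul_assoc] using h4
    calc x = x ^ 9 * (x ^ 8)⁻¹ := by rw [pow_succ' x 8, mul_inv_cancel_right]
      _ = 1 := by rw [h1, h2]; simp
  -- counting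
  have hidx : Nat.card (G ⧸ S) = 9 := by
    have := S.card_eq_card_quotient_mul_card_subgroup
    rw [hG, hS] at this
    omega
  let A : Set G := {x | x ≠ 1 ∧ ∃ g : G, g * x * g⁻¹ ∈ S}
  have hA : 63 ≤ A.ncard := by
    have h1 : Nat.card ((G ⧸ S) × {s : S // s ≠ 1}) = 63 := by
      rw [Nat.card_prod, hidx]
      have h2 : Nat.card {s : S // s ≠ 1} = 7 := by
        haveI : Fintype S := Fintype.ofFinite _
        rw [Nat.card_eq_fintype_card, Fintype.card_subtype_compl, Fintype.card_subtype_eq, ← Nat.card_eq_fintype_card, hS]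
      rw [h2]
    rw [← h1, ← Nat.card_coe_set_eq]
    refine Nat.card_le_card_of_injective (fun p => (⟨p.1.out * p.2.1 * p.1.out⁻¹, ?_, p.1.out⁻¹, ?_⟩ : A)) ?_
    · intro h
      apply p.2.2
      apply Subtype.ext
      have h2 : (p.2.1 : G) = p.1.out⁻¹ * (p.1.out * p.2.1 * p.1.out⁻¹) * p.1.out := by group
      rw [h2, h]
      simp
    · have : p.1.out⁻¹ * (p.1.out * p.2.1 * p.1.out⁻¹) * p.1.out⁻¹⁻¹ = p.2.1 := by group
      rw [this]
      exact p.2.1.2
    · rintro ⟨a, s, hs⟩ ⟨b, t, ht⟩ h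
      have h1 : a.out * s * a.out⁻¹ = b.out * t * b.out⁻¹ := congrArg Subtype.val h
      have h2 : b.out⁻¹ * a.out * (s : G) * (b.out⁻¹ * a.out)⁻¹ = t := by
        have : b.out⁻¹ * a.out * (s : G) * (b.out⁻¹ * a.out)⁻¹ = b.out⁻¹ * (a.out * s * a.out⁻¹) * b.out := by group
        rw [this, h1]
        group
      have h3 : b.out⁻¹ * a.out ∈ S := by
        by_contra h4
        exact hs (Subtype.ext (hmal _ h4 s s.2 (by rw [h2]; exact t.2)))
      have h4 : a = b := by
        rw [← QuotientGroup.out_eq' a, ← QuotientGroup.out_eq' b]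
        exact (QuotientGroup.eq.2 h3).symm
      subst h4
      have h5 : s = t := by
        apply Subtype.ext
        exact mul_left_cancel (mul_right_cancel h1)
      subst h5
      rfl
  have hAP : ∀ P : Sylow 3 G, ((P : Subgroup G) : Set G) ⊆ Aᶜ := by
    intro P x hx hxA
    obtain ⟨h1, g, hg⟩ := hxA
    have h2 := hcop P g⁻¹ (g * x * g⁻¹) (by
      have : g⁻¹ * (g * x * g⁻¹) * g⁻¹⁻¹ = x := by group
      rw [this]; exact hx) hg
    apply h1
    have h3 : x = g⁻¹ * (g * x * g⁻¹) * g := by group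
    rw [h3, h2]
    simp
  have hAc : Aᶜ.ncard ≤ 9 := by
    have := Set.ncard_add_ncard_compl A
    rw [hG] at this
    omega
  have hPeq : ∀ P : Sylow 3 G, ((P : Subgroup G) : Set G) = Aᶜ := by
    intro P
    apply Set.eq_of_subset_of_ncard_le (hAP P) _ (Set.toFinite _)
    rw [← Nat.card_coe_set_eq]
    exact hAc.trans (hcard9 P).ge
  obtain ⟨P⟩ : Nonempty (Sylow 3 G) := inferInstance
  have hnorm : (P : Subgroup G).Normal := by
    haveI : Subsingleton (Sylow 3 G) := ⟨fun P Q => Sylow.ext (SetLike.coe_injective ((hPeq P).trans (hPeq Q).symm))⟩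
    exact Sylow.normal_of_subsingleton P
  have hPS : ∀ x ∈ (P : Subgroup G), x ∈ S → x = 1 := fun x hx hxS => hcop P 1 x (by simpa using hx) hxS
  refine ⟨P, hnorm, hcard9 P, ?_, ?_⟩
  · -- exponent three
    obtain ⟨y, hy⟩ := exists_prime_orderOf_dvd_card' (G := (P : Subgroup G)) 3 (by rw [hcard9]; norm_num)
    have hy3 : y ^ 3 = 1 := orderOf_dvd_iff_pow_eq_one.1 (dvd_of_eq hy)
    have hy1 : y ≠ 1 := by
      rintro rfl
      rw [orderOf_one] at hy
      norm_num at hy
    let f : S → {x : (P : Subgroup G) // x ≠ 1} := fun s => ⟨⟨s * y * (s : G)⁻¹, hnorm.conj_mem _ y.2 _⟩, by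
      intro h
      apply hy1
      apply Subtype.ext
      have h1 : (s : G) * y * (s : G)⁻¹ = 1 := congrArg Subtype.val h
      have h2 : (y : G) = (s : G)⁻¹ * ((s : G) * y * (s : G)⁻¹) * s := by group
      rw [h2, h1]
      simp⟩
    have hf : Function.Injective f := by
      intro s t hst
      have h1 : (s : G) * y * (s : G)⁻¹ = t * y * (t : G)⁻¹ := congrArg (fun z => ((z.1 : (P : Subgroup G)) : G)) hst
      have h2 : (y : G) * ((t : G)⁻¹ * s) * (y : G)⁻¹ = (t : G)⁻¹ * s := by
        have h3 : (t : G)⁻¹ * s * y = y * ((t : G)⁻¹ * s) := by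
          have h4 : (t : G)⁻¹ * s * y = (t : G)⁻¹ * ((s : G) * y * (s : G)⁻¹) * s := by group
          rw [h4, h1]
          group
        rw [← h3]
        group
      have h3 := hmal y (fun h => hy1 (Subtype.ext (hPS y y.2 h))) ((t : G)⁻¹ * s) (mul_mem (inv_mem t.2) s.2)
        (by rw [h2]; exact mul_mem (inv_mem t.2) s.2)
      exact Subtype.ext (inv_mul_eq_one.1 h3).symm
    have hfs : Function.Surjective f := by
      haveI : Fintype (P : Subgroup G) := Fintype.ofFinite _
      have h1 : Nat.card {x : (P : Subgroup G) // x ≠ 1} = 8 := by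
        rw [Nat.card_eq_fintype_card, Fintype.card_subtype_compl, Fintype.card_subtype_eq, ← Nat.card_eq_fintype_card]
        rw [hcard9]
      exact (Nat.bijective_iff_injective_and_card f).2 ⟨hf, by rw [hS, h1]⟩ |>.2
    intro x hx
    by_cases hx1 : x = 1
    · rw [hx1, one_pow]
    · obtain ⟨s, hs⟩ := hfs ⟨⟨x, hx⟩, fun h => hx1 (congrArg Subtype.val h)⟩
      have h1 : (s : G) * y * (s : G)⁻¹ = x := congrArg (fun z => ((z.1 : (P : Subgroup G)) : G)) hs
      have h2 : (y : G) ^ 3 = 1 := congrArg Subtype.val hy3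
      rw [← h1, conj_pow, h2]
      simp
  · haveI := hnorm
    let φ : S →* G ⧸ (P : Subgroup G) := (QuotientGroup.mk' (P : Subgroup G)).comp S.subtype
    have hφ : Function.Bijective φ := by
      rw [Nat.bijective_iff_injective_and_card]
      refine ⟨?_, ?_⟩
      · rw [injective_iff_map_eq_one]
        intro s hs
        apply Subtype.ext
        exact hPS s ((QuotientGroup.eq_one_iff (s : G)).1 hs) s.2
      · have := (P : Subgroup G).card_eq_card_quotient_mul_card_subgroup
        have h9 := hcard9 P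
        have h9' : Nat.card (P : Subgroup G) = 9 := h9
        rw [hG, h9'] at this
        rw [hS]
        omega
    exact ⟨(MulEquiv.ofBijective φ hφ).symm⟩

end Cfsg.Agent.H7
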