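import Cfsg.Agent.H7.KF2

/-!
Normalizers of Klein four-subgroups.
-/

set_option autoImplicit false
set_option linter.unusedSectionVars false

namespace Cfsg.Agent.H7.KF

open Matrix
open Cfsg Cfsg.Agent.H7.SL2 Cfsg.Agent.H7.IsoCl

section generic
variable {G : Type*} [Group G]

theorem comm_of_sq {x y : G} (hx : x * x = 1) (hy : y * y = 1) (hxy : (x * y) * (x * y) = 1) : x * y = y * x := by
  have h1 : x⁻¹ = x := inv_eq_of_mul_eq_one_left hx
  have h2 : y⁻¹ = y := inv_eq_of_mul_eq_one_left hy
  have h3 : (x * y)⁻¹ = x * y := inv_eq_of_mul_eq_one_left hxy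
  rw [← h3, _root_.mul_inv_rev, h1, h2]

theorem klein_comm {V : Subgroup G} (hV : IsKleinFour V) {x y : G} (hx : x ∈ V) (hy : y ∈ V) : x * y = y * x :=
  comm_of_sq ((klein_iff.1 hV).2 _ hx) ((klein_iff.1 hV).2 _ hy) ((klein_iff.1 hV).2 _ (mul_mem hx hy))

theorem mem_four [Finite G] {V : Subgroup G} (hV : IsKleinFour V) {x y : G} (hx : x ∈ V) (hy : y ∈ V) (hx1 : x ≠ 1) (hy1 : y ≠ 1)
    (hxy : x ≠ y) {v : G} (hv : v ∈ V) : v = 1 ∨ v = x ∨ v = y ∨ v = x * y := by
  have h := (klein_iff.1 hV).2
  have h1 := (V0_eq (h _ hx) (h _ hy) (klein_comm hV hx hy) hx1 hy1 hxy hV).2 ⟨hx, hy⟩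
  rw [← h1] at hv
  exact hv

theorem exists_other {V : Subgroup G} (hV : IsKleinFour V) (v : G) : ∃ u ∈ V, u ≠ 1 ∧ u ≠ v := by
  classical
  by_contra hcon
  push Not at hcon
  have h1 : (V : Set G) ⊆ (({1, v} : Finset G) : Set G) := by
    intro x hx
    by_cases hx1 : x = 1
    · simp [hx1]
    · simp [hcon x hx hx1]
  have h3 := Set.ncard_le_ncard h1 (Finset.finite_toSet _)
  rw [Set.ncard_coe_finset, ← Nat.card_coe_set_eq] at h3
  have h4 : Nat.card V ≤ ({1, v} : Finset G).card := h3
  have h5 := Finset.card_le_two (a := (1 : G)) (b := v)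
  have h6 := hV.card_four
  omega

/-- groups of order twelve and twenty-four with a self-centralizing normal four-group -/
theorem embed4 [Finite G] {V : Subgroup G} (hV : IsKleinFour V) (hn : V.Normal) (hC : ∀ g, (∀ v ∈ V, g * v = v * g) → g ∈ V)
    (hcard : Nat.card G = 12 ∨ Nat.card G = 24) : ∃ φ : G →* Equiv.Perm (Fin 4), Function.Injective φ := by
  haveI : Fact (Nat.Prime 3) := ⟨Nat.prime_three⟩
  have h3G : 3 ∣ Nat.card G := by rcases hcard with h | h <;> rw [h] <;> norm_num
  obtain ⟨P⟩ : Nonempty (Sylow 3 G) := inferInstance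
  have hP : Nat.card (P : Subgroup G) = 3 := by
    obtain ⟨n, hn⟩ := IsPGroup.iff_card.1 P.isPGroup'
    have h1 : 3 ∣ Nat.card (P : Subgroup G) := P.dvd_card_of_dvd_card h3G
    have h2 : Nat.card (P : Subgroup G) ∣ Nat.card G := Subgroup.card_subgroup_dvd_card _
    change Nat.card (P : Subgroup G) = 3 ^ n at hn
    rw [hn] at h1 h2 ⊢
    have hn1 : n ≠ 0 := by rintro rfl; norm_num at h1
    have hn2 : n < 2 := by
      by_contra hcon
      have h4 : 3 ^ 2 ∣ Nat.card G := (pow_dvd_pow 3 (by omega)).trans h2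
      rcases hcard with h | h <;> rw [h] at h4 <;> norm_num at h4
    have : n = 1 := by omega
    rw [this, pow_one]
  have hPV : (P : Subgroup G) ⊓ V = ⊥ := by
    apply Subgroup.inf_eq_bot_of_coprime
    rw [hP, hV.card_four]
    norm_num
  have hbot : ∀ g, g ∈ (P : Subgroup G) → g ∈ V → g = 1 := by
    intro g h1 h2
    have : g ∈ (P : Subgroup G) ⊓ V := ⟨h1, h2⟩
    rw [hPV, Subgroup.mem_bot] at this
    exact this
  have hidx : P.index = 4 ∨ P.index = 8 := by
    have h1 := Subgroup.card_mul_index (P : Subgroup G)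
    rw [hP] at h1
    rcases hcard with h | h
    · left
      change (P : Subgroup G).index = 4
      omega
    · right
      change (P : Subgroup G).index = 8
      omega
  have hcS : Nat.card (Sylow 3 G) = 1 ∨ Nat.card (Sylow 3 G) = 4 := by
    have h1 := card_sylow_modEq_one 3 G
    have h2 := P.card_dvd_index
    have h4 : Nat.card (Sylow 3 G) ∣ 8 := by
      rcases hidx with h | h
      · rw [h] at h2; exact h2.trans (by norm_num)
      · rw [h] at h2; exact h2
    have h5 : Nat.card (Sylow 3 G) ≤ 8 := Nat.le_of_dvd (by norm_num) h4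
    unfold Nat.ModEq at h1
    interval_cases Nat.card (Sylow 3 G) <;> simp_all
  have hS : Nat.card (Sylow 3 G) = 4 := by
    rcases hcS with h | h
    · exfalso
      haveI : Subsingleton (Sylow 3 G) := (Nat.card_eq_one_iff_unique.1 h).1
      have hPn : (P : Subgroup G).Normal := Sylow.normal_of_subsingleton P
      have h1 : (P : Subgroup G) ≤ V := by
        intro g hg
        apply hC
        intro v hv
        exact Subgroup.commute_of_normal_of_disjoint _ _ hPn hn (disjoint_iff.2 hPV) g v hg hv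
      have h2 : (P : Subgroup G) = ⊥ := by rw [← hPV, inf_eq_left.2 h1]
      rw [h2, Subgroup.card_bot] at hP
      norm_num at hP
    · exact h
  obtain ⟨w, hwP, hw1⟩ : ∃ w ∈ (P : Subgroup G), w ≠ 1 := by
    by_contra hcon
    push Not at hcon
    have h2 : (P : Subgroup G) = ⊥ := (Subgroup.eq_bot_iff_forall _).2 hcon
    rw [h2, Subgroup.card_bot] at hP
    norm_num at hP
  have hw3 : w * w * w = 1 := by
    have := pow_card_eq_one' (x := (⟨w, hwP⟩ : (P : Subgroup G)))
    rw [hP] at this
    have := congrArg Subtype.val this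
    rw [← pow_three']
    exact this
  let φ := MulAction.toPermHom G (Sylow 3 G)
  have hKV : ∀ v, v ∈ φ.ker → v ∈ V → v = 1 := by
    intro v hvK hvV
    by_contra hv1
    have hvP : v • P = P := by
      have : φ v P = P := by rw [MonoidHom.mem_ker.1 hvK]; rfl
      exact this
    rw [Sylow.smul_eq_iff_mem_normalizer] at hvP
    have hvw : w * v * w⁻¹ = v := by
      have h1 : v * w * v⁻¹ * w⁻¹ = 1 := by
        apply hbot
        · exact mul_mem ((Subgroup.mem_normalizer_iff.1 hvP w).1 hwP) (inv_mem hwP)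
        · have : v * w * v⁻¹ * w⁻¹ = v * (w * v⁻¹ * w⁻¹) := by group
          rw [this]
          exact mul_mem hvV (hn.conj_mem _ (inv_mem hvV) w)
      rw [mul_inv_eq_one, mul_inv_eq_iff_eq_mul] at h1
      rw [mul_inv_eq_iff_eq_mul, ← h1]
    obtain ⟨u, huV, hu1, huv⟩ := exists_other hV v
    have hwu : w * u * w⁻¹ = u := by
      have h1 : w * u * w⁻¹ ∈ V := hn.conj_mem _ huV w
      rcases mem_four hV hvV huV hv1 hu1 huv.symm h1 with h | h | h | h
      · exfalso
        apply hu1
        rw [mul_inv_eq_iff_eq_mul, one_mul] at h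
        exact mul_eq_left.1 h
      · exfalso
        apply huv
        rw [← hvw] at h
        exact mul_left_cancel (mul_right_cancel h)
      · exact h
      · exfalso
        have h2 : w * (w * u * w⁻¹) * w⁻¹ = u := by
          rw [h]
          calc w * (v * u) * w⁻¹ = (w * v * w⁻¹) * (w * u * w⁻¹) := by group
            _ = v * (v * u) := by rw [hvw, h]
            _ = u := by rw [← mul_assoc, (klein_iff.1 hV).2 v hvV, one_mul]
        have h3 : w * u * w⁻¹ = u := by
          calc w * u * w⁻¹ = w * (w * (w * u * w⁻¹) * w⁻¹) * w⁻¹ := by rw [h2]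
            _ = (w * w * w) * u * (w * w * w)⁻¹ := by group
            _ = u := by rw [hw3]; group
        rw [h3] at h
        exact hv1 (right_eq_mul.1 h)
    apply hw1
    apply hbot w hwP
    apply hC
    intro x hx
    rw [← mul_inv_eq_iff_eq_mul]
    rcases mem_four hV hvV huV hv1 hu1 huv.symm hx with rfl | rfl | rfl | rfl
    · group
    · exact hvw
    · exact hwu
    · calc w * (v * u) * w⁻¹ = (w * v * w⁻¹) * (w * u * w⁻¹) := by group
        _ = v * u := by rw [hvw, hwu]
  have hKbot : φ.ker ⊓ V = ⊥ := by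
    rw [Subgroup.eq_bot_iff_forall]
    rintro v ⟨h1, h2⟩
    exact hKV v h1 h2
  have hK : φ.ker = ⊥ := by
    have h1 : φ.ker ≤ V := by
      intro g hg
      apply hC
      intro v hv
      exact Subgroup.commute_of_normal_of_disjoint _ _ (MonoidHom.normal_ker φ) hn (disjoint_iff.2 hKbot) g v hg hv
    rw [← hKbot, inf_eq_left.2 h1]
  let e : Sylow 3 G ≃ Fin 4 := Finite.equivFinOfCardEq hS
  exact ⟨e.permCongrHom.toMonoidHom.comp φ, e.permCongrHom.injective.comp ((MonoidHom.ker_eq_bot_iff φ).1 hK)⟩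

theorem s4_of [Finite G] {V : Subgroup G} (hV : IsKleinFour V) (hn : V.Normal) (hC : ∀ g, (∀ v ∈ V, g * v = v * g) → g ∈ V)
    (hcard : Nat.card G = 24) : Nonempty (G ≃* Equiv.Perm (Fin 4)) := by
  obtain ⟨φ, hφ⟩ := embed4 hV hn hC (Or.inr hcard)
  refine ⟨MulEquiv.ofBijective φ ((Nat.bijective_iff_injective_and_card _).2 ⟨hφ, ?_⟩)⟩
  rw [hcard, Nat.card_perm, Nat.card_eq_fintype_card, Fintype.card_fin]
  rfl

theorem a4_of [Finite G] {V : Subgroup G} (hV : IsKleinFour V) (hn : V.Normal) (hC : ∀ g, (∀ v ∈ V, g * v = v * g) → g ∈ V)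
    (hcard : Nat.card G = 12) : Nonempty (G ≃* alternatingGroup (Fin 4)) := by
  obtain ⟨φ, hφ⟩ := embed4 hV hn hC (Or.inl hcard)
  apply Cfsg.Agent.H7.Tv.equiv_alt_of_inj φ hφ
  rw [hcard]
  rfl

/-- transfer to the normalizer -/
theorem norm_setup [Finite G] {V : Subgroup G} (hV : IsKleinFour V) (hC : ∀ g, (∀ v ∈ V, g * v = v * g) → g ∈ V) :
    IsKleinFour (V.subgroupOf (Subgroup.normalizer (V : Set G))) ∧ (V.subgroupOf (Subgroup.normalizer (V : Set G))).Normal ∧
    (∀ g, (∀ v ∈ V.subgroupOf (Subgroup.normalizer (V : Set G)), g * v = v * g) → g ∈ V.subgroupOf (Subgroup.normalizer (V : Set G))) := by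
  have hle : V ≤ Subgroup.normalizer (V : Set G) := Subgroup.le_normalizer
  refine ⟨?_, Subgroup.normal_in_normalizer, ?_⟩
  · rw [klein_iff]
    constructor
    · rw [Nat.card_congr (Subgroup.subgroupOfEquivOfLe hle).toEquiv, hV.card_four]
    · rintro ⟨v, hv⟩ hvV
      exact Subtype.ext ((klein_iff.1 hV).2 v hvV)
  · rintro ⟨g, hg⟩ h
    apply hC
    intro v hv
    exact congrArg Subtype.val (h ⟨v, hle hv⟩ hv)

theorem card_norm_dvd [Finite G] {V : Subgroup G} (hV : IsKleinFour V) (hC : ∀ g, (∀ v ∈ V, g * v = v * g) → g ∈ V) :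
    Nat.card (Subgroup.normalizer (V : Set G)) ∣ 24 := by
  classical
  have hle : V ≤ Subgroup.normalizer (V : Set G) := Subgroup.le_normalizer
  have h1 := Subgroup.card_eq_card_quotient_mul_card_subgroup V.normalizerMonoidHom.ker
  rw [Nat.card_congr (QuotientGroup.quotientKerEquivRange V.normalizerMonoidHom).toEquiv, Subgroup.normalizerMonoidHom_ker] at h1
  have hcen : Subgroup.centralizer (V : Set G) = V := by
    apply le_antisymm
    · intro g hg
      apply hC
      intro v hv
      exact (Subgroup.mem_centralizer_iff.1 hg v hv).symm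
    · intro g hg
      rw [Subgroup.mem_centralizer_iff]
      intro v hv
      exact klein_comm hV hv hg
  rw [hcen, Nat.card_congr (Subgroup.subgroupOfEquivOfLe hle).toEquiv, hV.card_four] at h1
  let f : MulAut V →* Equiv.Perm {v : V // v ≠ 1} :=
    { toFun := fun φ => Equiv.subtypeEquiv φ.toEquiv (fun x => by
        change x ≠ 1 ↔ φ x ≠ 1
        rw [not_iff_not]
        exact (map_eq_one_iff φ φ.injective).symm)
      map_one' := rfl
      map_mul' := fun φ ψ => rfl }
  have hf : Function.Injective f := by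
    intro φ ψ h
    apply MulEquiv.ext
    intro v
    by_cases hv : v = 1
    · rw [hv, map_one, map_one]
    · have := congrFun (congrArg DFunLike.coe h) ⟨v, hv⟩
      exact congrArg Subtype.val this
  have h3 : Nat.card (MulAut V) ∣ 6 := by
    have := Subgroup.card_dvd_of_injective f hf
    rw [Nat.card_perm] at this
    have h4 : Nat.card {v : V // v ≠ 1} = 3 := by
      haveI : Fintype V := Fintype.ofFinite _
      rw [Nat.card_eq_fintype_card, Fintype.card_subtype_compl, Fintype.card_subtype_eq, ← Nat.card_eq_fintype_card, hV.card_four]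
    rw [h4] at this
    exact this
  have h5 := (Subgroup.card_subgroup_dvd_card V.normalizerMonoidHom.range).trans h3
  rw [h1, show 24 = 6 * 4 by norm_num]
  exact Nat.mul_dvd_mul_right h5 4

end generic

end Cfsg.Agent.H7.KF
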