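import Cfsg.Agent.H7.KF3

/-!
Normalizers of Klein four-subgroups of `PSL_2(q)`.
-/

set_option autoImplicit false
set_option linter.unusedSectionVars false

namespace Cfsg.Agent.H7.KF

open Matrix
open Cfsg Cfsg.Agent.H7.SL2 Cfsg.Agent.H7.IsoCl

variable {F : Type*} [Field F] [Fintype F]

abbrev PSL (F : Type*) [Field F] := ProjectiveSpecialLinearGroup (Fin 2) F

theorem exists_pair (h2 : (2 : F) ≠ 0) {V : Subgroup (PSL F)} (hV : IsKleinFour V) :
    ∃ i j : SL F, i * i = -1 ∧ j * j = -1 ∧ i * j = -(j * i) ∧ pr F i ∈ V ∧ pr F j ∈ V := by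
  have h1 := card_fiber h2 hV
  have h3 : 0 < Nat.card {p : P F // pr F p.1.1 ∈ V ∧ pr F p.1.2 ∈ V} := by rw [h1]; norm_num
  obtain ⟨⟨⟨⟨i, j⟩, h4, h5, h6⟩, h7, h8⟩⟩ := (Nat.card_pos_iff.1 h3).1
  exact ⟨i, j, h4, h5, h6, h7, h8⟩

/-- an element commuting with a pair is central -/
theorem comm_pair (h2 : (2 : F) ≠ 0) {i j z : SL F} (hi : i * i = -1) (hij : i * j = -(j * i)) (h1 : z * i = i * z) (h3 : z * j = j * z) :
    z = 1 ∨ z = -1 := by
  obtain ⟨x, rfl⟩ := conj_J0 h2 i hi
  obtain ⟨z, rfl⟩ : ∃ z', z = x * z' * x⁻¹ := ⟨x⁻¹ * z * x, by group⟩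
  obtain ⟨j, rfl⟩ : ∃ j', j = x * j' * x⁻¹ := ⟨x⁻¹ * j * x, by group⟩
  have e1 : z * J0 F = J0 F * z := by
    have : x * (z * J0 F) * x⁻¹ = x * (J0 F * z) * x⁻¹ := by
      calc x * (z * J0 F) * x⁻¹ = x * z * x⁻¹ * (x * J0 F * x⁻¹) := by group
        _ = x * J0 F * x⁻¹ * (x * z * x⁻¹) := h1
        _ = _ := by group
    exact mul_left_cancel (mul_right_cancel this)
  have e2 : z * j = j * z := by
    have : x * (z * j) * x⁻¹ = x * (j * z) * x⁻¹ := by
      calc x * (z * j) * x⁻¹ = x * z * x⁻¹ * (x * j * x⁻¹) := by group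
        _ = x * j * x⁻¹ * (x * z * x⁻¹) := h3
        _ = _ := by group
    exact mul_left_cancel (mul_right_cancel this)
  have e3 : J0 F * j = -(j * J0 F) := by
    have : x * (J0 F * j) * x⁻¹ = x * (-(j * J0 F)) * x⁻¹ := by
      calc x * (J0 F * j) * x⁻¹ = x * J0 F * x⁻¹ * (x * j * x⁻¹) := by group
        _ = -(x * j * x⁻¹ * (x * J0 F * x⁻¹)) := hij
        _ = -(x * (j * J0 F) * x⁻¹) := by congr 1; group
        _ = _ := by rw [mul_neg, neg_mul]
    exact mul_left_cancel (mul_right_cancel this)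
  have key : z = 1 ∨ z = -1 := by
    obtain ⟨a, b, c, d, h, rfl⟩ := exists_S z
    obtain ⟨p, r, s, t, h', rfl⟩ := exists_S j
    rw [J0, S_mul, S_mul] at e1
    rw [S_mul, S_mul] at e2
    rw [J0, S_mul, S_mul, S_neg] at e3
    obtain ⟨a1, a2, a3, a4⟩ := S_inj e1
    obtain ⟨b1, b2, b3, b4⟩ := S_inj e2
    obtain ⟨c1, c2, c3, c4⟩ := S_inj e3
    have hc : c = -b := by linear_combination a1
    have hd : d = a := by linear_combination a2
    have hs : s = r := by linear_combination -c1
    have ht : t = -p := by linear_combination -c2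
    subst hc hd hs ht
    have hb : b = 0 := by
      by_contra hb
      have h5 : 2 * b * s = 0 := by linear_combination b1
      have h6 : 2 * b * p = 0 := by linear_combination -b2
      have hs0 : s = 0 := (mul_eq_zero.1 h5).resolve_left (mul_ne_zero h2 hb)
      have hp0 : p = 0 := (mul_eq_zero.1 h6).resolve_left (mul_ne_zero h2 hb)
      subst hs0 hp0
      simp at h'
    subst hb
    have h3 : (d - 1) * (d + 1) = 0 := by linear_combination h
    rcases mul_eq_zero.1 h3 with h3 | h3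
    · left
      rw [S_one]
      apply S_eq
      · linear_combination h3
      · rfl
      · ring
      · linear_combination h3
    · right
      rw [S_neg_one]
      apply S_eq
      · linear_combination h3
      · rfl
      · ring
      · linear_combination h3
  rcases key with rfl | rfl
  · left; group
  · right; rw [mul_neg_one, neg_mul, mul_inv_cancel]

theorem cent_V (h2 : (2 : F) ≠ 0) {V : Subgroup (PSL F)} (hV : IsKleinFour V) (g : PSL F) (hg : ∀ v ∈ V, g * v = v * g) : g ∈ V := by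
  obtain ⟨i, j, hi, hj, hij, hiV, hjV⟩ := exists_pair h2 hV
  obtain ⟨z, rfl⟩ := pr_surj g
  have h1 : z * i = i * z ∨ z * i = -(i * z) := by
    have := hg _ hiV
    rw [← map_mul, ← map_mul, pr_eq] at this
    exact this
  have h3 : z * j = j * z ∨ z * j = -(j * z) := by
    have := hg _ hjV
    rw [← map_mul, ← map_mul, pr_eq] at this
    exact this
  have hji : j * i = -(i * j) := by rw [hij, neg_neg]
  have fin : ∀ u : SL F, pr F u ∈ V → (u * z) * i = i * (u * z) → (u * z) * j = j * (u * z) → pr F z ∈ V := by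
    intro u hu a1 a2
    have h4 : pr F (u * z) = 1 := (pr_eq_one _).2 (comm_pair h2 hi hij a1 a2)
    rw [map_mul] at h4
    rw [eq_inv_of_mul_eq_one_right h4]
    exact inv_mem hu
  rcases h1 with h1 | h1 <;> rcases h3 with h3 | h3
  · exact fin 1 (by rw [map_one]; exact one_mem _) (by rw [one_mul, h1]) (by rw [one_mul, h3])
  · apply fin i hiV
    · rw [mul_assoc, h1]
    · rw [mul_assoc, h3, mul_neg, ← mul_assoc, hij, neg_mul, neg_neg, mul_assoc]
  · apply fin j hjV
    · rw [mul_assoc, h1, mul_neg, ← mul_assoc, hji, neg_mul, neg_neg, mul_assoc]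
    · rw [mul_assoc, h3]
  · apply fin (i * j) (by rw [map_mul]; exact mul_mem hiV hjV)
    · calc i * j * z * i = i * j * (z * i) := by group
        _ = -(i * (j * i) * z) := by rw [h1, mul_neg]; congr 1; group
        _ = i * (i * j * z) := by rw [hji, mul_neg, neg_mul, neg_neg]; group
    · calc i * j * z * j = i * j * (z * j) := by group
        _ = -((i * j) * j * z) := by rw [h3, mul_neg]; congr 1; group
        _ = j * (i * j * z) := by
            rw [show j * (i * j * z) = (j * i) * j * z by group, hji, neg_mul, neg_mul]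

/-- the matrix `-1 + i + j + ij` -/
def Y (I J : Matrix (Fin 2) (Fin 2) F) : Matrix (Fin 2) (Fin 2) F := -1 + I + J + I * J

theorem Y_mul_I {I J : Matrix (Fin 2) (Fin 2) F} (hI : I * I = -1) (hJI : J * I = -(I * J)) : Y I J * I = -1 - I + J - I * J := by
  rw [Y, add_mul, add_mul, add_mul, hI, hJI, mul_assoc, hJI, mul_neg, ← mul_assoc, hI]
  simp only [neg_mul, one_mul]
  abel

theorem IJ_mul_Y {I J : Matrix (Fin 2) (Fin 2) F} (hI : I * I = -1) (hJ : J * J = -1) (hJI : J * I = -(I * J)) : I * J * Y I J = -1 - I + J - I * J := by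
  have e1 : I * J * I = J := by rw [mul_assoc, hJI, mul_neg, ← mul_assoc, hI, neg_mul, one_mul, neg_neg]
  have e2 : I * J * J = -I := by rw [mul_assoc, hJ, mul_neg_one]
  rw [Y, mul_add, mul_add, mul_add, ← mul_assoc (I * J) I J, e1, e2, hJ]
  simp only [mul_neg, mul_one]
  abel

theorem Y_mul_J {I J : Matrix (Fin 2) (Fin 2) F} (hJ : J * J = -1) : Y I J * J = -1 - I - J + I * J := by
  rw [Y, add_mul, add_mul, add_mul, hJ, mul_assoc, hJ]
  simp only [neg_mul, one_mul, mul_neg, mul_one]
  abel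

theorem I_mul_Y {I J : Matrix (Fin 2) (Fin 2) F} (hI : I * I = -1) : I * Y I J = -1 - I - J + I * J := by
  rw [Y, mul_add, mul_add, mul_add, ← mul_assoc I I J, hI]
  simp only [neg_mul, one_mul, mul_neg, mul_one]
  abel

theorem Y_sq {I J : Matrix (Fin 2) (Fin 2) F} (hI : I * I = -1) (hJ : J * J = -1) (hJI : J * I = -(I * J)) :
    Y I J * Y I J = (-2 : F) • Y I J + (-4 : F) • 1 := by
  have e1 := Y_mul_I hI hJI
  have e2 : Y I J * J = _ := Y_mul_J (I := I) hJ
  have e3 : Y I J * (I * J) = -1 + I - J - I * J := by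
    rw [← mul_assoc, e1]
    simp only [add_mul, sub_mul, mul_assoc, hJ, neg_mul, one_mul, mul_neg, mul_one]
    abel
  have e4 : Y I J * Y I J = Y I J * (-1) + Y I J * I + Y I J * J + Y I J * (I * J) := by
    conv_lhs => rw [show Y I J * Y I J = Y I J * (-1 + I + J + I * J) from rfl]
    rw [mul_add, mul_add, mul_add]
  rw [e4, e1, e2, e3, mul_neg_one, Y]
  have h1 : (-2 : F) • (-1 + I + J + I * J) = -((-1 + I + J + I * J) + (-1 + I + J + I * J)) := by
    rw [neg_smul, two_smul]
  have h3 : (-4 : F) • (1 : Matrix (Fin 2) (Fin 2) F) = -(1 + 1 + (1 + 1)) := by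
    rw [neg_smul, show (4 : F) = 2 + 2 by norm_num, add_smul, two_smul]
  rw [h1, h3]
  abel

theorem coe_inj {a b : SL F} (h : a.1 = b.1) : a = b := Subtype.ext h

theorem exists_w (h2 : (2 : F) ≠ 0) {i j : SL F} (hi : i * i = -1) (hj : j * j = -1) (hij : i * j = -(j * i)) :
    ∃ w : SL F, w * i = i * j * w ∧ w * j = i * w ∧ w * w * w = 1 := by
  have hI : i.1 * i.1 = -1 := congrArg Subtype.val hi
  have hJ : j.1 * j.1 = -1 := congrArg Subtype.val hj
  have hJI : j.1 * i.1 = -(i.1 * j.1) := by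
    have : i.1 * j.1 = -(j.1 * i.1) := congrArg Subtype.val hij
    rw [this, neg_neg]
  have h4 : (4 : F) ≠ 0 := by
    rw [show (4 : F) = 2 * 2 by norm_num]; exact mul_ne_zero h2 h2
  have hdet : (Y i.1 j.1).det = 4 := by
    have ti := (sq_iff h2 i).1 hi
    have tj := (sq_iff h2 j).1 hj
    obtain ⟨a, b, c, d, h, rfl⟩ := exists_S i
    obtain ⟨p, r, s, t, h', rfl⟩ := exists_S j
    rw [tr_S] at ti tj
    have hd : d = -a := by linear_combination ti
    have ht : t = -p := by linear_combination tj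
    subst hd ht
    have e : (!![a, b; c, -a] * !![p, r; s, -p] : Matrix (Fin 2) (Fin 2) F) = -(!![p, r; s, -p] * !![a, b; c, -a]) := congrArg Subtype.val hij
    have e0 := congrFun (congrFun e 0) 0
    simp only [Matrix.mul_apply, Fin.sum_univ_two, Matrix.neg_apply, Matrix.of_apply, Matrix.cons_val_zero, Matrix.cons_val_one, Matrix.cons_val'] at e0
    have e1 : 2 * a * p + b * s + c * r = 0 := by
      simp at e0
      linear_combination e0
    rw [Y, coe_S, coe_S, Matrix.mul_fin_two, Matrix.one_fin_two, Matrix.det_fin_two]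
    simp
    linear_combination h + h * (p * (-p) - r * s) + 2 * h' - 2 * e1
  let w : SL F := ⟨(2⁻¹ : F) • Y i.1 j.1, by
    rw [Matrix.det_smul, hdet, Fintype.card_fin]
    field_simp
    norm_num⟩
  have hw : w.1 = (2⁻¹ : F) • Y i.1 j.1 := rfl
  refine ⟨w, ?_, ?_, ?_⟩
  · apply coe_inj
    rw [Matrix.SpecialLinearGroup.coe_mul, Matrix.SpecialLinearGroup.coe_mul, Matrix.SpecialLinearGroup.coe_mul, hw, smul_mul_assoc, mul_smul_comm,
      Y_mul_I hI hJI, IJ_mul_Y hI hJ hJI]
  · apply coe_inj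
    rw [Matrix.SpecialLinearGroup.coe_mul, Matrix.SpecialLinearGroup.coe_mul, hw, smul_mul_assoc, mul_smul_comm,
      Y_mul_J hJ, I_mul_Y hI]
  · apply coe_inj
    have h5 : w.1 * w.1 = -1 - w.1 := by
      rw [hw, smul_mul_assoc, mul_smul_comm, Y_sq hI hJ hJI, smul_add, smul_add, smul_smul, smul_smul, smul_smul, smul_smul]
      have e1 : (2⁻¹ * 2⁻¹ * (-2) : F) = -(2⁻¹) := by field_simp
      have e2 : (2⁻¹ * 2⁻¹ * (-4) : F) = -1 := by field_simp; norm_num
      rw [e1, e2, neg_smul, neg_smul, one_smul]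
      abel
    rw [Matrix.SpecialLinearGroup.coe_mul, Matrix.SpecialLinearGroup.coe_mul, Matrix.SpecialLinearGroup.coe_one, h5, sub_mul, h5, neg_one_mul]
    abel

theorem exists_t (h2 : (2 : F) ≠ 0) (hsq : IsSquare (2 : F)) {i j : SL F} (hi : i * i = -1) (hij : i * j = -(j * i)) :
    ∃ t : SL F, t * i = i * t ∧ t * j = i * j * t ∧ t * t = i := by
  obtain ⟨s, hs⟩ := hsq
  have hs0 : s ≠ 0 := by
    rintro rfl
    rw [mul_zero] at hs
    exact h2 hs
  have hI : i.1 * i.1 = -1 := congrArg Subtype.val hi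
  have hJI : j.1 * i.1 = -(i.1 * j.1) := by
    have : i.1 * j.1 = -(j.1 * i.1) := congrArg Subtype.val hij
    rw [this, neg_neg]
  have hdet : (1 + i.1).det = 2 := by
    have ti := (sq_iff h2 i).1 hi
    obtain ⟨a, b, c, d, h, rfl⟩ := exists_S i
    rw [tr_S] at ti
    rw [coe_S, Matrix.one_fin_two, Matrix.det_fin_two]
    simp
    linear_combination h + ti
  let t : SL F := ⟨(s⁻¹ : F) • (1 + i.1), by
    rw [Matrix.det_smul, hdet, Fintype.card_fin, hs]
    field_simp⟩
  have ht : t.1 = (s⁻¹ : F) • (1 + i.1) := rfl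
  refine ⟨t, ?_, ?_, ?_⟩
  · apply coe_inj
    rw [Matrix.SpecialLinearGroup.coe_mul, Matrix.SpecialLinearGroup.coe_mul, ht, smul_mul_assoc, mul_smul_comm, add_mul, mul_add, one_mul, mul_one]
  · apply coe_inj
    rw [Matrix.SpecialLinearGroup.coe_mul, Matrix.SpecialLinearGroup.coe_mul, Matrix.SpecialLinearGroup.coe_mul, ht, smul_mul_assoc, mul_smul_comm,
      add_mul, mul_add, one_mul, mul_one, mul_assoc i.1 j.1 i.1, hJI, mul_neg, ← mul_assoc, hI, neg_mul, one_mul, neg_neg, add_comm]
  · apply coe_inj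
    rw [Matrix.SpecialLinearGroup.coe_mul, ht, smul_mul_assoc, mul_smul_comm, smul_smul, add_mul, mul_add, mul_add, one_mul, one_mul, mul_one, hI]
    have : (1 + i.1 + (i.1 + -1) : Matrix (Fin 2) (Fin 2) F) = (2 : F) • i.1 := by rw [two_smul]; abel
    rw [this, smul_smul, hs]
    have e : s⁻¹ * s⁻¹ * (s * s) = 1 := by field_simp
    rw [e, one_smul]

theorem mem_norm_V (h2 : (2 : F) ≠ 0) {V : Subgroup (PSL F)} (hV : IsKleinFour V) {i j : SL F} (hi : i * i = -1) (hj : j * j = -1)
    (hij : i * j = -(j * i)) (hiV : pr F i ∈ V) (hjV : pr F j ∈ V) {n : PSL F} (h1 : n * pr F i * n⁻¹ ∈ V) (h3 : n * pr F j * n⁻¹ ∈ V) :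
    n ∈ Subgroup.normalizer (V : Set (PSL F)) := by
  have ei := pr_of_sq h2 hi
  have ej := pr_of_sq h2 hj
  have eij := pr_of_anti h2 hij
  have key : ∀ v ∈ V, n * v * n⁻¹ ∈ V := by
    intro v hv
    rcases mem_four hV hiV hjV ei.1 ej.1 eij.2 hv with rfl | rfl | rfl | rfl
    · rw [mul_one, mul_inv_cancel]; exact one_mem _
    · exact h1
    · exact h3
    · have : n * (pr F i * pr F j) * n⁻¹ = (n * pr F i * n⁻¹) * (n * pr F j * n⁻¹) := by group
      rw [this]; exact mul_mem h1 h3
  have hmap : V.map (MulAut.conj n).toMonoidHom = V := by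
    apply Subgroup.eq_of_le_of_card_ge
    · rintro _ ⟨v, hv, rfl⟩
      exact key v hv
    · rw [Subgroup.card_map_of_injective (MulAut.conj n).injective]
  rw [Subgroup.mem_normalizer_iff]
  intro g
  constructor
  · exact key g
  · intro hg
    rw [← hmap] at hg
    obtain ⟨v, hv, hvg⟩ := hg
    have : v = g := (MulAut.conj n).injective hvg
    rw [← this]; exact hv

theorem twelve_dvd (h2 : (2 : F) ≠ 0) {V : Subgroup (PSL F)} (hV : IsKleinFour V) : 12 ∣ Nat.card (Subgroup.normalizer (V : Set (PSL F))) := by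
  obtain ⟨i, j, hi, hj, hij, hiV, hjV⟩ := exists_pair h2 hV
  obtain ⟨w, hw1, hw2, hw3⟩ := exists_w h2 hi hj hij
  have h4 : 4 ∣ Nat.card (Subgroup.normalizer (V : Set (PSL F))) := by
    rw [← hV.card_four]
    exact Subgroup.card_dvd_of_le Subgroup.le_normalizer
  have hwN : pr F w ∈ Subgroup.normalizer (V : Set (PSL F)) := by
    apply mem_norm_V h2 hV hi hj hij hiV hjV
    · rw [← map_mul, hw1, map_mul, mul_inv_cancel_right, map_mul]; exact mul_mem hiV hjV
    · rw [← map_mul, hw2, map_mul, mul_inv_cancel_right]; exact hiV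
  have h3 : 3 ∣ Nat.card (Subgroup.normalizer (V : Set (PSL F))) := by
    have ho : orderOf (⟨pr F w, hwN⟩ : Subgroup.normalizer (V : Set (PSL F))) = 3 := by
      haveI : Fact (Nat.Prime 3) := ⟨Nat.prime_three⟩
      apply orderOf_eq_prime
      · apply Subtype.ext
        change (pr F w) ^ 3 = 1
        rw [pow_three', ← map_mul, ← map_mul, hw3, map_one]
      · intro h
        have h1 : pr F w = 1 := congrArg Subtype.val h
        have h5 : pr F w * pr F j = pr F i * pr F w := by rw [← map_mul, hw2, map_mul]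
        rw [h1, one_mul, mul_one] at h5
        exact (pr_of_anti h2 hij).2 h5.symm
    rw [← ho]
    exact orderOf_dvd_natCard _
  have : Nat.Coprime 4 3 := by norm_num
  exact this.mul_dvd_of_dvd_of_dvd h4 h3

theorem card_norm_V (h2 : (2 : F) ≠ 0) {V : Subgroup (PSL F)} (hV : IsKleinFour V) : Nat.card (Subgroup.normalizer (V : Set (PSL F))) = 12 ∨
    Nat.card (Subgroup.normalizer (V : Set (PSL F))) = 24 := by
  have h1 := twelve_dvd h2 hV
  have h3 := card_norm_dvd hV (cent_V h2 hV)
  obtain ⟨k, hk⟩ := h1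
  have h4 := Nat.le_of_dvd (by norm_num) h3
  have h5 : 0 < Nat.card (Subgroup.normalizer (V : Set (PSL F))) := Nat.card_pos
  have : k = 1 ∨ k = 2 := by omega
  rcases this with rfl | rfl
  · left; rw [hk]
  · right; rw [hk]

theorem card_norm_V_sq (h2 : (2 : F) ≠ 0) (hsq : IsSquare (2 : F)) {V : Subgroup (PSL F)} (hV : IsKleinFour V) :
    Nat.card (Subgroup.normalizer (V : Set (PSL F))) = 24 := by
  rcases card_norm_V h2 hV with h | h
  · exfalso
    obtain ⟨i, j, hi, hj, hij, hiV, hjV⟩ := exists_pair h2 hV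
    obtain ⟨t, ht1, ht2, ht3⟩ := exists_t h2 hsq hi hij
    have htN : pr F t ∈ Subgroup.normalizer (V : Set (PSL F)) := by
      apply mem_norm_V h2 hV hi hj hij hiV hjV
      · rw [← map_mul, ht1, map_mul, mul_inv_cancel_right]; exact hiV
      · rw [← map_mul, ht2, map_mul, mul_inv_cancel_right, map_mul]; exact mul_mem hiV hjV
    obtain ⟨hV', hn, -⟩ := norm_setup hV (cent_V h2 hV)
    have hidx : (V.subgroupOf (Subgroup.normalizer (V : Set (PSL F)))).index = 3 := by
      have h1 := Subgroup.card_mul_index (V.subgroupOf (Subgroup.normalizer (V : Set (PSL F))))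
      rw [hV'.card_four, h] at h1
      omega
    have h3 := Subgroup.pow_index_mem (V.subgroupOf (Subgroup.normalizer (V : Set (PSL F)))) ⟨pr F t, htN⟩
    rw [hidx] at h3
    have h4 : (pr F t) ^ 3 ∈ V := h3
    have h5 : (pr F t) * (pr F t) = pr F i := by rw [← map_mul, ht3]
    have h6 : pr F t ∈ V := by
      have : pr F t = ((pr F t * pr F t) * (pr F t * pr F t)) * ((pr F t) ^ 3)⁻¹ := by
        rw [pow_three]; group
      rw [this, h5, (klein_iff.1 hV).2 _ hiV, one_mul]
      exact inv_mem h4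
    have h7 := (klein_iff.1 hV).2 _ h6
    rw [h5] at h7
    exact (pr_of_sq h2 hi).1 h7
  · exact h

/-- the orbit of a subgroup under conjugation -/
theorem card_orbit_norm {G : Type*} [Group G] [Finite G] (V : Subgroup G) :
    Nat.card {W : Subgroup G // ∃ g : G, W = V.map (MulAut.conj g).toMonoidHom} * Nat.card (Subgroup.normalizer (V : Set G)) = Nat.card G := by
  have h1 : V.map (MulAut.conj (1 : G)).toMonoidHom = V := by
    ext x
    simp
  rw [mul_comm, ← Subgroup.card_mul_index (Subgroup.normalizer (V : Set G)), Subgroup.index]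
  congr 1
  symm
  have hiff : ∀ a b : G, a⁻¹ * b ∈ Subgroup.normalizer (V : Set G) ↔ V.map (MulAut.conj a).toMonoidHom = V.map (MulAut.conj b).toMonoidHom := by
    intro a b
    have hm : ∀ (a x : G), x ∈ V.map (MulAut.conj a).toMonoidHom ↔ a⁻¹ * x * a ∈ V := by
      intro a x
      constructor
      · rintro ⟨v, hv, rfl⟩
        change a⁻¹ * (a * v * a⁻¹) * a ∈ V
        have : a⁻¹ * (a * v * a⁻¹) * a = v := by group
        rw [this]; exact hv
      · intro h
        exact ⟨_, h, by change a * (a⁻¹ * x * a) * a⁻¹ = x; group⟩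
    rw [Subgroup.mem_normalizer_iff]
    constructor
    · intro h
      ext x
      rw [hm, hm]
      have := h (b⁻¹ * x * b)
      rw [this]
      have e : a⁻¹ * b * (b⁻¹ * x * b) * (a⁻¹ * b)⁻¹ = a⁻¹ * x * a := by group
      rw [e]
    · intro h g
      have h3 := hm a (b * g * b⁻¹)
      have h4 := hm b (b * g * b⁻¹)
      rw [h] at h3
      have e1 : b⁻¹ * (b * g * b⁻¹) * b = g := by group
      have e2 : a⁻¹ * (b * g * b⁻¹) * a = a⁻¹ * b * g * (a⁻¹ * b)⁻¹ := by group
      rw [e1] at h4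
      rw [e2] at h3
      rw [← h4, h3]
  refine Nat.card_congr (Equiv.ofBijective (Quotient.lift (fun g => ⟨V.map (MulAut.conj g).toMonoidHom, g, rfl⟩) ?_) ⟨?_, ?_⟩)
  · intro a b hab
    apply Subtype.ext
    exact (hiff a b).1 (QuotientGroup.leftRel_apply.1 hab)
  · intro a b
    induction a using Quotient.inductionOn with | _ a
    induction b using Quotient.inductionOn with | _ b
    intro h
    apply Quotient.sound
    exact QuotientGroup.leftRel_apply.2 ((hiff a b).2 (congrArg Subtype.val h))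
  · rintro ⟨_, g, rfl⟩
    exact ⟨Quotient.mk _ g, rfl⟩

end Cfsg.Agent.H7.KF
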