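import Cfsg.Agent.H7.KF4
import Mathlib.FieldTheory.Finite.GaloisField
import Mathlib.GroupTheory.Perm.ViaEmbedding

/-!
Subfield subgroups of `PSL_2(q)`.
-/

set_option autoImplicit false
set_option linter.unusedSectionVars false

namespace Cfsg.Agent.H7.KF

open Matrix
open Cfsg Cfsg.Agent.H7.SL2 Cfsg.Agent.H7.IsoCl

theorem exists_hom_pow {K F : Type*} [Field K] [Fintype K] [Field F] [Fintype F] {m : ℕ} (hm : 1 ≤ m)
    (hK : Fintype.card F = Fintype.card K ^ m) : Nonempty (K →+* F) := by
  obtain ⟨p, hp⟩ := CharP.exists K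
  haveI := hp
  obtain ⟨n, hpp, hn⟩ := FiniteField.card K p
  haveI : Fact p.Prime := ⟨hpp⟩
  obtain ⟨r, hr⟩ := CharP.exists F
  haveI := hr
  obtain ⟨k, hrp, hk⟩ := FiniteField.card F r
  have h1 : r ^ (k : ℕ) = p ^ ((n : ℕ) * m) := by
    rw [← hk, hK, hn, ← pow_mul]
  have hpr : r = p := by
    have h2 : r ∣ p ^ ((n : ℕ) * m) := by rw [← h1]; exact dvd_pow_self r k.ne_zero
    exact (Nat.prime_dvd_prime_iff_eq hrp hpp).1 (hrp.dvd_of_dvd_pow h2)
  subst hpr
  have h3 : (k : ℕ) = n * m := Nat.pow_right_injective hpp.two_le h1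
  letI : Algebra (ZMod r) F := ZMod.algebra F r
  letI : Algebra (ZMod r) K := ZMod.algebra K r
  have e1 : Module.finrank (ZMod r) F = k := by
    have h4 := Module.card_eq_pow_finrank (K := ZMod r) (V := F)
    rw [hk, ZMod.card] at h4
    exact (Nat.pow_right_injective hpp.two_le h4).symm
  have e2 : Module.finrank (ZMod r) K = n := by
    have h4 := Module.card_eq_pow_finrank (K := ZMod r) (V := K)
    rw [hn, ZMod.card] at h4
    exact (Nat.pow_right_injective hpp.two_le h4).symm
  obtain ⟨φ⟩ := FiniteField.nonempty_algHom_of_finrank_dvd (F := ZMod r) (K := K) (L := F) (by rw [e1, e2, h3]; exact Dvd.intro m rfl)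
  exact ⟨φ.toRingHom⟩

theorem psl_embed {K F : Type*} [Field K] [Field F] (f : K →+* F) : ∃ φ : PSL K →* PSL F, Function.Injective φ := by
  let ψ : SL K →* PSL F := (pr F).comp (SpecialLinearGroup.map f)
  have hker : ψ.ker = Subgroup.center (SL K) := by
    ext g
    rw [MonoidHom.mem_ker, mem_center]
    change pr F (SpecialLinearGroup.map f g) = 1 ↔ _
    rw [pr_eq_one]
    have hinj : Function.Injective (SpecialLinearGroup.map (n := Fin 2) f) := by
      intro a b h
      apply Subtype.ext
      ext i j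
      apply f.injective
      have := congrFun (congrFun (congrArg Subtype.val h) i) j
      exact this
    have hneg : SpecialLinearGroup.map (n := Fin 2) f (-1) = -1 := by
      apply Subtype.ext
      ext i j
      change f ((-1 : SL K).1 i j) = (-1 : SL F).1 i j
      rw [Matrix.SpecialLinearGroup.coe_neg, Matrix.SpecialLinearGroup.coe_neg, Matrix.SpecialLinearGroup.coe_one, Matrix.SpecialLinearGroup.coe_one,
        Matrix.neg_apply, Matrix.neg_apply, map_neg, Matrix.one_apply, Matrix.one_apply]
      split_ifs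
      · rw [map_one]
      · rw [map_zero]
    constructor
    · rintro (h | h)
      · left; apply hinj; rw [h, map_one]
      · right; apply hinj; rw [h, hneg]
    · rintro (rfl | rfl)
      · left; exact map_one _
      · right; exact hneg
  refine ⟨(QuotientGroup.kerLift ψ).comp (QuotientGroup.quotientMulEquivOfEq hker.symm).toMonoidHom, ?_⟩
  exact (QuotientGroup.kerLift_injective ψ).comp (QuotientGroup.quotientMulEquivOfEq hker.symm).injective

theorem sub_of_inj {A G : Type*} [Group A] [Group G] (φ : A →* G) (h : Function.Injective φ) : ∃ H : Subgroup G, Nonempty (H ≃* A) :=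
  ⟨φ.range, ⟨(MonoidHom.ofInjective h).symm⟩⟩

theorem alt_embed : ∃ φ : alternatingGroup (Fin 4) →* alternatingGroup (Fin 5), Function.Injective φ := by
  let e : Fin 4 ↪ Fin 5 := ⟨Fin.succ, Fin.succ_injective 4⟩
  let ψ : alternatingGroup (Fin 4) →* Equiv.Perm (Fin 5) := (Equiv.Perm.viaEmbeddingHom e).comp (alternatingGroup (Fin 4)).subtype
  have hψ : ∀ g, ψ g ∈ alternatingGroup (Fin 5) := by
    intro g
    rw [Equiv.Perm.mem_alternatingGroup]
    change Equiv.Perm.sign (Equiv.Perm.viaEmbedding g.1 e) = 1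
    rw [Equiv.Perm.viaEmbedding, Equiv.Perm.sign_extendDomain]
    exact Equiv.Perm.mem_alternatingGroup.1 g.2
  refine ⟨ψ.codRestrict _ hψ, ?_⟩
  intro a b h
  apply Subtype.ext
  exact Equiv.Perm.viaEmbeddingHom_injective e (congrArg Subtype.val h)

end Cfsg.Agent.H7.KF
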