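import Cfsg.Agent.H7.Frob72
import Cfsg.Agent.H7.UniStd

set_option autoImplicit false

/-! The group `PSU_3(2)`. -/

namespace Cfsg.Agent.H7.UTv

open Module Matrix Cfsg Cfsg.Agent.H7.Tv Cfsg.Agent.H7.Witt Cfsg.Agent.H7.Herm

/-- an element of `SU_3` fixing a hyperbolic pair is trivial -/
theorem fix_hyp_three {ι : Type} [Fintype ι] [DecidableEq ι] {F : Type*} [Field F] [Finite F] {σ : F →+* F}
    {B : (ι → F) →ₛₗ[σ] (ι → F) →ₗ[F] F} (hB : Hm B) (h3 : Fintype.card ι = 3) {e f : ι → F} (he : B e e = 0)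
    (hf : B f f = 0) (hef : B e f = 1) {r : GL ι F} (hr : r ∈ SUn B) (hk1 : ap r e = e) (hk2 : ap r f = f) : r = 1 := by
  have hT := nd_top hB
  have hd : finrank F (⊤ : Submodule F (ι → F)) = 3 := by rw [finrank_top, finrank_fintype_fun_eq_card, h3]
  have hS := finrank_inf_prp hB hT (U := Submodule.span F {e, f}) le_top
  rw [finrank_span_hyp hB he hf hef, hd] at hS
  obtain ⟨w, hw, hww⟩ := exists_aniso_nd hB (nd_inf hB hT le_top (nd_span_two hB he hf hef)) (by omega)
  obtain ⟨hew, hfw⟩ := mem_prp_two.1 hw.2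
  have hwe := hB.zero_swap hew
  have hwf := hB.zero_swap hfw
  have hdec : ∀ z, B e z = 0 → B f z = 0 → ∃ m : F, z = m • w := by
    intro z hz1 hz2
    have h4 : (⊤ : Submodule F (ι → F)) ⊓ prp B (Submodule.span F {e, f}) = Submodule.span F {w} := by
      symm
      apply Submodule.eq_of_le_of_finrank_eq (span_one_le hw)
      rw [finrank_span_self (ne_zero_of_aniso hww)]
      omega
    have h5 : z ∈ (⊤ : Submodule F (ι → F)) ⊓ prp B (Submodule.span F {e, f}) := ⟨trivial, mem_prp_two.2 ⟨hz1, hz2⟩⟩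
    rw [h4] at h5
    obtain ⟨m, hm⟩ := Submodule.mem_span_singleton.1 h5
    exact ⟨m, hm.symm⟩
  have hrw : ∃ μ : F, ap r w = μ • w := by
    apply hdec
    · nth_rewrite 1 [← hk1]
      rw [hr.1, hew]
    · nth_rewrite 1 [← hk2]
      rw [hr.1, hfw]
  obtain ⟨μ, hμ⟩ := hrw
  have hμ1 : μ ≠ 0 := by
    rintro rfl
    rw [zero_smul] at hμ
    exact ne_zero_of_aniso hww (ap_eq_zero.1 hμ)
  obtain ⟨D, hD⟩ := exists_gtv (u := w) (l := ((μ - 1) * (B w w)⁻¹) • B w) (by
    rw [LinearMap.smul_apply, smul_eq_mul, mul_assoc, inv_mul_cancel₀ hww, mul_one, add_sub_cancel]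
    exact hμ1)
  have hrD : r = D := by
    apply ext_hyp hB he hf hef
    · rw [hk1, hD, LinearMap.smul_apply, hwe, smul_zero, zero_smul, add_zero]
    · rw [hk2, hD, LinearMap.smul_apply, hwf, smul_zero, zero_smul, add_zero]
    · intro z hz1 hz2
      obtain ⟨m', rfl⟩ := hdec z hz1 hz2
      rw [ap_smul, ap_smul, hμ, hD, LinearMap.smul_apply, smul_eq_mul, mul_assoc, inv_mul_cancel₀ hww, mul_one]
      module
  have hdet := (mem_SL_iff' r).1 hr.2
  rw [hrD, det_of_tv hD, LinearMap.smul_apply, smul_eq_mul, mul_assoc, inv_mul_cancel₀ hww, mul_one, add_sub_cancel] at hdet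
  rw [hrD]
  apply ap_ext
  intro x
  rw [hD, hdet, sub_self, zero_mul, zero_smul, LinearMap.zero_apply, zero_smul, add_zero, ap_one]

/-- the elements of the stabiliser of an isotropic vector -/
theorem ei_of_fix {ι : Type} [Fintype ι] [DecidableEq ι] {F : Type*} [Field F] [Finite F] {σ : F →+* F}
    {B : (ι → F) →ₛₗ[σ] (ι → F) →ₗ[F] F} (hB : Hm B) (h3 : Fintype.card ι = 3) {e f : ι → F} (he : B e e = 0)
    (hf : B f f = 0) (hef : B e f = 1) {r : GL ι F} (hr : r ∈ SUn B) (hk1 : ap r e = e) :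
    ∃ (w : ι → F) (γ : F), B e w = 0 ∧ B f w = 0 ∧ γ + σ γ + B w w = 0 ∧ IsEi B r e w γ := by
  have hfe : B f e = 1 := by rw [← hB.symm, hef, map_one]
  obtain ⟨f', hf'⟩ : ∃ f', f' = ap r f := ⟨_, rfl⟩
  have hff' : B f' f' = 0 := by rw [hf', hr.1, hf]
  have hef' : B e f' = 1 := by rw [hf']; nth_rewrite 1 [← hk1]; rw [hr.1, hef]
  obtain ⟨a, ha⟩ : ∃ a, a = B f (f' - f) := ⟨_, rfl⟩
  obtain ⟨s, hs⟩ : ∃ s, s = f' - f - a • e := ⟨_, rfl⟩
  have hse : B e s = 0 := by rw [hs, map_sub, map_sub, map_smul, he, hef, hef', smul_zero, sub_self, sub_zero]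
  have hsf : B f s = 0 := by rw [hs, map_sub, ← ha, map_smul, hfe, smul_eq_mul, mul_one, sub_self]
  have hse' := hB.zero_swap hse
  have hsf' := hB.zero_swap hsf
  have hf'eq : f' = f + s + a • e := by rw [hs]; abel
  have e1 : B (f + s + a • e) (f + s + a • e) = B s s + (a + σ a) := by
    simp only [map_add, LinearMap.add_apply, map_smul, LinearMap.map_smulₛₗ, LinearMap.smul_apply, smul_eq_mul, hf, hsf, hsf',
      hfe, hef, hse, hse', he]
    ring
  rw [← hf'eq, hff'] at e1
  have hγ : a + σ a + B s s = 0 := by linear_combination -e1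
  obtain ⟨g, hg, hE⟩ := exists_ei hB he hse (γ := a) hγ
  have hge : ap g e = e := by rw [hE, he, hse', mul_zero, zero_smul, zero_smul, add_zero, sub_zero, add_zero]
  have hgf : ap g f = f' := by rw [hE, hef, hsf', zero_smul, sub_zero, one_smul, mul_one, ← hf'eq]
  have h1 : g⁻¹ * r = 1 := by
    apply fix_hyp_three hB h3 he hf hef (mul_mem (inv_mem hg) hr)
    · rw [ap_mul, hk1]
      nth_rewrite 1 [← hge]
      rw [ap_inv_ap]
    · rw [ap_mul, ← hf', ← hgf, ap_inv_ap]
  rw [inv_mul_eq_one] at h1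
  rw [← h1]
  exact ⟨s, a, hse, hsf, hγ, hE⟩

theorem psu32 {F : Type*} [Field F] [Fintype F] (hF : Fintype.card F = 4) : Nat.card (PSU 3 F 2) = 72 ∧
    ∃ (N : Subgroup (PSU 3 F 2)) (_ : N.Normal), Nat.card N = 9 ∧ (∀ x ∈ N, x ^ 3 = 1) ∧
      Nonempty (PSU 3 F 2 ⧸ N ≃* QuaternionGroup 2) := by
  classical
  have hF' : Fintype.card F = 2 ^ 2 := by rw [hF]; norm_num
  obtain ⟨σ, hσ, hB, hBq, hGU⟩ := hm_std hF' 3
  have hr := suE_range (q := 2) hGU
  have hG : Nat.card (PSU 3 F 2) = 72 := by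
    have h1 := card_SU hF' 3 (by norm_num)
    rw [card_GU hF' 3] at h1
    have h2 := card_center_SU hF' 3 (by norm_num)
    have h3 := (Subgroup.center (SU 3 F 2)).card_eq_card_quotient_mul_card_subgroup
    rw [h2] at h3
    rw [Finset.prod_range_succ, Finset.prod_range_succ, Finset.prod_range_succ, Finset.prod_range_zero,
      if_pos (by decide : Even 0), if_neg (by decide : ¬ Even 1), if_pos (by decide : Even 2), h3] at h1
    have h4 : Nat.gcd 3 (2 + 1) = 3 := by norm_num
    rw [h4] at h1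
    have h5 : Nat.card (SU 3 F 2 ⧸ Subgroup.center (SU 3 F 2)) = 72 := by
      have h6 : 2 ^ (3 * (3 - 1) / 2) * (1 * (2 ^ (0 + 1) + 1) * (2 ^ (1 + 1) - 1) * (2 ^ (2 + 1) + 1)) = 648 := by norm_num
      rw [h6] at h1
      omega
    exact h5
  refine ⟨hG, ?_⟩
  generalize hBB : Herm.hB 3 σ = B at *
  have h2 : (2 : F) = 0 := by
    have h := FiniteField.cast_card_eq_zero F
    rw [hF] at h
    have h' : (2 : F) * 2 = 0 := by
      push_cast at h
      linear_combination h
    rcases mul_eq_zero.1 h' with h | h <;> exact h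
  have hnorm : ∀ x : F, x ≠ 0 → x * σ x = 1 := by
    intro x hx
    rw [hσ, ← pow_succ']
    have h3 := FiniteField.pow_card_sub_one_eq_one x hx
    rwa [hF] at h3
  obtain ⟨e, -, f, -, he, hf, hef⟩ := exists_hyp hB (nd_top hB) (by rw [finrank_top, finrank_fintype_fun_eq_card]; simp)
  have hfe : B f e = 1 := by rw [← hB.symm, hef, map_one]
  have hc3 : Fintype.card (Fin 3) = 3 := by simp
  have he0 : e ≠ 0 := by rintro rfl; rw [map_zero, LinearMap.zero_apply] at hef; exact zero_ne_one hef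
  -- the stabiliser
  let U : Subgroup (SU 3 F 2) :=
    { carrier := {w | ap (suE 3 F 2 w) e = e}
      mul_mem' := by
        intro a b ha hb
        change ap (suE 3 F 2 (a * b)) e = e
        rw [map_mul, ap_mul, hb, ha]
      one_mem' := by
        change ap (suE 3 F 2 1) e = e
        rw [map_one, ap_one]
      inv_mem' := by
        intro a ha
        change ap (suE 3 F 2 a⁻¹) e = e
        rw [map_inv]
        nth_rewrite 1 [← (show ap (suE 3 F 2 a) e = e from ha)]
        rw [ap_inv_ap] }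
  have hU : ∀ w, w ∈ U ↔ ap (suE 3 F 2 w) e = e := fun w => Iff.rfl
  have hsu : ∀ w : SU 3 F 2, suE 3 F 2 w ∈ SUn B := fun w => by rw [← hr]; exact ⟨w, rfl⟩
  have hcen : ∀ w : SU 3 F 2, w ∈ Subgroup.center (SU 3 F 2) ↔ ∃ l : F, ∀ v, ap (suE 3 F 2 w) v = l • v := by
    intro w
    constructor
    · intro hw
      obtain ⟨l, hl⟩ := center_SU_scalar hF' (by norm_num) w hw
      refine ⟨l, fun v => ?_⟩
      rw [ap_suE]
      change (mat w) *ᵥ v = _
      rw [hl, Matrix.scalar_apply, ← Matrix.smul_one_eq_diagonal, Matrix.smul_mulVec, Matrix.one_mulVec]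
    · rintro ⟨l, hl⟩
      rw [Subgroup.mem_center_iff]
      intro x
      apply suE_inj 3
      rw [map_mul, map_mul]
      apply ap_ext
      intro v
      rw [ap_mul, ap_mul, hl, hl, ap_smul]
  let π := QuotientGroup.mk' (Subgroup.center (SU 3 F 2))
  have hπ1 : ∀ w, π w = 1 ↔ w ∈ Subgroup.center (SU 3 F 2) := fun w => QuotientGroup.eq_one_iff w
  have hUc : ∀ w ∈ U, w ∈ Subgroup.center (SU 3 F 2) → w = 1 := by
    intro w hw hwc
    obtain ⟨l, hl⟩ := (hcen w).1 hwc
    have h3 := hl e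
    rw [(hU w).1 hw] at h3
    have h4 : l = 1 := by
      have h5 : (l - 1) • e = 0 := by rw [sub_smul, one_smul, ← h3, sub_self]
      exact sub_eq_zero.1 ((smul_eq_zero.1 h5).resolve_right he0)
    apply suE_inj 3
    rw [map_one]
    apply ap_ext
    intro v
    rw [hl, h4, one_smul, ap_one]
  have hπU : Function.Injective (π.comp U.subtype) := by
    rw [injective_iff_map_eq_one]
    intro w hw
    apply Subtype.ext
    exact hUc w w.2 ((hπ1 _).1 hw)
  -- exponent four
  have hexp : ∀ w ∈ U, w ^ 4 = 1 := by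
    intro w hw
    obtain ⟨s, γ, hs, hsf, hγ, hE⟩ := ei_of_fix hB hc3 he hf hef (hsu w) hw
    have h3 := ei_mul hB he hs hs hE hE
    have h4 := ei_mul hB he (by rw [map_add, hs, add_zero]) (by rw [map_add, hs, add_zero]) h3 h3
    have e1 : s + s = 0 := by rw [← two_smul F, h2, zero_smul]
    have e2 : γ + γ - B s s + (γ + γ - B s s) - B (s + s) (s + s) = 0 := by
      rw [e1, map_zero, sub_zero]
      linear_combination (2 * γ - B s s) * h2
    rw [e2, e1, add_zero] at h4
    apply suE_inj 3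
    rw [map_one, map_pow]
    apply ap_ext
    intro v
    have h5 : suE 3 F 2 w ^ 4 = suE 3 F 2 w * suE 3 F 2 w * (suE 3 F 2 w * suE 3 F 2 w) := by
      simp only [pow_succ, pow_zero, one_mul, mul_assoc]
    rw [h5, h4]
    simp
  -- the quaternion group
  have hS3 := finrank_inf_prp hB (nd_top hB) (U := Submodule.span F {e, f}) le_top
  rw [finrank_span_hyp hB he hf hef, finrank_top, finrank_fintype_fun_eq_card, hc3] at hS3
  obtain ⟨w0, hw0, hw00⟩ := exists_aniso_nd hB (nd_inf hB (nd_top hB) le_top (nd_span_two hB he hf hef)) (by omega)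
  obtain ⟨hew, hfw⟩ := mem_prp_two.1 hw0.2
  have hww : B w0 w0 = 1 := by
    have h1 := hB.self_fixed w0
    rw [hσ, sq] at h1
    exact mul_left_cancel₀ hw00 (by rw [h1, mul_one])
  obtain ⟨ω, hω⟩ := hB.exists_tr 1 (map_one σ)
  have hω0 : ω ≠ 0 := by rintro rfl; rw [map_zero, add_zero] at hω; exact zero_ne_one hω
  have hωN := hnorm ω hω0
  have hew1 : B e (ω • w0) = 0 := by rw [map_smul, hew, smul_zero]
  have hww1 : B (ω • w0) (ω • w0) = 1 := by
    rw [map_smul, LinearMap.map_smulₛₗ, LinearMap.smul_apply, hww, smul_eq_mul, smul_eq_mul, mul_one, hωN]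
  obtain ⟨gx, hgx, hEx⟩ := exists_ei hB he hew (γ := ω) (by rw [hω, hww]; linear_combination h2)
  obtain ⟨gy, hgy, hEy⟩ := exists_ei hB he hew1 (γ := ω) (by rw [hω, hww1]; linear_combination h2)
  rw [← hr] at hgx hgy
  obtain ⟨x, rfl⟩ := hgx
  obtain ⟨y, rfl⟩ := hgy
  have hxU : x ∈ U := by
    rw [hU, hEx, he, hB.zero_swap hew, mul_zero, zero_smul, zero_smul, add_zero, sub_zero, add_zero]
  have hyU : y ∈ U := by
    rw [hU, hEy, he, hB.zero_swap hew1, mul_zero, zero_smul, zero_smul, add_zero, sub_zero, add_zero]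
  have hzz : ∀ w : Fin 3 → F, w + w = 0 := fun w => by rw [← two_smul F, h2, zero_smul]
  have hxx := ei_mul hB he hew hew hEx hEx
  have hyy := ei_mul hB he hew1 hew1 hEy hEy
  rw [hww, hzz] at hxx
  rw [hww1, hzz] at hyy
  have hyx2 : y * y = x ^ 2 := by
    apply suE_inj 3
    rw [sq, map_mul, map_mul]
    exact ei_unique hyy hxx
  have hx4 : x ^ 4 = 1 := hexp x hxU
  have hx2 : x ^ 2 ≠ 1 := by
    intro h
    have h3 : suE 3 F 2 x * suE 3 F 2 x = 1 := by rw [← map_mul, ← sq, h, map_one]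
    have h4 := hxx f
    rw [h3, ap_one, hef, map_zero, LinearMap.zero_apply, smul_zero, zero_smul, add_zero, sub_zero, mul_one] at h4
    have h5 : (ω + ω - 1) • e = 0 := by
      have := congrArg (fun v => v - f) h4
      simpa using this.symm
    rcases smul_eq_zero.1 h5 with h6 | h6
    · have : (1 : F) = 0 := by linear_combination ω * h2 - h6
      exact one_ne_zero this
    · exact he0 h6
  have hordx : orderOf x = 2 * 2 := by
    have h3 : orderOf x ∣ 2 ^ 2 := orderOf_dvd_of_pow_eq_one hx4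
    obtain ⟨j, hj, hj'⟩ := (Nat.dvd_prime_pow Nat.prime_two).1 h3
    have h4 : ¬ orderOf x ∣ 2 := fun h => hx2 (orderOf_dvd_iff_pow_eq_one.1 h)
    have h5 : j = 2 := by
      by_contra h6
      apply h4
      rw [hj']
      have : j ≤ 1 := by omega
      calc 2 ^ j ∣ 2 ^ 1 := pow_dvd_pow 2 this
        _ = 2 := pow_one 2
    rw [hj', h5]
    norm_num
  have hxinv : IsEi B (suE 3 F 2 x⁻¹) e w0 (ω + 1) := by
    have h3 : x⁻¹ = x * x ^ 2 := by
      rw [inv_eq_iff_mul_eq_one]
      calc x * (x * x ^ 2) = x ^ 4 := by group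
        _ = 1 := hx4
    have h4 := ei_mul hB he hew (map_zero _) hEx hxx
    rw [h3, sq, map_mul, map_mul]
    have e1 : w0 + 0 = w0 := add_zero _
    have e2 : ω + (ω + ω - 1) - B w0 0 = ω + 1 := by
      rw [map_zero]
      linear_combination (ω - 1) * h2
    rw [e1, e2] at h4
    exact h4
  have hxy : x * y = y * x⁻¹ := by
    apply suE_inj 3
    rw [map_mul, map_mul]
    have h3 := ei_mul hB he hew hew1 hEx hEy
    have h4 := ei_mul hB he hew1 hew hEy hxinv
    have e1 : ω • w0 + w0 = w0 + ω • w0 := add_comm _ _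
    have e2 : ω + (ω + 1) - B (ω • w0) w0 = ω + ω - B w0 (ω • w0) := by
      simp only [map_smul, LinearMap.map_smulₛₗ, LinearMap.smul_apply, hww, smul_eq_mul, mul_one]
      linear_combination ω * h2 - hω
    rw [e1, e2] at h4
    exact ei_unique h3 h4
  have hynx : y ∉ Subgroup.zpowers x := by
    intro h
    obtain ⟨k, hk⟩ := Subgroup.mem_zpowers_iff.1 h
    have h3 : ∀ k : ℕ, (∃ c : F, IsEi B (suE 3 F 2 (x ^ k)) e 0 c) ∨ (∃ c : F, IsEi B (suE 3 F 2 (x ^ k)) e w0 c) := by
      intro k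
      induction k with
      | zero =>
        left
        refine ⟨0, fun v => ?_⟩
        rw [pow_zero, map_one, ap_one, map_zero, LinearMap.zero_apply, smul_zero, zero_smul, zero_mul, zero_smul, add_zero,
          sub_zero, add_zero]
      | succ k ih =>
        rw [pow_succ, map_mul]
        rcases ih with ⟨c, hc⟩ | ⟨c, hc⟩
        · right
          have := ei_mul hB he (map_zero _) hew hc hEx
          rw [zero_add] at this
          exact ⟨_, this⟩
        · left
          have := ei_mul hB he hew hew hc hEx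
          rw [hzz] at this
          exact ⟨_, this⟩
    obtain ⟨k', hk'⟩ : ∃ k' : ℕ, x ^ k' = y := by
      have h4 : y ∈ Submonoid.powers x := (mem_powers_iff_mem_zpowers (x := x)).2 h
      exact h4
    have hBf := hEy f
    rw [hef, one_smul, mul_one, hB.zero_swap (show B f (ω • w0) = 0 by rw [map_smul, hfw, smul_zero]), zero_smul, sub_zero] at hBf
    rcases h3 k' with ⟨c, hc⟩ | ⟨c, hc⟩
    · rw [hk'] at hc
      have h5 := hc f
      rw [hBf, hef, map_zero, LinearMap.zero_apply, smul_zero, zero_smul, add_zero, sub_zero, mul_one] at h5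
      have h6 := congrArg (B w0) h5
      rw [map_add, map_add, map_add, map_smul, map_smul, map_smul, hB.zero_swap hfw, hB.zero_swap hew, hww] at h6
      simp at h6
      exact hω0 h6
    · rw [hk'] at hc
      have h5 := hc f
      rw [hBf, hef, one_smul, mul_one, hB.zero_swap hfw, zero_smul, sub_zero] at h5
      have h6 := congrArg (B w0) h5
      rw [map_add, map_add, map_add, map_add, map_smul, map_smul, map_smul, hB.zero_swap hfw, hB.zero_swap hew, hww] at h6
      simp at h6
      -- `ω = 1`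
      rw [h6, map_one] at hω
      have : (1 : F) = 0 := by linear_combination h2 - hω
      exact one_ne_zero this
  let X : U := ⟨x, hxU⟩
  let Y : U := ⟨y, hyU⟩
  obtain ⟨Φ, hΦ, -, -⟩ := quaternion_hom (n := 2) X Y (Subtype.ext hyx2) (Subtype.ext hxy)
    (by rw [← Subgroup.orderOf_coe]; exact hordx) (by
      intro h
      apply hynx
      obtain ⟨k, hk⟩ := Subgroup.mem_zpowers_iff.1 h
      exact Subgroup.mem_zpowers_iff.2 ⟨k, by
        have := congrArg Subtype.val hk
        simpa using this⟩)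
  -- the complement
  obtain ⟨S, hSdef⟩ : ∃ S, S = U.map π := ⟨_, rfl⟩
  have hSU : Nat.card S = Nat.card U := by
    rw [hSdef]
    refine (Nat.card_congr (Equiv.ofBijective (fun u : U => (⟨π u, u, u.2, rfl⟩ : U.map π)) ⟨?_, ?_⟩)).symm
    · intro a b hab
      exact hπU (congrArg Subtype.val hab)
    · rintro ⟨_, u, hu, rfl⟩
      exact ⟨⟨u, hu⟩, rfl⟩
  have hS8 : Nat.card S = 8 := by
    have hp : IsPGroup 2 S := by
      rintro ⟨s, hs⟩
      rw [hSdef] at hs
      obtain ⟨u, hu, rfl⟩ := hs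
      refine ⟨2, Subtype.ext ?_⟩
      have : (π u) ^ (2 ^ 2) = π (u ^ 4) := by rw [map_pow]; norm_num
      rw [Subgroup.coe_pow]
      exact this.trans (by rw [hexp u hu, map_one]; rfl)
    haveI : Fact (Nat.Prime 2) := ⟨Nat.prime_two⟩
    obtain ⟨n, hn⟩ := hp.exists_card_eq
    have h3 : Nat.card S ∣ 72 := by rw [← hG]; exact Subgroup.card_subgroup_dvd_card S
    have h4 : 8 ≤ Nat.card S := by
      rw [hSU]
      have := Nat.card_le_card_of_injective Φ hΦ
      rwa [Nat.card_eq_fintype_card, QuaternionGroup.card] at this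
    rw [hn] at h3 h4 ⊢
    have h5 : n ≤ 3 := by
      by_contra h6
      have : 2 ^ 4 ∣ 72 := (pow_dvd_pow 2 (by omega)).trans h3
      norm_num at this
    have h6 : n = 3 := by
      by_contra h7
      have : 2 ^ n ≤ 2 ^ 2 := Nat.pow_le_pow_right (by norm_num) (by omega)
      omega
    rw [h6]
    norm_num
  have hmal : ∀ g ∉ S, ∀ s ∈ S, g * s * g⁻¹ ∈ S → s = 1 := by
    intro g hg s hs hgs
    rw [hSdef] at hg hs hgs
    obtain ⟨u, hu, rfl⟩ := hs
    obtain ⟨v, hv, hvg⟩ := hgs
    obtain ⟨g, rfl⟩ := QuotientGroup.mk'_surjective _ g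
    have hvg' : π v = π (g * u * g⁻¹) := hvg
    -- `v = z g u g⁻¹`
    have h3 : π (v * (g * u * g⁻¹)⁻¹) = 1 := by rw [map_mul, hvg', map_inv, mul_inv_cancel]
    obtain ⟨l, hl⟩ := (hcen _).1 ((hπ1 _).1 h3)
    have hv' := (hU v).1 hv
    have hu' := (hU u).1 hu
    -- `u` fixes the point of `g⁻¹ e`
    obtain ⟨d, hd⟩ : ∃ d, d = ap (suE 3 F 2 g)⁻¹ e := ⟨_, rfl⟩
    have hud : ∃ m : F, ap (suE 3 F 2 u) d = m • d := by
      have h4 : v = (v * (g * u * g⁻¹)⁻¹) * (g * u * g⁻¹) := by group
      have h5 : ap (suE 3 F 2 v) e = l • ap (suE 3 F 2 (g * u * g⁻¹)) e := by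
        conv_lhs => rw [h4, map_mul, ap_mul, hl]
      rw [hv', map_mul, map_mul, ap_mul, ap_mul, map_inv, ← hd] at h5
      have hl0 : l ≠ 0 := by rintro rfl; rw [zero_smul] at h5; exact he0 h5
      refine ⟨l⁻¹, ?_⟩
      apply ap_injective (suE 3 F 2 g)
      rw [ap_smul]
      have h6 : ap (suE 3 F 2 g) d = e := by rw [hd, ap_ap_inv]
      rw [h6]
      conv_rhs => rw [h5]
      rw [smul_smul, inv_mul_cancel₀ hl0, one_smul]
    obtain ⟨m, hm⟩ := hud
    have hgI := (hsu g).1
    have hdd : B d d = 0 := by rw [hd, hgI.inv, he]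
    by_cases hed : B e d = 0
    · -- same point, so `g ∈ Z U`
      exfalso
      apply hg
      have h4 : ap (suE 3 F 2 g)⁻¹ e ∈ Submodule.span F {e} := by
        by_contra h5
        rw [← hd] at h5
        -- `d` orthogonal to `e`
        obtain ⟨a, ha⟩ : ∃ a, a = B f d := ⟨_, rfl⟩
        have h6 : B e (d - a • e) = 0 := by rw [map_sub, map_smul, hed, he, smul_zero, sub_zero]
        have h7 : B f (d - a • e) = 0 := by rw [map_sub, map_smul, ← ha, hfe, smul_eq_mul, mul_one, sub_self]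
        have h8 : Submodule.span F {w0} = (⊤ : Submodule F (Fin 3 → F)) ⊓ prp B (Submodule.span F {e, f}) := by
          apply Submodule.eq_of_le_of_finrank_eq (span_one_le hw0)
          rw [finrank_span_self (ne_zero_of_aniso hw00)]
          omega
        have h9 : d - a • e ∈ Submodule.span F {w0} := by
          rw [h8]
          exact ⟨trivial, mem_prp_two.2 ⟨h6, h7⟩⟩
        obtain ⟨b, hb⟩ := Submodule.mem_span_singleton.1 h9
        have h10 : d = a • e + b • w0 := by rw [hb]; abel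
        have h11 : b = 0 := by
          rw [h10] at hdd
          simp only [map_add, LinearMap.add_apply, map_smul, LinearMap.map_smulₛₗ, LinearMap.smul_apply, smul_eq_mul, he, hew,
            hB.zero_swap hew, hww, mul_zero, add_zero, zero_add, mul_one] at hdd
          rcases mul_eq_zero.1 hdd with h12 | h12
          · exact h12
          · exact (map_eq_zero σ).1 h12
        apply h5
        rw [h10, h11, zero_smul, add_zero]
        exact Submodule.smul_mem _ _ (Submodule.mem_span_singleton_self e)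
      obtain ⟨l', hl'⟩ := Submodule.mem_span_singleton.1 h4
      have hl'0 : l' ≠ 0 := by
        rintro rfl
        rw [zero_smul] at hl'
        exact he0 (ap_eq_zero.1 hl'.symm)
      -- the scalar element
      obtain ⟨z, hz⟩ : ∃ z : SU 3 F 2, ∀ v, ap (suE 3 F 2 z) v = l' • v := by
        let D : GL (Fin 3) F := ofE (LinearEquiv.smulOfNeZero F (Fin 3 → F) l' hl'0)
        have hD : ∀ v, ap D v = l' • v := fun v => by rw [ap_ofE]; rfl
        have hDS : D ∈ SUn B := by
          refine ⟨?_, ?_⟩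
          · intro v v'
            rw [hD, hD, map_smul, LinearMap.map_smulₛₗ, LinearMap.smul_apply, smul_eq_mul, smul_eq_mul, ← mul_assoc,
              hnorm l' hl'0, one_mul]
          · rw [mem_SL_iff']
            have : lin D = l' • LinearMap.id := by
              apply LinearMap.ext
              intro v
              rw [lin_apply, hD]
              rfl
            rw [this, LinearMap.det_smul, LinearMap.det_id, mul_one, finrank_fintype_fun_eq_card, hc3]
            have h3 := FiniteField.pow_card_sub_one_eq_one l' hl'0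
            rwa [hF] at h3
        rw [← hr] at hDS
        obtain ⟨z, hz⟩ := hDS
        exact ⟨z, fun v => by rw [hz, hD]⟩
      have hzc : z ∈ Subgroup.center (SU 3 F 2) := (hcen z).2 ⟨l', hz⟩
      have h5 : g * z ∈ U := by
        rw [hU, map_mul, ap_mul, hz, hl', ap_ap_inv]
      refine ⟨g * z, h5, ?_⟩
      rw [map_mul, (hπ1 z).2 hzc, mul_one]
    · -- two distinct fixed points
      rw [(hπ1 u).2]
      obtain ⟨f1, hf1⟩ : ∃ f1, f1 = (B e d)⁻¹ • d := ⟨_, rfl⟩
      have e1 : B e f1 = 1 := by rw [hf1, map_smul, smul_eq_mul, inv_mul_cancel₀ hed]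
      have e2 : B f1 f1 = 0 := by rw [hf1, map_smul, LinearMap.map_smulₛₗ, LinearMap.smul_apply, hdd, smul_zero, smul_zero]
      have e3 : ap (suE 3 F 2 u) f1 = m • f1 := by rw [hf1, ap_smul, hm, smul_comm]
      have e4 : m = 1 := by
        have h5 := (hsu u).1 e f1
        rw [hu', e3, map_smul, e1, smul_eq_mul, mul_one] at h5
        exact h5
      rw [e4, one_smul] at e3
      have h5 := fix_hyp_three hB hc3 he e2 e1 (hsu u) hu' e3
      have h6 : u = 1 := suE_inj 3 (by rw [h5, map_one])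
      rw [h6]
      exact one_mem _
  obtain ⟨N, hN, hN9, hN3, ⟨e1⟩⟩ := frob72 hG S hS8 hmal
  refine ⟨N, hN, hN9, hN3, ?_⟩
  -- `S ≅ Q8`
  have hbij : Function.Bijective ((π.comp U.subtype).comp Φ |>.codRestrict S (fun x => by
      rw [hSdef]; exact ⟨Φ x, (Φ x).2, rfl⟩)) := by
    rw [Nat.bijective_iff_injective_and_card]
    refine ⟨?_, ?_⟩
    · intro a b hab
      exact hΦ (hπU (congrArg Subtype.val hab))
    · rw [hS8, Nat.card_eq_fintype_card, QuaternionGroup.card]
  exact ⟨e1.trans (MulEquiv.ofBijective _ hbij).symm⟩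

end Cfsg.Agent.H7.UTv
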