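import Cfsg.Prelude

/-!
Stabilisers of uniform partitions in the alternating group.
-/

set_option autoImplicit false
set_option linter.unusedSectionVars false

namespace Cfsg.Agent.H7.Part

open Equiv
open scoped Pointwise

/-- the stabiliser of the partition into fibres -/
def PSt {Ω β : Type*} (f : Ω → β) : Subgroup (Equiv.Perm Ω) where
  carrier := {g | ∀ x y : Ω, f x = f y ↔ f (g x) = f (g y)}
  mul_mem' {a b} ha hb := fun x y => by
    rw [hb x y, ha (b x) (b y)]; rfl
  one_mem' := fun x y => Iff.rfl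
  inv_mem' {a} ha := fun x y => by
    have := ha (a⁻¹ x) (a⁻¹ y)
    rw [show a (a⁻¹ x) = x from Equiv.apply_symm_apply a x, show a (a⁻¹ y) = y from Equiv.apply_symm_apply a y] at this
    exact this.symm

section
variable {Ω : Type*} [DecidableEq Ω]

theorem sw_comm {p q r s : Ω} (h1 : r ≠ p) (h2 : r ≠ q) (h3 : s ≠ p) (h4 : s ≠ q) :
    swap p q * swap r s = swap r s * swap p q := by
  rw [Equiv.mul_swap_eq_swap_mul, Equiv.swap_apply_of_ne_of_ne h1 h2, Equiv.swap_apply_of_ne_of_ne h3 h4]

theorem sw_rot {x y z : Ω} (hxy : x ≠ y) (hzx : z ≠ x) (hzy : z ≠ y) : swap x z * swap x y = swap y x * swap y z := by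
  ext t
  rw [Perm.mul_apply, Perm.mul_apply]
  by_cases h1 : t = x
  · subst h1
    rw [swap_apply_left, swap_apply_of_ne_of_ne hxy hzx.symm, swap_apply_of_ne_of_ne hxy.symm hzy.symm, swap_apply_right]
  by_cases h2 : t = y
  · subst h2
    rw [swap_apply_right, swap_apply_left, swap_apply_left, swap_apply_of_ne_of_ne hzy hzx]
  by_cases h3 : t = z
  · subst h3
    rw [swap_apply_of_ne_of_ne hzx hzy, swap_apply_right, swap_apply_right, swap_apply_left]
  rw [swap_apply_of_ne_of_ne h1 h2, swap_apply_of_ne_of_ne h1 h3, swap_apply_of_ne_of_ne h2 h3, swap_apply_of_ne_of_ne h2 h1]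

/-- two points moved by a three-cycle in the group -/
def Rr (M : Subgroup (Equiv.Perm Ω)) (x y : Ω) : Prop := x = y ∨ ∃ z, z ≠ x ∧ z ≠ y ∧ swap x y * swap x z ∈ M

variable {M : Subgroup (Equiv.Perm Ω)}

theorem Rr.symm {x y : Ω} (h : Rr M x y) : Rr M y x := by
  rcases h with h | ⟨z, hzx, hzy, h⟩
  · exact Or.inl h.symm
  · by_cases hxy : x = y
    · exact Or.inl hxy.symm
    right
    refine ⟨z, hzy, hzx, ?_⟩
    have h1 := M.inv_mem h
    rw [mul_inv_rev, swap_inv, swap_inv] at h1
    rw [← sw_rot hxy hzx hzy]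
    exact h1

theorem Rr.conj {h : Equiv.Perm Ω} (hh : h ∈ M) {x y : Ω} (H : Rr M x y) : Rr M (h x) (h y) := by
  rcases H with H | ⟨z, hzx, hzy, H⟩
  · left; rw [H]
  · right
    refine ⟨h z, fun e => hzx (h.injective e), fun e => hzy (h.injective e), ?_⟩
    have h1 := M.mul_mem (M.mul_mem hh H) (M.inv_mem hh)
    have h2 : swap (h x) (h y) * swap (h x) (h z) = h * (swap x y * swap x z) * h⁻¹ := by
      rw [← mul_assoc, Equiv.mul_swap_eq_swap_mul h x y, mul_assoc _ h, Equiv.mul_swap_eq_swap_mul h x z]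
      group
    rw [h2]; exact h1

theorem Rr.trans {x y w : Ω} (h1 : Rr M x y) (h2 : Rr M y w) : Rr M x w := by
  by_cases hxw : x = w
  · exact Or.inl hxw
  rcases h1 with h1 | ⟨z, hzx, hzy, h1⟩
  · rw [h1]; exact h2
  by_cases hxy : x = y
  · rw [hxy]; exact h2
  rcases h2 with h2 | ⟨v, hvy, hvw, h2⟩
  · rw [← h2]; exact Or.inr ⟨z, hzx, hzy, h1⟩
  by_cases hyw : y = w
  · rw [← hyw]; exact Or.inr ⟨z, hzx, hzy, h1⟩
  by_cases hxv : x = v
  · subst hxv
    have h3 := M.inv_mem h2
    rw [mul_inv_rev, swap_inv, swap_inv] at h3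
    right
    refine ⟨y, fun e => hxy e.symm, hyw, ?_⟩
    -- swap x w * swap x y = swap y x * swap y w
    have h4 : swap y x * swap y w = swap x w * swap x y := (sw_rot hxy (fun e => hxw e.symm) (fun e => hyw e.symm)).symm
    rw [← h4]; exact h3
  · have h3 : (swap y w * swap y v)⁻¹ ∈ M := M.inv_mem h2
    have h4 := Rr.conj h3 (Or.inr ⟨z, hzx, hzy, h1⟩ : Rr M x y)
    rw [mul_inv_rev, swap_inv, swap_inv] at h4
    rw [Equiv.Perm.mul_apply, Equiv.Perm.mul_apply, Equiv.swap_apply_of_ne_of_ne hxy hxw, Equiv.swap_apply_of_ne_of_ne hxy hxv,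
      Equiv.swap_apply_left, Equiv.swap_apply_of_ne_of_ne (fun e => hyw e.symm) (fun e => hvw e.symm)] at h4
    exact h4

theorem alt_le_of_R [Fintype Ω] [Nontrivial Ω] (h : ∀ x y, Rr M x y) : alternatingGroup Ω ≤ M := by
  have h3 : ∀ x y, x ≠ y → ∃ z, z ≠ x ∧ z ≠ y ∧ swap x y * swap x z ∈ M := fun x y hxy => (h x y).resolve_left hxy
  have htr : MulAction.IsPretransitive M Ω := by
    constructor
    intro x y
    by_cases hxy : x = y
    · exact ⟨1, by rw [one_smul, hxy]⟩
    obtain ⟨z, hzx, hzy, hm⟩ := h3 y x (fun e => hxy e.symm)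
    refine ⟨⟨_, hm⟩, ?_⟩
    change (swap y x * swap y z) x = y
    rw [Perm.mul_apply, swap_apply_of_ne_of_ne hxy (fun e => hzy e.symm), swap_apply_right]
  have hprim : MulAction.IsPreprimitive M Ω := by
    refine ⟨fun {B} hB => ?_⟩
    rw [MulAction.IsTrivialBlock]
    by_contra hcon
    push Not at hcon
    obtain ⟨h1, h2⟩ := hcon
    obtain ⟨x, hx, y, hy, hxy⟩ := h1
    obtain ⟨z, hz⟩ : ∃ z, z ∉ B := by
      by_contra hc
      push Not at hc
      exact h2 (Set.eq_univ_of_forall hc)
    have hyz : y ≠ z := fun e => hz (e ▸ hy)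
    have hxz : x ≠ z := fun e => hz (e ▸ hx)
    obtain ⟨w, hwy, hwz, hm⟩ := h3 y z hyz
    set c := swap y z * swap y w with hc
    have hcy : c y = w := by rw [hc, Perm.mul_apply, swap_apply_left, swap_apply_of_ne_of_ne hwy hwz]
    have hcw : c w = z := by rw [hc, Perm.mul_apply, swap_apply_right, swap_apply_left]
    have hcz : c z = y := by rw [hc, Perm.mul_apply, swap_apply_of_ne_of_ne hyz.symm hwz.symm, swap_apply_right]
    by_cases hxw : x = w
    · have h4 := hB.smul_eq_of_mem (g := (⟨c, hm⟩ : M)) (a := y) hy (by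
        change c y ∈ B
        rw [hcy, ← hxw]; exact hx)
      have h5 : (⟨c, hm⟩ : M) • x ∈ (⟨c, hm⟩ : M) • B := Set.smul_mem_smul_set hx
      rw [h4] at h5
      apply hz
      change c x ∈ B at h5
      rwa [hxw, hcw] at h5
    · have h6 : c x = x := by
        rw [hc, Perm.mul_apply, swap_apply_of_ne_of_ne hxy hxw, swap_apply_of_ne_of_ne hxy hxz]
      have h4 := hB.smul_eq_of_mem (g := (⟨c, hm⟩ : M)) (a := x) hx (by
        change c x ∈ B
        rw [h6]; exact hx)
      have h5 : c z ∈ B := by rw [hcz]; exact hy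
      have h7 : (⟨c, hm⟩ : M) • z ∈ (⟨c, hm⟩ : M) • B := by rw [h4]; exact h5
      exact hz ((Set.smul_mem_smul_set_iff).1 h7)
  obtain ⟨x, y, hxy⟩ := exists_pair_ne Ω
  obtain ⟨z, hzx, hzy, hm⟩ := h3 x y hxy
  exact Equiv.Perm.alternatingGroup_le_of_isPreprimitive_of_isThreeCycle_mem hprim
    (Equiv.Perm.isThreeCycle_swap_mul_swap_same hxy hzx.symm hzy.symm) hm

end

section
variable {Ω : Type*} [Fintype Ω] [DecidableEq Ω] {M : Subgroup (Equiv.Perm Ω)} {a b : ℕ} (f : Ω → Fin b)

theorem exists_coord (hf : ∀ i : Fin b, Nat.card {x : Ω // f x = i} = a) :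
    ∃ e : Ω ≃ Fin b × Fin a, ∀ x, (e x).1 = f x := by
  have hfib : ∀ i : Fin b, Nonempty ({x : Ω // f x = i} ≃ Fin a) := by
    intro i
    have : Finite {x : Ω // f x = i} := inferInstance
    exact ⟨(Finite.equivFin _).trans (finCongr (hf i))⟩
  let ef : ∀ i : Fin b, {x : Ω // f x = i} ≃ Fin a := fun i => (hfib i).some
  exact ⟨(Equiv.sigmaFiberEquiv f).symm.trans ((Equiv.sigmaCongrRight ef).trans (Equiv.sigmaEquivProd _ _)), fun x => rfl⟩

variable {f}

theorem swap_mem_PSt {x y : Ω} (h : f x = f y) : ∀ z, f (swap x y z) = f z := by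
  intro z
  rw [Equiv.swap_apply_def]
  split_ifs with h1 h2
  · rw [h1, h]
  · rw [h2, h]
  · rfl

theorem mem_PSt_of {g : Equiv.Perm Ω} (h : ∀ z, f (g z) = f z) : g ∈ PSt f := fun x y => by rw [h, h]

/-- even permutations exchanging two fibres -/
theorem exists_exch {e : Ω ≃ Fin b × Fin a} (he : ∀ x, (e x).1 = f x) (ha : 2 ≤ a) {i j : Fin b} :
    ∃ h ∈ PSt f ⊓ alternatingGroup Ω, (∀ z, f (h z) = swap i j (f z)) ∧ ∀ z, f z ≠ i → f z ≠ j → h z = z := by
  have hes : ∀ p, f (e.symm p) = p.1 := by
    intro p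
    rw [← he, Equiv.apply_symm_apply]
  let h0 : Equiv.Perm Ω := e.trans (((Equiv.swap i j).prodCongr (Equiv.refl _)).trans e.symm)
  have h1 : ∀ z, f (h0 z) = swap i j (f z) := by
    intro z
    change f (e.symm _) = _
    rw [hes, ← he]
    rfl
  have h2 : ∀ z, f z ≠ i → f z ≠ j → h0 z = z := by
    intro z hi hj
    apply e.injective
    change e (e.symm _) = _
    rw [Equiv.apply_symm_apply]
    refine Prod.ext ?_ rfl
    change swap i j (e z).1 = (e z).1
    rw [he]
    exact swap_apply_of_ne_of_ne hi hj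
  have h3 : h0 ∈ PSt f := fun x y => by rw [h1, h1, (swap i j).injective.eq_iff]
  rcases Int.units_eq_one_or (Equiv.Perm.sign h0) with hs | hs
  · exact ⟨h0, ⟨h3, hs⟩, h1, h2⟩
  · let u : Ω := e.symm (j, ⟨0, by omega⟩)
    let v : Ω := e.symm (j, ⟨1, by omega⟩)
    have huv : u ≠ v := fun h => by
      have := congrArg (fun p => (Prod.snd p).1) (e.symm.injective h)
      simp at this
    have hfuv : f u = f v := by rw [hes, hes]
    have h4 := swap_mem_PSt hfuv
    refine ⟨swap u v * h0, ⟨(PSt f).mul_mem (mem_PSt_of h4) h3, ?_⟩, ?_, ?_⟩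
    · change _ ∈ alternatingGroup Ω
      rw [Equiv.Perm.mem_alternatingGroup, Equiv.Perm.sign_mul, Equiv.Perm.sign_swap huv, hs]; rfl
    · intro z
      rw [Perm.mul_apply, h4, h1]
    · intro z hi hj
      rw [Perm.mul_apply, h2 z hi hj, swap_apply_of_ne_of_ne]
      · intro h; rw [h, hes] at hj; exact hj rfl
      · intro h; rw [h, hes] at hj; exact hj rfl

/-- all pairs are related if the fibres are -/
theorem R_all {e : Ω ≃ Fin b × Fin a} (he : ∀ x, (e x).1 = f x) (ha : 2 ≤ a)
    (hM : PSt f ⊓ alternatingGroup Ω ≤ M) (hfib : ∀ x y, f x = f y → Rr M x y) {u v : Ω} (huv : f u ≠ f v) (hR : Rr M u v) :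
    ∀ x y, Rr M x y := by
  have hall : ∀ x, Rr M u x := by
    intro x
    by_cases h1 : f x = f u
    · exact hfib _ _ h1.symm
    obtain ⟨h, hh, h2, h3⟩ := exists_exch he ha (i := f v) (j := f x)
    have h4 := hR.conj (hM hh)
    rw [h3 u huv (fun e => h1 e.symm)] at h4
    exact h4.trans (hfib _ _ (by rw [h2, swap_apply_left]))
  intro x y
  exact (hall x).symm.trans (hall y)

theorem exists_bad {g : Equiv.Perm Ω} (hgM : g ∈ M) (hg : g ∉ PSt f) :
    ∃ g ∈ M, ∃ u u', f u = f u' ∧ f (g u) ≠ f (g u') := by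
  by_contra hcon
  push Not at hcon
  apply hg
  intro x y
  constructor
  · intro h
    exact hcon g hgM x y h
  · intro h
    have h2 := hcon g⁻¹ (M.inv_mem hgM) _ _ h
    rwa [show g⁻¹ (g x) = x from Equiv.symm_apply_apply g x, show g⁻¹ (g y) = y from Equiv.symm_apply_apply g y] at h2

theorem alt_three {e : Ω ≃ Fin b × Fin a} (he : ∀ x, (e x).1 = f x) (ha : 3 ≤ a)
    (hM : PSt f ⊓ alternatingGroup Ω ≤ M) {g : Equiv.Perm Ω} (hgM : g ∈ M) (hg : g ∉ PSt f) : ∀ x y, Rr M x y := by
  have hfib : ∀ x y, f x = f y → Rr M x y := by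
    intro x y hxy
    by_cases hne : x = y
    · exact Or.inl hne
    right
    obtain ⟨k, hk⟩ : ∃ k : Fin a, k ∉ ({(e x).2, (e y).2} : Finset (Fin a)) := by
      by_contra hcon
      push Not at hcon
      have h1 : (Finset.univ : Finset (Fin a)).card ≤ ({(e x).2, (e y).2} : Finset (Fin a)).card :=
        Finset.card_le_card (fun k _ => hcon k)
      have h2 := Finset.card_le_two (a := (e x).2) (b := (e y).2)
      rw [Finset.card_univ, Fintype.card_fin] at h1
      omega
    have hfz : f (e.symm ((e x).1, k)) = f x := by rw [← he, Equiv.apply_symm_apply, he]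
    have hzx : e.symm ((e x).1, k) ≠ x := by
      intro h
      apply hk
      rw [Finset.mem_insert]
      left
      conv_rhs => rw [← h, Equiv.apply_symm_apply]
    have hzy : e.symm ((e x).1, k) ≠ y := by
      intro h
      apply hk
      rw [Finset.mem_insert, Finset.mem_singleton]
      right
      conv_rhs => rw [← h, Equiv.apply_symm_apply]
    refine ⟨_, hzx, hzy, hM ⟨(PSt f).mul_mem (mem_PSt_of (swap_mem_PSt hxy)) (mem_PSt_of (swap_mem_PSt hfz.symm)), ?_⟩⟩
    change _ ∈ alternatingGroup Ω
    rw [Equiv.Perm.mem_alternatingGroup, Equiv.Perm.sign_mul, Equiv.Perm.sign_swap hne,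
      Equiv.Perm.sign_swap hzx.symm]
    rfl
  obtain ⟨g, hgM, u, u', huu, hne⟩ := exists_bad hgM hg
  exact R_all he (by omega) hM hfib hne ((hfib _ _ huu).conj hgM)

theorem two_swaps_even {p q r s : Ω} (h1 : p ≠ q) (h2 : r ≠ s) : swap p q * swap r s ∈ alternatingGroup Ω := by
  rw [Equiv.Perm.mem_alternatingGroup, Equiv.Perm.sign_mul, Equiv.Perm.sign_swap h1, Equiv.Perm.sign_swap h2]
  rfl

theorem alt_two {e : Ω ≃ Fin b × Fin a} (he : ∀ x, (e x).1 = f x) (ha : a = 2) (hb : 3 ≤ b) (hb4 : b ≠ 4)
    (hM : PSt f ⊓ alternatingGroup Ω ≤ M) {g : Equiv.Perm Ω} (hgM : g ∈ M) (hg : g ∉ PSt f) : ∀ x y, Rr M x y := by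
  subst ha
  have hes : ∀ p, f (e.symm p) = p.1 := by
    intro p
    rw [← he, Equiv.apply_symm_apply]
  have hpt : ∀ x, ∃ x', x' ≠ x ∧ f x' = f x ∧ ∀ y, f y = f x → y = x ∨ y = x' := by
    intro x
    have h2 : ∀ k : Fin 2, k = (e x).2 ∨ k = (e x).2 + 1 := by
      intro k
      generalize (e x).2 = l
      revert k l; decide
    refine ⟨e.symm ((e x).1, (e x).2 + 1), ?_, by rw [hes, he], ?_⟩
    · intro h
      have h1 : (e x).2 + 1 = (e x).2 := by
        conv_rhs => rw [← h, Equiv.apply_symm_apply]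
      revert h1
      generalize (e x).2 = l
      revert l; decide
    · intro y hy
      rcases h2 (e y).2 with h | h
      · left
        exact e.injective (Prod.ext (by rw [he, he, hy]) h)
      · right
        apply e.injective
        rw [Equiv.apply_symm_apply]
        exact Prod.ext (by rw [he, hy, he]) h
  choose pt hpt1 hpt2 hpt3 using hpt
  have hne_of : ∀ {x y}, f x ≠ f y → x ≠ y := fun h e => h (by rw [e])
  have hfibre : ∀ i : Fin b, ∃ x, f x = i := fun i => ⟨e.symm (i, 0), by rw [hes]⟩
  -- it is enough to find a suitable pair of three-cycles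
  have fin : ∀ p q, f p ≠ f q → Rr M p q → Rr M p (pt p) → ∀ x y, Rr M x y := by
    intro p q hpq h1 h2
    refine R_all he le_rfl hM ?_ hpq h1
    intro x y hxy
    rcases hpt3 x y hxy.symm with h | h
    · exact Or.inl h.symm
    rw [h]
    obtain ⟨k, hk, hk1, hk2⟩ := exists_exch he le_rfl (i := f p) (j := f x)
    have h3 := h2.conj (hM hk)
    have h4 : f (k p) = f x := by rw [hk1, swap_apply_left]
    have h5 : f (k (pt p)) = f x := by rw [hk1, hpt2, swap_apply_left]
    rcases hpt3 x _ h4 with h6 | h6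
    · rcases hpt3 x _ h5 with h7 | h7
      · exact absurd (k.injective (h7.trans h6.symm)) (hpt1 p)
      · rw [h6, h7] at h3; exact h3
    · rcases hpt3 x _ h5 with h7 | h7
      · rw [h6, h7] at h3; exact h3.symm
      · exact absurd (k.injective (h7.trans h6.symm)) (hpt1 p)
  obtain ⟨g, hgM, u, u', huu, hpq⟩ := exists_bad hgM hg
  set p := g u with hp
  set q := g u' with hq
  have hpq' := hne_of hpq
  have hne : u ≠ u' := fun h => hpq (by rw [hp, hq, h])
  -- conjugates
  have hs : ∀ y y', f y = f y' → y ≠ y' → swap p q * swap (g y) (g y') ∈ M := by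
    intro y y' hy hyy
    have h1 : swap u u' * swap y y' ∈ M :=
      hM ⟨(PSt f).mul_mem (mem_PSt_of (swap_mem_PSt huu)) (mem_PSt_of (swap_mem_PSt hy)), two_swaps_even hne hyy⟩
    have h2 := M.mul_mem (M.mul_mem hgM h1) (M.inv_mem hgM)
    have h3 : g * (swap u u' * swap y y') * g⁻¹ = swap p q * swap (g y) (g y') := by
      rw [hp, hq, ← mul_assoc, Equiv.mul_swap_eq_swap_mul g u u', mul_assoc _ g, Equiv.mul_swap_eq_swap_mul g y y']
      group
    rw [h3] at h2
    exact h2
  -- the even permutation exchanging the fibres of `p` and `q`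
  have hh : swap p q * swap (pt p) (pt q) ∈ M := by
    apply hM
    have hne' : pt p ≠ pt q := hne_of (by rw [hpt2, hpt2]; exact hpq)
    refine ⟨?_, two_swaps_even hpq' hne'⟩
    have h1 : ∀ z, f ((swap p q * swap (pt p) (pt q)) z) = swap (f p) (f q) (f z) := by
      intro z
      rw [Perm.mul_apply]
      by_cases h1 : f z = f p
      · rw [h1, swap_apply_left]
        rcases hpt3 p z h1 with h2 | h2
        · rw [h2, swap_apply_of_ne_of_ne (hpt1 p).symm (hne_of (by rw [hpt2]; exact hpq)), swap_apply_left]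
        · rw [h2, swap_apply_left, swap_apply_of_ne_of_ne (hne_of (by rw [hpt2]; exact hpq.symm)) (hpt1 q), hpt2]
      by_cases h2 : f z = f q
      · rw [h2, swap_apply_right]
        rcases hpt3 q z h2 with h3 | h3
        · rw [h3, swap_apply_of_ne_of_ne (hne_of (by rw [hpt2]; exact hpq.symm)) (hpt1 q).symm, swap_apply_right]
        · rw [h3, swap_apply_right, swap_apply_of_ne_of_ne (hpt1 p) (hne_of (by rw [hpt2]; exact hpq)), hpt2]
      rw [swap_apply_of_ne_of_ne h1 h2, swap_apply_of_ne_of_ne (x := z) (a := pt p) (b := pt q)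
        (hne_of (by rw [hpt2]; exact h1)) (hne_of (by rw [hpt2]; exact h2)),
        swap_apply_of_ne_of_ne (hne_of h1) (hne_of h2)]
    exact fun x y => by rw [h1, h1, (swap (f p) (f q)).injective.eq_iff]
  -- the fibre of the preimage of `pt p`
  set y := g⁻¹ (pt p) with hy
  have hgy : g y = pt p := Equiv.apply_symm_apply g (pt p)
  have hyu : y ≠ u := fun h => hpt1 p (by rw [← hgy, h])
  have hyu' : y ≠ u' := fun h => by
    have : pt p = q := by rw [← hgy, h]
    exact hpq (by rw [← this, hpt2])
  have hu'pt : u' = pt u := (hpt3 u u' huu.symm).resolve_left hne.symm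
  have hfy : f y ≠ f u := fun h => by
    rcases hpt3 u y h with h1 | h1
    · exact hyu h1
    · exact hyu' (by rw [h1, hu'pt])
  have hsy := hs y (pt y) (hpt2 y).symm (hpt1 y).symm
  rw [hgy] at hsy
  set X := g (pt y) with hX
  have hXp : X ≠ p := fun h => by
    have := g.injective (hX.symm.trans (h.trans hp))
    exact hfy (by rw [← hpt2 y, this])
  have hXq : X ≠ q := fun h => by
    have := g.injective (hX.symm.trans (h.trans hq))
    exact hfy (by rw [← hpt2 y, this, huu])
  have hXp' : X ≠ pt p := fun h => by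
    have := g.injective (hX.symm.trans (h.trans hgy.symm))
    exact hpt1 y this
  have hpp : pt p ≠ p := hpt1 p
  have hqq : pt q ≠ q := hpt1 q
  have hpq1 : pt p ≠ q := hne_of (by rw [hpt2]; exact hpq)
  have hqp1 : pt q ≠ p := hne_of (by rw [hpt2]; exact hpq.symm)
  have hpq2 : pt p ≠ pt q := hne_of (by rw [hpt2, hpt2]; exact hpq)
  by_cases hXq' : X = pt q
  · -- another fibre
    obtain ⟨i, hi⟩ : ∃ i : Fin b, i ∉ ({f u, f y} : Finset (Fin b)) := by
      by_contra hcon
      push Not at hcon
      have h1 : (Finset.univ : Finset (Fin b)).card ≤ ({f u, f y} : Finset (Fin b)).card :=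
        Finset.card_le_card (fun k _ => hcon k)
      have h2 := Finset.card_le_two (a := f u) (b := f y)
      rw [Finset.card_univ, Fintype.card_fin] at h1
      omega
    rw [Finset.mem_insert, Finset.mem_singleton, not_or] at hi
    obtain ⟨w, rfl⟩ := hfibre i
    have hsw := hs w (pt w) (hpt2 w).symm (hpt1 w).symm
    set r := g w with hr
    set s := g (pt w) with hs'
    have hrs : r ≠ s := fun h => hpt1 w (g.injective h).symm
    have hany : ∀ v, (f v = f w) → g v ≠ p ∧ g v ≠ q ∧ g v ≠ pt p ∧ g v ≠ pt q := by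
      intro v hv
      refine ⟨fun h => ?_, fun h => ?_, fun h => ?_, fun h => ?_⟩
      · have := g.injective (h.trans hp)
        exact hi.1 (by rw [← hv, this])
      · have := g.injective (h.trans hq)
        exact hi.1 (by rw [← hv, this, huu])
      · have := g.injective (h.trans hgy.symm)
        exact hi.2 (by rw [← hv, this])
      · have := g.injective (h.trans (hXq'.symm.trans hX))
        exact hi.2 (by rw [← hv, this, hpt2])
    obtain ⟨hrp, hrq, hrp', hrq'⟩ := hany w rfl
    obtain ⟨hsp, hsq, hsp', hsq'⟩ := hany (pt w) (hpt2 w)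
    rw [← hr] at hrp hrq hrp' hrq'
    rw [← hs'] at hsp hsq hsp' hsq'
    by_cases hfr : f r = f s
    · have hk : swap p (pt p) * swap r s ∈ M :=
        hM ⟨(PSt f).mul_mem (mem_PSt_of (swap_mem_PSt (hpt2 p).symm)) (mem_PSt_of (swap_mem_PSt hfr)),
          two_swaps_even hpp.symm hrs⟩
      have h1 : swap p q * swap p (pt p) ∈ M := by
        have h2 := M.mul_mem hsw hk
        have h3 : swap p q * swap r s * (swap p (pt p) * swap r s) = swap p q * swap p (pt p) := by
          rw [sw_comm (p := p) (q := pt p) hrp hrp' hsp hsp', ← mul_assoc, mul_assoc (swap p q), Equiv.swap_mul_self, mul_one]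
        rw [h3] at h2
        exact h2
      have h2 : swap p (pt p) * swap p q ∈ M := by
        have := M.inv_mem h1
        rwa [mul_inv_rev, swap_inv, swap_inv] at this
      exact fin p q hpq (Or.inr ⟨pt p, hpp, hpq1, h1⟩) (Or.inr ⟨q, hpq'.symm, hpq1.symm, h2⟩)
    · -- a further fibre
      have hfp : ∀ x, x ≠ p → x ≠ pt p → f x ≠ f p := fun x h1 h2 h3 => by
        rcases hpt3 p x h3 with h | h
        · exact h1 h
        · exact h2 h
      have hfq : ∀ x, x ≠ q → x ≠ pt q → f x ≠ f q := fun x h1 h2 h3 => by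
        rcases hpt3 q x h3 with h | h
        · exact h1 h
        · exact h2 h
      have hrfp := hfp r hrp hrp'
      have hrfq := hfq r hrq hrq'
      have hsfp := hfp s hsp hsp'
      have hsfq := hfq s hsq hsq'
      have hb4' : 4 ≤ b := by
        have h1 : ({f p, f q, f r, f s} : Finset (Fin b)).card ≤ (Finset.univ : Finset (Fin b)).card :=
          Finset.card_le_card (Finset.subset_univ _)
        rw [Finset.card_univ, Fintype.card_fin] at h1
        have h2 : ({f p, f q, f r, f s} : Finset (Fin b)).card = 4 := by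
          rw [Finset.card_insert_of_notMem, Finset.card_insert_of_notMem, Finset.card_insert_of_notMem, Finset.card_singleton]
          · rw [Finset.mem_singleton]; exact hfr
          · rw [Finset.mem_insert, Finset.mem_singleton, not_or]
            exact ⟨hrfq.symm, hsfq.symm⟩
          · rw [Finset.mem_insert, Finset.mem_insert, Finset.mem_singleton, not_or, not_or]
            exact ⟨hpq, hrfp.symm, hsfp.symm⟩
        omega
      obtain ⟨i, hi⟩ : ∃ i : Fin b, i ∉ ({f p, f q, f r, f s} : Finset (Fin b)) := by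
        by_contra hcon
        push Not at hcon
        have h1 : (Finset.univ : Finset (Fin b)).card ≤ ({f p, f q, f r, f s} : Finset (Fin b)).card :=
          Finset.card_le_card (fun k _ => hcon k)
        have h2 := Finset.card_le_four (a := f p) (b := f q) (c := f r) (d := f s)
        rw [Finset.card_univ, Fintype.card_fin] at h1
        omega
      rw [Finset.mem_insert, Finset.mem_insert, Finset.mem_insert, Finset.mem_singleton, not_or, not_or, not_or] at hi
      obtain ⟨z, rfl⟩ := hfibre i
      obtain ⟨hz1, hz2, hz3, hz4⟩ := hi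
      have hk : swap p (pt p) * swap z (pt z) ∈ M :=
        hM ⟨(PSt f).mul_mem (mem_PSt_of (swap_mem_PSt (hpt2 p).symm)) (mem_PSt_of (swap_mem_PSt (hpt2 z).symm)),
          two_swaps_even hpp.symm (hpt1 z).symm⟩
      have e1 : swap r s * swap p (pt p) = swap p (pt p) * swap r s := (sw_comm hrp hrp' hsp hsp').symm
      have e2 : swap z (pt z) * swap p q = swap p q * swap z (pt z) :=
        (sw_comm (hne_of hz1) (hne_of hz2) (hne_of (by rw [hpt2]; exact hz1)) (hne_of (by rw [hpt2]; exact hz2))).symm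
      have e3 : swap z (pt z) * swap r s = swap r s * swap z (pt z) :=
        (sw_comm (hne_of hz3) (hne_of hz4) (hne_of (by rw [hpt2]; exact hz3)) (hne_of (by rw [hpt2]; exact hz4))).symm
      have e4 : swap z (pt z) * swap p (pt p) = swap p (pt p) * swap z (pt z) :=
        (sw_comm (hne_of hz1) (hne_of (by rw [hpt2]; exact hz1)) (hne_of (by rw [hpt2]; exact hz1))
          (hne_of (by rw [hpt2, hpt2]; exact hz1))).symm
      have e5 : swap r s * swap p q = swap p q * swap r s := (sw_comm hrp hrq hsp hsq).symm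
      have h1 := M.mul_mem (M.mul_mem hsw hk) (M.mul_mem hsw hk)
      have h2 : swap p q * swap r s * (swap p (pt p) * swap z (pt z)) * (swap p q * swap r s * (swap p (pt p) * swap z (pt z))) =
          (swap p q * swap p (pt p)) * (swap p q * swap p (pt p)) := by
        have c1 : swap r s * swap r s = 1 := Equiv.swap_mul_self _ _
        have c2 : swap z (pt z) * swap z (pt z) = 1 := Equiv.swap_mul_self _ _
        calc _ = swap p q * (swap r s * swap p (pt p)) * (swap z (pt z) * swap p q) * (swap r s * swap p (pt p)) * swap z (pt z) := by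
              simp only [mul_assoc]
          _ = swap p q * swap p (pt p) * (swap r s * swap p q) * (swap z (pt z) * swap p (pt p)) * (swap r s * swap z (pt z)) := by
              rw [e1, e2]; simp only [mul_assoc]
          _ = swap p q * swap p (pt p) * swap p q * (swap r s * swap p (pt p)) * (swap z (pt z) * swap r s) * swap z (pt z) := by
              rw [e5, e4]; simp only [mul_assoc]
          _ = swap p q * swap p (pt p) * swap p q * swap p (pt p) * (swap r s * swap r s) * (swap z (pt z) * swap z (pt z)) := by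
              rw [e1, e3]; simp only [mul_assoc]
          _ = _ := by rw [c1, c2, mul_one, mul_one]; simp only [mul_assoc]
      rw [h2] at h1
      -- the square of a three-cycle is its inverse
      have h3 : (swap p q * swap p (pt p)) * (swap p q * swap p (pt p)) = swap p (pt p) * swap p q := by
        have h4 : swap p q * swap p (pt p) = swap (pt p) p * swap (pt p) q := sw_rot hpp.symm hpq'.symm hpq1.symm
        calc _ = (swap (pt p) p * swap (pt p) q) * (swap p q * swap p (pt p)) := by rw [← h4]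
          _ = swap (pt p) p * (swap (pt p) q * swap p q) * swap p (pt p) := by simp only [mul_assoc]
          _ = swap (pt p) p * (swap p (pt p) * swap (pt p) q) * swap p (pt p) := by
              congr 2
              rw [Equiv.mul_swap_eq_swap_mul (swap (pt p) q) p q, swap_apply_of_ne_of_ne hpp.symm hpq', swap_apply_right]
          _ = swap (pt p) q * swap p (pt p) := by
              rw [← mul_assoc, swap_comm (pt p) p, Equiv.swap_mul_self, one_mul]
          _ = swap p (pt p) * swap p q := by
              rw [Equiv.mul_swap_eq_swap_mul (swap (pt p) q) p (pt p), swap_apply_of_ne_of_ne hpp.symm hpq', swap_apply_left,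
                swap_comm (pt p) q]
              have h5 := sw_rot (x := p) (y := q) (z := pt p) hpq' hpp hpq1
              rw [h5, swap_comm q p]
      rw [h3] at h1
      have h4 : swap p q * swap p (pt p) ∈ M := by
        have := M.inv_mem h1
        rwa [mul_inv_rev, swap_inv, swap_inv] at this
      exact fin p q hpq (Or.inr ⟨pt p, hpp, hpq1, h4⟩) (Or.inr ⟨q, hpq'.symm, hpq1.symm, h1⟩)
  · -- three different fibres
    have h1 := M.mul_mem hh hsy
    have h2 : swap p q * swap (pt p) (pt q) * (swap p q * swap (pt p) X) = swap (pt p) (pt q) * swap (pt p) X := by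
      rw [sw_comm (p := p) (q := q) hpp hpq1 hqp1 hqq, ← mul_assoc, mul_assoc (swap (pt p) (pt q)) (swap p q) (swap p q),
        Equiv.swap_mul_self, mul_one]
    rw [h2] at h1
    have h3 : Rr M (pt p) (pt q) := Or.inr ⟨X, hXp', hXq', h1⟩
    have h4 := h3.conj hh
    rw [Perm.mul_apply, Perm.mul_apply, swap_apply_left, swap_apply_right, swap_apply_of_ne_of_ne hqp1 hqq,
      swap_apply_of_ne_of_ne hpp hpq1] at h4
    -- h4 : Rr M (pt q) (pt p)
    have hXfp : f X ≠ f p := fun h => by
      rcases hpt3 p X h with h | h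
      · exact hXp h
      · exact hXp' h
    have hXfq : f X ≠ f q := fun h => by
      rcases hpt3 q X h with h | h
      · exact hXq h
      · exact hXq' h
    have hk : swap p (pt p) * swap X (pt X) ∈ M :=
      hM ⟨(PSt f).mul_mem (mem_PSt_of (swap_mem_PSt (hpt2 p).symm)) (mem_PSt_of (swap_mem_PSt (hpt2 X).symm)),
        two_swaps_even hpp.symm (hpt1 X).symm⟩
    have h5 := h3.conj hk
    rw [Perm.mul_apply, Perm.mul_apply, swap_apply_of_ne_of_ne (x := pt p) (a := X) (b := pt X)
      (hne_of (by rw [hpt2]; exact hXfp.symm)) (hne_of (by rw [hpt2, hpt2]; exact hXfp.symm)), swap_apply_right,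
      swap_apply_of_ne_of_ne (x := pt q) (a := X) (b := pt X)
      (hne_of (by rw [hpt2]; exact hXfq.symm)) (hne_of (by rw [hpt2, hpt2]; exact hXfq.symm)),
      swap_apply_of_ne_of_ne hqp1 hpq2.symm] at h5
    -- h5 : Rr M p (pt q)
    exact fin p (pt q) (by rw [hpt2]; exact hpq) h5 (h5.trans h3.symm)

end

end Cfsg.Agent.H7.Part
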