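import Cfsg.Agent.H7.SympBridge

/-!
Centre, perfectness and simplicity of the symplectic groups.
-/

set_option autoImplicit false
set_option linter.unusedSectionVars false

namespace Cfsg.Agent.H7.Tv

open Matrix Module
open scoped MatrixGroups

variable {F : Type*} [Field F]

theorem stv_conj {m : ℕ} (A : symplecticGroup (Fin m) F) (v : Fin m ⊕ Fin m → F) (c : F) :
    A * stv v c * A⁻¹ = stv (ap (spToGL m F A) v) c := by
  apply eq_stv
  intro x
  rw [map_mul, map_mul, ap_mul, ap_mul, stv_isSTv, ap_add, ap_smul, map_inv, ap_ap_inv]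
  have h2 : sf m F (ap (spToGL m F A)⁻¹ x) v = sf m F x (ap (spToGL m F A) v) := by
    rw [← spToGL_iso A, ap_ap_inv]
  rw [h2]

theorem stv_mul {m : ℕ} (v : Fin m ⊕ Fin m → F) (c d : F) : stv v c * stv v d = stv v (c + d) := by
  have hf := sf_alt (F := F) m
  apply eq_stv
  intro x
  rw [map_mul, ap_mul, stv_isSTv, stv_isSTv, map_add, LinearMap.add_apply, map_smul, LinearMap.smul_apply, hf.alt,
    smul_zero, add_zero]
  module

theorem stv_zero {m : ℕ} (v : Fin m ⊕ Fin m → F) : stv v (0 : F) = 1 := by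
  symm
  apply eq_stv
  intro x
  rw [map_one, ap_one, zero_mul, zero_smul, add_zero]

theorem stv_inv {m : ℕ} (v : Fin m ⊕ Fin m → F) (c : F) : (stv v c)⁻¹ = stv v (-c) := by
  rw [inv_eq_iff_mul_eq_one, stv_mul, add_neg_cancel, stv_zero]

theorem stv_smul {m : ℕ} (v : Fin m ⊕ Fin m → F) (a c : F) : stv (a • v) c = stv v (a * a * c) := by
  apply eq_stv
  intro x
  rw [stv_isSTv, map_smul, smul_smul, smul_eq_mul]
  congr 2
  ring

theorem exists_move {m : ℕ} {v w : Fin m ⊕ Fin m → F} (hv : v ≠ 0) (hw : w ≠ 0) :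
    ∃ A : symplecticGroup (Fin m) F, ap (spToGL m F A) v = w := by
  have hf := sf_alt (F := F) m
  have hM : ∀ u ∈ (⊤ : Submodule F (Fin m ⊕ Fin m → F)), Ctr (sf m F) (spGL m F) u := by
    intro u _ c g hg
    exact stv_mem_spGL hg
  obtain ⟨g, hg, -, hgv, -⟩ := move hf hM hf.nd_top (Submodule.mem_top (x := v)) (Submodule.mem_top (x := w)) hv hw
  obtain ⟨A, hA⟩ := exists_spToGL hg
  exact ⟨A, by rw [hA]; exact hgv⟩

/-- the short root elements -/
theorem short_eq {m : ℕ} {v w : Fin m ⊕ Fin m → F} (h : sf m F v w = 0) (c : F) (x : Fin m ⊕ Fin m → F) :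
    ap (spToGL m F (stv (v + w) c * (stv v (-c) * stv w (-c)))) x = x + (c * sf m F x w) • v + (c * sf m F x v) • w := by
  have hf := sf_alt (F := F) m
  have h' : sf m F w v = 0 := hf.skew_zero h
  rw [map_mul, map_mul, ap_mul, ap_mul, stv_isSTv, stv_isSTv, stv_isSTv]
  simp only [map_add, map_smul, LinearMap.add_apply, LinearMap.smul_apply, smul_eq_mul, hf.alt, h, h']
  module

/-- consequences of having all transvections with equal parameter congruent modulo `N` -/
theorem tau_eq_one {m : ℕ} {A : Type*} [CommGroup A] (φ : symplecticGroup (Fin m) F →* A)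
    (hφ : ∀ (v w : Fin m ⊕ Fin m → F) (c : F), v ≠ 0 → w ≠ 0 → φ (stv v c) = φ (stv w c))
    (h : (2 ≤ m ∧ (2 : F) ≠ 0) ∨ 3 ≤ m ∨ ∃ a : F, a ≠ 0 ∧ a * a ≠ 1) (v : Fin m ⊕ Fin m → F) (c : F) : φ (stv v c) = 1 := by
  have hf := sf_alt (F := F) m
  by_cases hv : v = 0
  · have : stv v c = 1 := by
      symm
      apply eq_stv
      intro x
      rw [map_one, ap_one, hv, smul_zero, add_zero]
    rw [this, map_one]
  have hadd : ∀ c d, φ (stv v (c + d)) = φ (stv v c) * φ (stv v d) := fun c d => by rw [← stv_mul, map_mul]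
  have hneg : ∀ c, φ (stv v (-c)) = (φ (stv v c))⁻¹ := fun c => by rw [← stv_inv, map_inv]
  -- two or three orthogonal vectors
  by_cases ha : ∃ a : F, a ≠ 0 ∧ a * a ≠ 1
  · obtain ⟨a, ha0, ha1⟩ := ha
    have h1 : ∀ c, φ (stv v ((a * a - 1) * c)) = 1 := by
      intro c
      have h2 := hφ (a • v) v c (smul_ne_zero ha0 hv) hv
      rw [stv_smul] at h2
      have h3 : (a * a - 1) * c = a * a * c + -c := by ring
      rw [h3, hadd, hneg, h2, mul_inv_cancel]
    have h2 : c = (a * a - 1) * ((a * a - 1)⁻¹ * c) := by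
      rw [← mul_assoc, mul_inv_cancel₀ (sub_ne_zero.2 ha1), one_mul]
    rw [h2]
    exact h1 _
  have hm : 2 ≤ m := by
    rcases h with h | h | h
    · exact h.1
    · omega
    · exact absurd h ha
  -- basis vectors
  let e : Fin m → (Fin m ⊕ Fin m → F) := fun i => Pi.single (.inl i) 1
  have he0 : ∀ i, e i ≠ 0 := by
    intro i h
    have := congrFun h (.inl i)
    simp [e] at this
  have hee : ∀ i j, sf m F (e i) (e j) = 0 := by
    intro i j
    rw [sf_apply, sympForm_eq]
    simp [e]
  have hsum0 : ∀ i j, i ≠ j → e i + e j ≠ 0 := by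
    intro i j hij h
    have := congrFun h (.inl i)
    simp [e, hij] at this
  have hsub0 : ∀ i j, i ≠ j → e i + (-e j) ≠ 0 := by
    intro i j hij h
    have := congrFun h (.inl i)
    simp [e, hij] at this
  set i : Fin m := ⟨0, by omega⟩ with hi
  set j : Fin m := ⟨1, by omega⟩ with hj
  have hij : i ≠ j := by
    intro h
    have := congrArg Fin.val h
    simp [hi, hj] at this
  -- value of the short root element
  have hshort : ∀ (u w : Fin m ⊕ Fin m → F) (c : F), u ≠ 0 → w ≠ 0 → u + w ≠ 0 →
      φ (stv (u + w) c * (stv u (-c) * stv w (-c))) = (φ (stv v c))⁻¹ := by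
    intro u w c hu hw huw
    rw [map_mul, map_mul, hφ _ v c huw hv, hφ u v (-c) hu hv, hφ w v (-c) hw hv, hneg]
    group
  -- the two values agree
  have h2c : ∀ c, φ (stv v c) * φ (stv v c) = 1 := by
    intro c
    have hne : -e j ≠ 0 := neg_ne_zero.2 (he0 j)
    have h1 := hshort (e i) (e j) (-c) (he0 i) (he0 j) (hsum0 i j hij)
    have h2 := hshort (e i) (-e j) c (he0 i) hne (hsub0 i j hij)
    have h3 : stv (e i + e j) (-c) * (stv (e i) (- -c) * stv (e j) (- -c)) =
        stv (e i + -e j) c * (stv (e i) (-c) * stv (-e j) (-c)) := by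
      apply sp_ext
      intro x
      rw [short_eq (hee i j), short_eq (by rw [map_neg, hee, neg_zero])]
      simp only [map_neg]
      module
    rw [h3, h2, hneg, inv_inv] at h1
    -- `(φ c)⁻¹ = φ c`
    rw [← mul_inv_cancel (φ (stv v c)), h1]
  by_cases h2 : (2 : F) = 0
  · have hm3 : 3 ≤ m := by
      rcases h with h | h | h
      · exact absurd h2 h.2
      · exact h
      · exact absurd h ha
    set k : Fin m := ⟨2, by omega⟩ with hk
    have hik : i ≠ k := by
      intro h
      have := congrArg Fin.val h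
      simp [hi, hk] at this
    have hjk : j ≠ k := by
      intro h
      have := congrArg Fin.val h
      simp [hj, hk] at this
    have hijk : e i + e j + e k ≠ 0 := by
      intro h
      have := congrFun h (.inl i)
      simp [e, hij, hik] at this
    have hor : sf m F (e i + e j) (e k) = 0 := by
      rw [map_add, LinearMap.add_apply, hee, hee, add_zero]
    have h1 := hshort (e i) (e k) c (he0 i) (he0 k) (hsum0 i k hik)
    have h3 := hshort (e j) (e k) c (he0 j) (he0 k) (hsum0 j k hjk)
    have h4 := hshort (e i + e j) (e k) c (hsum0 i j hij) (he0 k) hijk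
    have h5 : stv (e i + e j + e k) c * (stv (e i + e j) (-c) * stv (e k) (-c)) =
        (stv (e i + e k) c * (stv (e i) (-c) * stv (e k) (-c))) * (stv (e j + e k) c * (stv (e j) (-c) * stv (e k) (-c))) := by
      apply sp_ext
      intro x
      rw [map_mul (spToGL m F) (stv (e i + e k) c * (stv (e i) (-c) * stv (e k) (-c))), ap_mul, short_eq hor,
        short_eq (hee i k), short_eq (hee j k)]
      simp only [map_add, map_smul, LinearMap.add_apply, LinearMap.smul_apply, smul_eq_mul, hee, mul_zero, zero_mul,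
        add_zero, hf.skew_zero (hee i k), hf.skew_zero (hee j k)]
      module
    rw [h5, map_mul, h1, h3] at h4
    have h6 := mul_eq_left.1 h4
    exact inv_eq_one.1 h6
  · have h3 : c = c / 2 + c / 2 := by field_simp; ring
    rw [h3, hadd]
    exact h2c _

theorem sp_perfect {F : Type*} [Field F] [Fintype F] (m : ℕ)
    (h : 3 ≤ m ∨ (m = 2 ∧ 3 ≤ Fintype.card F) ∨ 4 ≤ Fintype.card F) : commutator (symplecticGroup (Fin m) F) = ⊤ := by
  classical
  have h4 : 4 ≤ Fintype.card F → ∃ a : F, a ≠ 0 ∧ a * a ≠ 1 := by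
    intro h
    by_contra hcon
    push Not at hcon
    have h1 : ∀ a : F, a = 0 ∨ a = 1 ∨ a = -1 := by
      intro a
      by_cases ha : a = 0
      · exact Or.inl ha
      · exact Or.inr (mul_self_eq_one_iff.1 (hcon a ha))
    have h2 : (Finset.univ : Finset F) ⊆ {0, 1, -1} := by
      intro a _
      rcases h1 a with h | h | h <;> simp [h]
    have h3 := Finset.card_le_card h2
    have h5 : ({0, 1, -1} : Finset F).card ≤ 3 := Finset.card_le_three
    rw [Finset.card_univ] at h3
    omega
  have hcond : (2 ≤ m ∧ (2 : F) ≠ 0) ∨ 3 ≤ m ∨ ∃ a : F, a ≠ 0 ∧ a * a ≠ 1 := by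
    rcases h with h | ⟨h1, h2⟩ | h
    · exact Or.inr (Or.inl h)
    · by_cases h3 : (2 : F) = 0
      · right; right
        have hne : ∃ a : F, a ≠ 0 ∧ a ≠ 1 := by
          by_contra hcon
          push Not at hcon
          have h5 : (Finset.univ : Finset F) ⊆ {0, 1} := by
            intro a _
            by_cases ha : a = 0
            · simp [ha]
            · simp [hcon a ha]
          have h6 := Finset.card_le_card h5
          have h7 : ({0, 1} : Finset F).card ≤ 2 := Finset.card_le_two
          rw [Finset.card_univ] at h6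
          omega
        obtain ⟨a, ha0, ha1⟩ := hne
        refine ⟨a, ha0, fun haa => ?_⟩
        rcases mul_self_eq_one_iff.1 haa with h | h
        · exact ha1 h
        · apply ha1
          rw [h, neg_eq_iff_add_eq_zero]
          rw [← h3]; norm_num
      · exact Or.inl ⟨by omega, h3⟩
    · exact Or.inr (Or.inr (h4 h))
  rw [← Abelianization.ker_of]
  apply sp_eq_top
  intro v c
  rw [MonoidHom.mem_ker]
  apply tau_eq_one (Abelianization.of (G := symplecticGroup (Fin m) F)) _ hcond
  intro v w c hv hw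
  obtain ⟨A, hA⟩ := exists_move hv hw
  have : stv w c = A * stv v c * A⁻¹ := by rw [stv_conj, hA]
  rw [this, map_mul, map_mul, map_inv]
  rw [mul_comm (Abelianization.of A), mul_assoc, mul_inv_cancel, mul_one]

/-- an element mapping every vector to a multiple is central -/
theorem mem_center_iff {m : ℕ} (A : symplecticGroup (Fin m) F) :
    A ∈ Subgroup.center (symplecticGroup (Fin m) F) ↔ ∀ v, ∃ c : F, ap (spToGL m F A) v = c • v := by
  have hf := sf_alt (F := F) m
  rw [Subgroup.mem_center_iff]
  constructor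
  · intro h v
    by_cases hv : v = 0
    · exact ⟨1, by rw [hv, ap_zero, smul_zero]⟩
    obtain ⟨w, hw⟩ := hf.exists_ne hv
    have hw' := hf.skew_ne hw
    have h1 := h (stv v 1)
    have h2 := congrArg (fun B => ap (spToGL m F B) w) h1
    simp only [map_mul, ap_mul] at h2
    rw [stv_isSTv, stv_isSTv, ap_add, ap_smul, one_mul, one_mul] at h2
    have h3 := add_left_cancel h2
    -- f(Aw, v) v = f(w, v) A v
    refine ⟨(sf m F w v)⁻¹ * sf m F (ap (spToGL m F A) w) v, ?_⟩
    rw [← smul_smul, h3, smul_smul, inv_mul_cancel₀ hw', one_smul]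
  · intro h B
    obtain ⟨c, hc⟩ := exists_scalar (lin (spToGL m F A)) h
    apply sp_ext
    intro v
    rw [map_mul, map_mul, ap_mul, ap_mul]
    have h1 : ∀ v, ap (spToGL m F A) v = c • v := hc
    rw [h1, h1, ap_smul]

theorem sp_ne_bot {m : ℕ} (hm : 1 ≤ m) : (⊤ : Subgroup (symplecticGroup (Fin m) F)) ≠ ⊥ := by
  have hf := sf_alt (F := F) m
  intro h
  have hv : (Pi.single (.inl ⟨0, by omega⟩) 1 : Fin m ⊕ Fin m → F) ≠ 0 := by
    intro h
    have := congrFun h (.inl ⟨0, by omega⟩)
    simp at this
  set v : Fin m ⊕ Fin m → F := Pi.single (.inl ⟨0, by omega⟩) 1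
  obtain ⟨w, hw⟩ := hf.exists_ne hv
  have hw' := hf.skew_ne hw
  have h1 : stv v (1 : F) = 1 := by
    have : stv v (1 : F) ∈ (⊤ : Subgroup (symplecticGroup (Fin m) F)) := trivial
    rw [h] at this
    exact this
  have h2 := stv_isSTv v (1 : F) w
  rw [h1, map_one, ap_one, one_mul] at h2
  have h3 : sf m F w v • v = 0 := by
    have : w + sf m F w v • v = w + 0 := by rw [add_zero]; exact h2.symm
    exact add_left_cancel this
  rcases smul_eq_zero.1 h3 with h | h
  · exact hw' h
  · exact hv h

/-- if all transvections with centre in `v^⊥` are in `M` and `M` moves `⟨v⟩`, then all transvections are in `M` -/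
theorem ctr_all_of_perp {ι : Type} [Fintype ι] [DecidableEq ι] {f : (ι → F) →ₗ[F] (ι → F) →ₗ[F] F} (hf : Alt f)
    {M : Subgroup (GL ι F)} (hMi : ∀ g ∈ M, IsIso f g) {v : ι → F} (hv : v ≠ 0)
    (hc : ∀ x, f v x = 0 → Ctr f M x) {g : GL ι F} (hg : g ∈ M) (hgv : ap g v ∉ Submodule.span F {v}) :
    ∀ x, Ctr f M x := by
  have hvspan : v ∉ Submodule.span F {ap g v} := by
    intro h
    obtain ⟨c, hc⟩ := Submodule.mem_span_singleton.1 h
    have hc0 : c ≠ 0 := by
      rintro rfl
      rw [zero_smul] at hc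
      exact hv hc.symm
    apply hgv
    rw [Submodule.mem_span_singleton]
    refine ⟨c⁻¹, ?_⟩
    conv_lhs => rw [← hc]
    rw [smul_smul, inv_mul_cancel₀ hc0, one_smul]
  obtain ⟨y, hvy, hgy⟩ := hf.exists_perp hvspan
  have hgvy : f (ap g v) y = 0 := hgy _ (Submodule.mem_span_singleton_self _)
  have hy1 : Ctr f M y := by
    have h1 : f v (ap g⁻¹ y) = 0 := by rw [← hMi g hg, ap_ap_inv]; exact hgvy
    have h2 := Ctr.conj hg (hMi g hg) (hc _ h1)
    rwa [ap_ap_inv] at h2
  have hyv : f y v ≠ 0 := by
    apply hf.skew_ne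
    rw [hvy]
    exact one_ne_zero
  -- the elements `E_{v,b}`
  have hE : ∀ b, f v b = 0 → ∃ k ∈ M, ∀ x, ap k x = x + f x v • b + f x b • v := by
    intro b hab
    obtain ⟨k1, hk1⟩ := exists_stv hf (v + b) 1
    obtain ⟨k2, hk2⟩ := exists_stv hf v (-1)
    obtain ⟨k3, hk3⟩ := exists_stv hf b (-1)
    have hba : f b v = 0 := hf.skew_zero hab
    have hk : ∀ x, ap (k1 * (k2 * k3)) x = x + f x v • b + f x b • v := by
      intro x
      rw [ap_mul, ap_mul, hk1, hk2, hk3]
      simp only [map_add, map_smul, LinearMap.add_apply, LinearMap.smul_apply, smul_eq_mul, hf.alt, hab, hba]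
      module
    refine ⟨k1 * (k2 * k3), M.mul_mem (hc _ (by rw [map_add, hf.alt, hab, add_zero]) 1 k1 hk1)
      (M.mul_mem (hc _ (hf.alt v) (-1) k2 hk2) (hc _ hab (-1) k3 hk3)), hk⟩
  intro x
  by_cases hxv : f v x = 0
  · exact hc x hxv
  have hxv' := hf.skew_ne hxv
  have h1 : ∀ b, f v b = 0 → Ctr f M (y + b) := by
    intro b hab
    obtain ⟨k, hk, hk'⟩ := hE ((f y v)⁻¹ • b) (by rw [map_smul, hab, smul_zero])
    have h2 := Ctr.conj hk (hMi k hk) hy1
    rw [hk', smul_smul, mul_inv_cancel₀ hyv, one_smul] at h2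
    set μ := f y ((f y v)⁻¹ • b) with hμ
    have h3 : Ctr f M v := hc v (hf.alt v)
    have h4 : f (y + b + μ • v) v ≠ 0 := by
      rw [map_add, map_add, LinearMap.add_apply, LinearMap.add_apply, hf.skew_zero hab, map_smul,
        LinearMap.smul_apply, hf.alt, smul_zero, add_zero, add_zero]
      exact hyv
    have h5 := Ctr.line hf h2 h3 h4 (-μ)
    have : y + b + μ • v + -μ • v = y + b := by module
    rwa [this] at h5
  have h2 : x = ((f y v)⁻¹ * f x v) • (y + (((f x v)⁻¹ * f y v) • x - y)) := by
    rw [add_sub_cancel, smul_smul]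
    have : (f y v)⁻¹ * f x v * ((f x v)⁻¹ * f y v) = 1 := by field_simp
    rw [this, one_smul]
  rw [h2]
  apply Ctr.smul
  apply h1
  apply hf.skew_zero
  rw [map_sub, LinearMap.sub_apply, map_smul, LinearMap.smul_apply, smul_eq_mul]
  field_simp
  ring

/-- a noncentral normal subgroup is everything -/
theorem sp_normal_eq_top {m : ℕ} (hm : 2 ≤ m) (hperf : commutator (symplecticGroup (Fin m) F) = ⊤)
    (N : Subgroup (symplecticGroup (Fin m) F)) [hN : N.Normal]
    (hNc : ¬ N ≤ Subgroup.center (symplecticGroup (Fin m) F)) : N = ⊤ := by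
  classical
  have hf := sf_alt (F := F) m
  obtain ⟨g, hg, hgc⟩ := SetLike.not_le_iff_exists.1 hNc
  rw [mem_center_iff] at hgc
  push Not at hgc
  obtain ⟨v, hv⟩ := hgc
  have hv0 : v ≠ 0 := by
    rintro rfl
    exact hv 1 (by rw [ap_zero, smul_zero])
  set w := ap (spToGL m F g) v with hw
  have hw0 : w ≠ 0 := by rw [hw, Ne, ap_eq_zero]; exact hv0
  -- transvections along `v` and `w` are congruent modulo `N`
  let Cg : (Fin m ⊕ Fin m → F) → (Fin m ⊕ Fin m → F) → Prop := fun a b => ∀ c : F, stv a c * (stv b c)⁻¹ ∈ N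
  have hCsymm : ∀ a b, Cg a b → Cg b a := by
    intro a b h c
    have := N.inv_mem (h c)
    rwa [_root_.mul_inv_rev, inv_inv] at this
  have hCtrans : ∀ a b d, Cg a b → Cg b d → Cg a d := by
    intro a b d h1 h2 c
    have := N.mul_mem (h1 c) (h2 c)
    have e : stv a c * (stv b c)⁻¹ * (stv b c * (stv d c)⁻¹) = stv a c * (stv d c)⁻¹ := by group
    rwa [e] at this
  have hCconj : ∀ a b (A : symplecticGroup (Fin m) F), Cg a b → Cg (ap (spToGL m F A) a) (ap (spToGL m F A) b) := by
    intro a b A h c
    rw [← stv_conj, ← stv_conj]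
    have := hN.conj_mem _ (h c) A
    have e : A * (stv a c * (stv b c)⁻¹) * A⁻¹ = A * stv a c * A⁻¹ * (A * stv b c * A⁻¹)⁻¹ := by group
    rwa [e] at this
  have hvw : Cg v w := by
    apply hCsymm
    intro c
    have h1 : stv w c = g * stv v c * g⁻¹ := by rw [stv_conj]
    rw [h1]
    have h2 : g * stv v c * g⁻¹ * (stv v c)⁻¹ = g * (stv v c * g⁻¹ * (stv v c)⁻¹) := by group
    rw [h2]
    exact N.mul_mem hg (hN.conj_mem _ (N.inv_mem hg) _)
  -- `v` is congruent to all vectors
  have hvspan : w ∉ Submodule.span F {v} := by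
    intro h
    obtain ⟨c, hc⟩ := Submodule.mem_span_singleton.1 h
    exact hv c hc.symm
  have hCrefl : ∀ a, Cg a a := by
    intro a c
    rw [mul_inv_cancel]
    exact N.one_mem
  -- the stabiliser of the class of `v`
  let H : Subgroup (symplecticGroup (Fin m) F) :=
    { carrier := {A | Cg v (ap (spToGL m F A) v)}
      one_mem' := by
        change Cg v (ap (spToGL m F 1) v)
        rw [map_one, ap_one]
        exact hCrefl v
      mul_mem' := by
        intro A B hA hB
        change Cg v (ap (spToGL m F (A * B)) v)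
        rw [map_mul, ap_mul]
        exact hCtrans _ _ _ hA (hCconj _ _ A hB)
      inv_mem' := by
        intro A hA
        change Cg v (ap (spToGL m F A⁻¹) v)
        have := hCconj _ _ A⁻¹ hA
        rw [map_inv, ap_inv_ap] at this
        rw [map_inv]
        exact hCsymm _ _ this }
  have hHtop : H = ⊤ := by
    apply sp_eq_top
    intro x c
    have h1 := ctr_all_of_perp hf (M := H.map (spToGL m F)) (by
      rintro _ ⟨A, _, rfl⟩
      exact spToGL_iso A) hv0 (by
      intro x hx c k hk
      obtain ⟨A, hA⟩ := exists_spToGL (stv_mem_spGL hk)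
      refine ⟨A, ?_, hA⟩
      change Cg v (ap (spToGL m F A) v)
      rw [hA, hk, hx, mul_zero, zero_smul, add_zero]
      exact hCrefl v) (g := spToGL m F g) ⟨g, hvw, rfl⟩ hvspan x c (spToGL m F (stv x c)) (stv_isSTv x c)
    obtain ⟨A, hA, hA'⟩ := h1
    rw [← spToGL_injective m hA']
    exact hA
  have hall : ∀ a b : Fin m ⊕ Fin m → F, a ≠ 0 → b ≠ 0 → Cg a b := by
    have h1 : ∀ a : Fin m ⊕ Fin m → F, a ≠ 0 → Cg v a := by
      intro a ha
      obtain ⟨A, hA⟩ := exists_move hv0 ha
      have : A ∈ H := by rw [hHtop]; trivial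
      have h2 : Cg v (ap (spToGL m F A) v) := this
      rwa [hA] at h2
    intro a b ha hb
    exact hCtrans _ _ _ (hCsymm _ _ (h1 a ha)) (h1 b hb)
  -- the quotient is commutative
  have hcent : (Subgroup.center (symplecticGroup (Fin m) F ⧸ N)).comap (QuotientGroup.mk' N) = ⊤ := by
    apply sp_eq_top
    intro a c
    rw [Subgroup.mem_comap, Subgroup.mem_center_iff]
    have h2 : (Subgroup.centralizer {QuotientGroup.mk' N (stv a c)}).comap (QuotientGroup.mk' N) = ⊤ := by
      apply sp_eq_top
      intro b d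
      rw [Subgroup.mem_comap, Subgroup.mem_centralizer_singleton_iff]
      by_cases ha : a = 0
      · have : stv a c = 1 := by
          symm
          apply eq_stv
          intro x
          rw [map_one, ap_one, ha, smul_zero, add_zero]
        rw [this, map_one, mul_one, one_mul]
      by_cases hb : b = 0
      · have : stv b d = 1 := by
          symm
          apply eq_stv
          intro x
          rw [map_one, ap_one, hb, smul_zero, add_zero]
        rw [this, map_one, mul_one, one_mul]
      have h3 : QuotientGroup.mk' N (stv b d) = QuotientGroup.mk' N (stv a d) := by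
        have h4 := hall b a hb ha d
        rw [← QuotientGroup.ker_mk' N, MonoidHom.mem_ker, map_mul, map_inv, mul_inv_eq_one] at h4
        exact h4
      rw [h3, ← map_mul, ← map_mul, stv_mul, stv_mul, add_comm]
    intro B
    obtain ⟨B, rfl⟩ := QuotientGroup.mk'_surjective N B
    have h3 : B ∈ (Subgroup.centralizer {QuotientGroup.mk' N (stv a c)}).comap (QuotientGroup.mk' N) := by
      rw [h2]; trivial
    exact (Subgroup.mem_centralizer_singleton_iff.1 h3)
  have hcomm : commutator (symplecticGroup (Fin m) F) ≤ N := by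
    rw [commutator_def, Subgroup.commutator_le]
    intro A _ B _
    rw [← QuotientGroup.ker_mk' N, MonoidHom.mem_ker, map_commutatorElement, commutatorElement_eq_one_iff_mul_comm]
    have h1 : A ∈ (Subgroup.center (symplecticGroup (Fin m) F ⧸ N)).comap (QuotientGroup.mk' N) := by
      rw [hcent]; trivial
    exact (Subgroup.mem_center_iff.1 h1 _).symm
  rw [hperf] at hcomm
  exact top_le_iff.1 hcomm

theorem card_center {F : Type*} [Field F] [Fintype F] (m : ℕ) (hm : 1 ≤ m) :
    Nat.card (Subgroup.center (symplecticGroup (Fin m) F)) = Nat.gcd 2 (Fintype.card F - 1) := by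
  classical
  have hf := sf_alt (F := F) m
  -- central elements are `1` and `-1`
  have hneg1 : (-1 : Matrix (Fin m ⊕ Fin m) (Fin m ⊕ Fin m) F) ∈ symplecticGroup (Fin m) F :=
    SymplecticGroup.neg_mem (one_mem _)
  let n1 : symplecticGroup (Fin m) F := ⟨-1, hneg1⟩
  have hn1 : ∀ v, ap (spToGL m F n1) v = -v := by
    intro v
    rw [ap_spToGL]
    change (-1 : Matrix (Fin m ⊕ Fin m) (Fin m ⊕ Fin m) F) *ᵥ v = -v
    rw [Matrix.neg_mulVec, Matrix.one_mulVec]
  have hv : (Pi.single (.inl ⟨0, by omega⟩) 1 : Fin m ⊕ Fin m → F) ≠ 0 := by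
    intro h
    have := congrFun h (.inl ⟨0, by omega⟩)
    simp at this
  have hcases : ∀ A ∈ Subgroup.center (symplecticGroup (Fin m) F), A = 1 ∨ A = n1 := by
    intro A hA
    rw [mem_center_iff] at hA
    obtain ⟨c, hc⟩ := exists_scalar (lin (spToGL m F A)) hA
    have hc' : ∀ v, ap (spToGL m F A) v = c • v := hc
    obtain ⟨w, hw⟩ := hf.exists_ne hv
    have h1 := spToGL_iso A (Pi.single (.inl ⟨0, by omega⟩) 1) w
    rw [hc', hc', map_smul, map_smul, LinearMap.smul_apply, smul_eq_mul, smul_eq_mul, ← mul_assoc] at h1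
    have h2 : c * c = 1 := by
      have : (c * c - 1) * sf m F (Pi.single (.inl ⟨0, by omega⟩) 1) w = 0 := by rw [sub_mul, h1, one_mul, sub_self]
      rcases mul_eq_zero.1 this with h | h
      · exact sub_eq_zero.1 h
      · exact absurd h hw
    rcases mul_self_eq_one_iff.1 h2 with h | h
    · left
      apply sp_ext
      intro v
      rw [hc', h, one_smul, map_one, ap_one]
    · right
      apply sp_ext
      intro v
      rw [hc', h, neg_smul, one_smul, hn1]
  have hn1c : n1 ∈ Subgroup.center (symplecticGroup (Fin m) F) := by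
    rw [mem_center_iff]
    intro v
    exact ⟨-1, by rw [hn1, neg_smul, one_smul]⟩
  by_cases h2 : (2 : F) = 0
  · have hn : n1 = 1 := by
      apply sp_ext
      intro v
      rw [hn1, map_one, ap_one]
      funext i
      rw [Pi.neg_apply, neg_eq_iff_add_eq_zero, ← two_mul, h2, zero_mul]
    have h1 : Subgroup.center (symplecticGroup (Fin m) F) = ⊥ := by
      rw [eq_bot_iff]
      intro A hA
      rcases hcases A hA with h | h
      · rw [h]; exact Subgroup.one_mem _
      · rw [h, hn]; exact Subgroup.one_mem _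
    rw [h1, Subgroup.card_bot]
    have h3 : ringChar F = 2 := by
      have : CharP F 2 := by
        apply CharTwo.of_one_ne_zero_of_two_eq_zero one_ne_zero h2
      exact ringChar.eq_iff.2 this
    rw [FiniteField.even_card_iff_char_two] at h3
    have h4 := Fintype.card_pos (α := F)
    have h5 : (Fintype.card F - 1) % 2 = 1 := by omega
    rw [Nat.gcd_rec, h5, Nat.gcd_one_left]
  · have hn : n1 ≠ 1 := by
      intro h
      have h1 := hn1 (Pi.single (.inl ⟨0, by omega⟩) 1)
      rw [h, map_one, ap_one] at h1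
      have h3 := congrFun h1 (.inl ⟨0, by omega⟩)
      simp at h3
      rw [eq_neg_iff_add_eq_zero] at h3
      apply h2
      rw [← h3]; norm_num
    have h1 : (Subgroup.center (symplecticGroup (Fin m) F) : Set (symplecticGroup (Fin m) F)) = {1, n1} := by
      ext A
      constructor
      · intro hA
        exact hcases A hA
      · rintro (h | h)
        · rw [h]; exact Subgroup.one_mem _
        · rw [h]; exact hn1c
    have h3 : Nat.card (Subgroup.center (symplecticGroup (Fin m) F)) = 2 := by
      rw [← SetLike.coe_sort_coe, Nat.card_coe_set_eq, h1, Set.ncard_pair hn.symm]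
    rw [h3]
    have h4 : Fintype.card F % 2 = 1 := by
      apply FiniteField.odd_card_of_char_ne_two
      intro h
      apply h2
      have : CharP F 2 := ringChar.of_eq h
      exact CharTwo.two_eq_zero
    have h5 := Fintype.card_pos (α := F)
    have h6 : (Fintype.card F - 1) % 2 = 0 := by omega
    rw [Nat.gcd_rec, h6, Nat.gcd_zero_left]

end Cfsg.Agent.H7.Tv
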