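import Cfsg.Agent.H7.KF5
import Mathlib.Topology.Compactification.OnePoint.ProjectiveLine

/-!
Simple groups of order `(p+1)p(p-1)/2`.
-/

set_option autoImplicit false
set_option linter.unusedSectionVars false

namespace Cfsg.Agent.H7.Zas

open OnePoint

/-- the data -/
structure Dat (p m : ℕ) [Fact p.Prime] (G : Type*) [Group G] where
  ψ : G →* Equiv.Perm (OnePoint (ZMod p))
  inj : Function.Injective ψ
  X : ZMod p → G
  X_inf : ∀ i, ψ (X i) ∞ = ∞
  X_some : ∀ (i j : ZMod p), ψ (X i) (j : OnePoint (ZMod p)) = ((i + j : ZMod p) : OnePoint (ZMod p))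
  norm : ∀ g, ψ g ∞ = ∞ → ψ g ((0 : ZMod p) : OnePoint (ZMod p)) = ((0 : ZMod p) : OnePoint (ZMod p)) →
    ∃ c : ZMod p, ∀ i : ZMod p, ψ g (i : OnePoint (ZMod p)) = ((c * i : ZMod p) : OnePoint (ZMod p))
  tr : ∃ g, ψ g ∞ = ((0 : ZMod p) : OnePoint (ZMod p))
  card : Nat.card G = (p + 1) * p * m

variable {p m : ℕ} [Fact p.Prime] {G : Type*} [Group G] [Finite G] (D : Dat p m G)

namespace Dat

/-- the action -/
def act (g : G) (x : OnePoint (ZMod p)) : OnePoint (ZMod p) := D.ψ g x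

theorem act_one (x : OnePoint (ZMod p)) : D.act 1 x = x := by
  rw [act, map_one]; rfl

theorem act_mul (g h : G) (x : OnePoint (ZMod p)) : D.act (g * h) x = D.act g (D.act h x) := by
  rw [act, map_mul]; rfl

theorem act_inv (g : G) (x : OnePoint (ZMod p)) : D.act g⁻¹ (D.act g x) = x := by
  rw [← D.act_mul, inv_mul_cancel, D.act_one]

theorem act_inv' (g : G) (x : OnePoint (ZMod p)) : D.act g (D.act g⁻¹ x) = x := by
  rw [← D.act_mul, mul_inv_cancel, D.act_one]

theorem act_inv_eq {g : G} {x y : OnePoint (ZMod p)} (h : D.act g x = y) : D.act g⁻¹ y = x := by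
  rw [← h, D.act_inv]

theorem act_inj (g : G) {x y : OnePoint (ZMod p)} (h : D.act g x = D.act g y) : x = y := by
  rw [← D.act_inv g x, h, D.act_inv]

theorem ext {g h : G} (h1 : D.act g ∞ = D.act h ∞) (h2 : ∀ i : ZMod p, D.act g i = D.act h i) : g = h := by
  apply D.inj
  apply Equiv.ext
  intro x
  induction x using OnePoint.rec with
  | infty => exact h1
  | coe i => exact h2 i

theorem aX_inf (i : ZMod p) : D.act (D.X i) ∞ = ∞ := D.X_inf i

theorem aX_some (i j : ZMod p) : D.act (D.X i) (j : OnePoint (ZMod p)) = ((i + j : ZMod p) : OnePoint (ZMod p)) := D.X_some i j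

/-- the scalar condition -/
def Sc (g : G) (c : ZMod p) : Prop := D.act g ∞ = ∞ ∧ ∀ i : ZMod p, D.act g (i : OnePoint (ZMod p)) = ((c * i : ZMod p) : OnePoint (ZMod p))

/-- fixing two points -/
def H : Subgroup G where
  carrier := {g | D.act g ∞ = ∞ ∧ D.act g ((0 : ZMod p) : OnePoint (ZMod p)) = ((0 : ZMod p) : OnePoint (ZMod p))}
  one_mem' := ⟨D.act_one _, D.act_one _⟩
  mul_mem' := by
    rintro a b ⟨h1, h2⟩ ⟨h3, h4⟩
    exact ⟨by rw [D.act_mul, h3, h1], by rw [D.act_mul, h4, h2]⟩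
  inv_mem' := by
    rintro a ⟨h1, h2⟩
    exact ⟨by
      have := D.act_inv a ∞
      rwa [h1] at this, by
      have := D.act_inv a ((0 : ZMod p) : OnePoint (ZMod p))
      rwa [h2] at this⟩

theorem mem_H {g : G} : g ∈ D.H ↔ D.act g ∞ = ∞ ∧ D.act g ((0 : ZMod p) : OnePoint (ZMod p)) = ((0 : ZMod p) : OnePoint (ZMod p)) := Iff.rfl

theorem exists_sc {g : G} (hg : g ∈ D.H) : ∃ c, D.Sc g c := by
  obtain ⟨c, hc⟩ := D.norm g hg.1 hg.2
  exact ⟨c, hg.1, hc⟩

variable {D}

theorem Sc.mem {g : G} {c : ZMod p} (h : D.Sc g c) : g ∈ D.H := ⟨h.1, by rw [h.2, mul_zero]⟩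

theorem Sc.ne {g : G} {c : ZMod p} (h : D.Sc g c) : c ≠ 0 := by
  rintro rfl
  have h1 := h.2 1
  have h2 := h.2 0
  rw [zero_mul] at h1 h2
  have h3 := OnePoint.coe_injective (D.act_inj g (h1.trans h2.symm))
  exact one_ne_zero h3

theorem Sc.eq {g h : G} {c : ZMod p} (hg : D.Sc g c) (hh : D.Sc h c) : g = h :=
  D.ext (hg.1.trans hh.1.symm) (fun i => (hg.2 i).trans (hh.2 i).symm)

theorem Sc.uniq {g : G} {c d : ZMod p} (hg : D.Sc g c) (hh : D.Sc g d) : c = d := by
  have h1 := (hg.2 1).symm.trans (hh.2 1)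
  have := OnePoint.coe_injective h1
  rwa [mul_one, mul_one] at this

theorem Sc.mul {g h : G} {c d : ZMod p} (hg : D.Sc g c) (hh : D.Sc h d) : D.Sc (g * h) (c * d) :=
  ⟨by rw [D.act_mul, hh.1, hg.1], fun i => by rw [D.act_mul, hh.2, hg.2, mul_assoc]⟩

variable (D)

theorem sc_one : D.Sc 1 1 := ⟨D.act_one _, fun i => by rw [D.act_one, one_mul]⟩

variable {D} in
theorem Sc.pow {g : G} {c : ZMod p} (hg : D.Sc g c) (n : ℕ) : D.Sc (g ^ n) (c ^ n) := by
  induction n with
  | zero => rw [pow_zero, pow_zero]; exact D.sc_one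
  | succ n ih => rw [pow_succ, pow_succ]; exact ih.mul hg

variable {D} in
theorem Sc.eq_one {g : G} (hg : D.Sc g 1) : g = 1 := hg.eq D.sc_one

theorem exists_to_inf (x : OnePoint (ZMod p)) : ∃ g, D.act g ∞ = x := by
  obtain ⟨w, hw⟩ := D.tr
  induction x using OnePoint.rec with
  | infty => exact ⟨1, D.act_one _⟩
  | coe i =>
    refine ⟨D.X i * w, ?_⟩
    rw [D.act_mul]
    change D.act _ (D.ψ w ∞) = _
    rw [hw, D.aX_some, add_zero]

theorem two_tr {x y : OnePoint (ZMod p)} (h : x ≠ y) : ∃ g, D.act g x = ∞ ∧ D.act g y = ((0 : ZMod p) : OnePoint (ZMod p)) := by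
  obtain ⟨g, hg⟩ := D.exists_to_inf x
  have h1 : D.act g⁻¹ x = ∞ := by rw [← hg, D.act_inv]
  have h2 : D.act g⁻¹ y ≠ ∞ := by
    intro h3
    exact h (D.act_inj g⁻¹ (h1.trans h3.symm))
  obtain ⟨j, hj⟩ := OnePoint.ne_infty_iff_exists.1 h2
  refine ⟨D.X (-j) * g⁻¹, ?_, ?_⟩
  · rw [D.act_mul, h1, D.aX_inf]
  · rw [D.act_mul, ← hj, D.aX_some, neg_add_cancel]

theorem card_H : Nat.card D.H = m := by
  classical
  choose a ha using D.exists_to_inf
  let F : OnePoint (ZMod p) × ZMod p × D.H → G := fun t => a t.1 * D.X t.2.1 * t.2.2.1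
  have hF : Function.Bijective F := by
    constructor
    · rintro ⟨x, i, h⟩ ⟨y, j, k⟩ e
      have e1 : x = y := by
        have := congrArg (fun g => D.act g ∞) e
        simp only [F] at this
        rw [D.act_mul, D.act_mul, D.act_mul, D.act_mul, h.2.1, k.2.1, D.aX_inf, D.aX_inf, ha, ha] at this
        exact this
      subst e1
      have e2 : D.X i * h.1 = D.X j * k.1 := by
        have : a x * D.X i * h.1 = a x * D.X j * k.1 := e
        rw [mul_assoc, mul_assoc] at this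
        exact mul_left_cancel this
      have e3 : i = j := by
        have : D.act (D.X i * h.1) ((0 : ZMod p) : OnePoint (ZMod p)) = D.act (D.X j * k.1) ((0 : ZMod p) : OnePoint (ZMod p)) := by rw [e2]
        rw [D.act_mul, D.act_mul, h.2.2, k.2.2, D.aX_some, D.aX_some, add_zero, add_zero] at this
        exact OnePoint.coe_injective this
      subst e3
      have e4 : h.1 = k.1 := mul_left_cancel e2
      rw [Subtype.ext e4]
    · intro g
      have h1 : D.act ((a (D.act g ∞))⁻¹ * g) ∞ = ∞ := by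
        rw [D.act_mul]
        exact D.act_inv_eq (ha _)
      have h2 : D.act ((a (D.act g ∞))⁻¹ * g) ((0 : ZMod p) : OnePoint (ZMod p)) ≠ ∞ := by
        intro h3
        exact OnePoint.infty_ne_coe _ (D.act_inj _ (h1.trans h3.symm))
      obtain ⟨j, hj⟩ := OnePoint.ne_infty_iff_exists.1 h2
      refine ⟨(D.act g ∞, j, ⟨(D.X j)⁻¹ * ((a (D.act g ∞))⁻¹ * g), ?_, ?_⟩), ?_⟩
      · rw [D.act_mul, h1]
        exact D.act_inv_eq (D.aX_inf j)
      · rw [D.act_mul, ← hj]
        have : (j : OnePoint (ZMod p)) = D.act (D.X j) ((0 : ZMod p) : OnePoint (ZMod p)) := by rw [D.aX_some, add_zero]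
        rw [this, D.act_inv]
      · simp only [F]
        group
  have h1 := Nat.card_congr (Equiv.ofBijective F hF)
  have h2 : Nat.card (OnePoint (ZMod p)) = p + 1 := by
    change Nat.card (Option (ZMod p)) = p + 1
    rw [Nat.card_eq_fintype_card, Fintype.card_option, ZMod.card]
  rw [Nat.card_prod, Nat.card_prod, h2, Nat.card_zmod, D.card, ← mul_assoc] at h1
  have hp : 0 < (p + 1) * p := Nat.mul_pos (by omega) (Fact.out : p.Prime).pos
  exact Nat.eq_of_mul_eq_mul_left hp h1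

theorem three {g : G} {x y z : OnePoint (ZMod p)} (hxy : x ≠ y) (hxz : x ≠ z) (hyz : y ≠ z) (h1 : D.act g x = x) (h2 : D.act g y = y)
    (h3 : D.act g z = z) : g = 1 := by
  obtain ⟨k, hk1, hk2⟩ := D.two_tr hxy
  have e0 : ∀ t, D.act g t = t → D.act (k * g * k⁻¹) (D.act k t) = D.act k t := by
    intro t ht
    rw [D.act_mul, D.act_inv, D.act_mul, ht]
  have e1 := e0 x h1
  have e2 := e0 y h2
  have e3 := e0 z h3
  rw [hk1] at e1
  rw [hk2] at e2
  obtain ⟨c, hc⟩ := D.exists_sc (g := k * g * k⁻¹) ⟨e1, e2⟩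
  have e4 : D.act k z ≠ ∞ := by
    intro h; exact hxz (D.act_inj k (hk1.trans h.symm))
  obtain ⟨j, hj⟩ := OnePoint.ne_infty_iff_exists.1 e4
  have e5 : j ≠ 0 := by
    rintro rfl
    exact hyz (D.act_inj k (hk2.trans hj))
  rw [← hj, hc.2] at e3
  have e6 := OnePoint.coe_injective e3
  have e7 : c = 1 := by
    have : (c - 1) * j = 0 := by linear_combination e6
    rcases mul_eq_zero.1 this with h | h
    · linear_combination h
    · exact absurd h e5
  subst e7
  have e8 := hc.eq_one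
  calc g = k⁻¹ * (k * g * k⁻¹) * k := by group
    _ = 1 := by rw [e8]; group

theorem m_pos (hpm : p = 2 * m + 1) : 0 < m := by
  have := (Fact.out : p.Prime).two_le
  omega

theorem sc_iff (hpm : p = 2 * m + 1) (c : ZMod p) : (∃ g, D.Sc g c) ↔ c ^ m = 1 := by
  classical
  have hm := m_pos hpm
  haveI : Fintype D.H := Fintype.ofFinite _
  choose f hf using fun h : D.H => D.exists_sc h.2
  have finj : Function.Injective f := by
    intro a b hab
    have h1 := hf a
    have h2 := hf b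
    rw [hab] at h1
    exact Subtype.ext (h1.eq h2)
  have hroot : ∀ g c, D.Sc g c → c ^ m = 1 := by
    intro g c h
    have h1 := h.pow m
    have h2 : g ^ m = 1 := by
      have h3 := pow_card_eq_one' (x := (⟨g, h.mem⟩ : D.H))
      rw [D.card_H] at h3
      exact congrArg Subtype.val h3
    rw [h2] at h1
    exact h1.uniq D.sc_one
  have hsub : Finset.univ.image f ⊆ (Polynomial.nthRoots m (1 : ZMod p)).toFinset := by
    intro x hx
    obtain ⟨h, -, rfl⟩ := Finset.mem_image.1 hx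
    rw [Multiset.mem_toFinset, Polynomial.mem_nthRoots hm]
    exact hroot _ _ (hf h)
  have hcard : (Polynomial.nthRoots m (1 : ZMod p)).toFinset.card ≤ (Finset.univ.image f).card := by
    rw [Finset.card_image_of_injective _ finj, Finset.card_univ, ← Nat.card_eq_fintype_card, D.card_H]
    exact (Multiset.toFinset_card_le _).trans (Polynomial.card_nthRoots m 1)
  have heq := Finset.eq_of_subset_of_card_le hsub hcard
  constructor
  · rintro ⟨g, hg⟩
    exact hroot g c hg
  · intro h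
    have h1 : c ∈ (Polynomial.nthRoots m (1 : ZMod p)).toFinset := by
      rw [Multiset.mem_toFinset, Polynomial.mem_nthRoots hm]
      exact h
    rw [← heq] at h1
    obtain ⟨k, -, rfl⟩ := Finset.mem_image.1 h1
    exact ⟨k.1, hf k⟩

theorem sc_iff_sq (hpm : p = 2 * m + 1) {c : ZMod p} (hc : c ≠ 0) : (∃ g, D.Sc g c) ↔ IsSquare c := by
  rw [D.sc_iff hpm, ZMod.euler_criterion p hc, show p / 2 = m by omega]

theorem exists_swap (hpm : p = 2 * m + 1) : ∃ w, D.act w ∞ = ((0 : ZMod p) : OnePoint (ZMod p)) ∧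
    D.act w ((0 : ZMod p) : OnePoint (ZMod p)) = ∞ ∧ w * w = 1 := by
  obtain ⟨t, ht⟩ := exists_prime_orderOf_dvd_card' (G := G) 2 (by
    rw [D.card]
    refine Dvd.dvd.mul_right (Dvd.dvd.mul_right ?_ _) _
    rw [hpm]
    exact ⟨m + 1, by ring⟩)
  have ht1 : t ≠ 1 := by
    rintro rfl
    rw [orderOf_one] at ht
    norm_num at ht
  have ht2 : t * t = 1 := by rw [← pow_two, ← ht, pow_orderOf_eq_one]
  have h1 : ∃ x, D.act t x ≠ x := by
    by_contra hcon
    push Not at hcon
    apply ht1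
    apply D.ext
    · rw [hcon, D.act_one]
    · intro i
      rw [hcon, D.act_one]
  obtain ⟨x, hx⟩ := h1
  obtain ⟨k, hk1, hk2⟩ := D.two_tr (x := x) (y := D.act t x) (Ne.symm hx)
  refine ⟨k * t * k⁻¹, ?_, ?_, ?_⟩
  · rw [D.act_mul, D.act_mul, D.act_inv_eq hk1, hk2]
  · rw [D.act_mul, D.act_mul, D.act_inv_eq hk2, ← D.act_mul t t, ht2, D.act_one, hk1]
  · calc k * t * k⁻¹ * (k * t * k⁻¹) = k * (t * t) * k⁻¹ := by group
      _ = 1 := by rw [ht2]; group

/-- swapping the two points -/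
def W (t : G) : Prop := D.act t ∞ = ((0 : ZMod p) : OnePoint (ZMod p)) ∧ D.act t ((0 : ZMod p) : OnePoint (ZMod p)) = ∞

theorem card_W (hpm : p = 2 * m + 1) : Nat.card {t : G // D.W t} = m := by
  obtain ⟨w, hw1, hw2, hw⟩ := D.exists_swap hpm
  refine Eq.trans ?_ D.card_H
  refine Nat.card_congr ⟨fun t => ⟨w * t.1, ?_, ?_⟩, fun h => ⟨w * h.1, ?_, ?_⟩, ?_, ?_⟩
  · rw [D.act_mul, t.2.1, hw2]
  · rw [D.act_mul, t.2.2, hw1]
  · rw [D.act_mul, h.2.1, hw1]
  · rw [D.act_mul, h.2.2, hw2]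
  · intro t
    apply Subtype.ext
    change w * (w * t.1) = t.1
    rw [← mul_assoc, hw, one_mul]
  · intro t
    apply Subtype.ext
    change w * (w * t.1) = t.1
    rw [← mul_assoc, hw, one_mul]

theorem inv_even (hpm : p = 2 * m + 1) (hm : Even m) (t : G) (ht : D.W t) : t * t = 1 := by
  classical
  haveI : Fintype {t : G // D.W t} := Fintype.ofFinite _
  obtain ⟨n, hn⟩ := (D.sc_iff hpm (-1)).2 hm.neg_one_pow
  have key : ∀ i : ZMod p, i ≠ 0 → ∃ t, D.W t ∧ D.act t (i : OnePoint (ZMod p)) = i ∧ t * t = 1 := by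
    intro i hi
    obtain ⟨k, hk1, hk2⟩ := D.two_tr (x := (i : OnePoint (ZMod p))) (y := ∞) (by
      intro h; exact OnePoint.coe_ne_infty _ h)
    have h3 : D.act k ((0 : ZMod p) : OnePoint (ZMod p)) ≠ ∞ := by
      intro h
      exact hi (OnePoint.coe_injective (D.act_inj k (hk1.trans h.symm)))
    obtain ⟨j, hj⟩ := OnePoint.ne_infty_iff_exists.1 h3
    have hr1 : D.act (D.X j * n) ∞ = ∞ := by rw [D.act_mul, hn.1, D.aX_inf]
    have hr2 : ∀ l : ZMod p, D.act (D.X j * n) (l : OnePoint (ZMod p)) = ((j - l : ZMod p) : OnePoint (ZMod p)) := by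
      intro l
      rw [D.act_mul, hn.2, D.aX_some]
      congr 1; ring
    have hr : (D.X j * n) * (D.X j * n) = 1 := by
      apply D.ext
      · rw [D.act_mul, hr1, hr1, D.act_one]
      · intro l
        rw [D.act_mul, hr2, hr2, D.act_one]
        congr 1; ring
    refine ⟨k⁻¹ * (D.X j * n) * k, ⟨?_, ?_⟩, ?_, ?_⟩
    · rw [D.act_mul, hk2, D.act_mul, hr2, sub_zero]
      exact D.act_inv_eq hj.symm
    · rw [D.act_mul, ← hj, D.act_mul, hr2, sub_self]
      exact D.act_inv_eq hk2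
    · rw [D.act_mul, hk1, D.act_mul, hr1]
      exact D.act_inv_eq hk1
    · calc k⁻¹ * (D.X j * n) * k * (k⁻¹ * (D.X j * n) * k) = k⁻¹ * ((D.X j * n) * (D.X j * n)) * k := by group
        _ = 1 := by rw [hr]; group
  choose T hT1 hT2 hT3 using fun i : {i : ZMod p // i ≠ 0} => key i.1 i.2
  let T' : {i : ZMod p // i ≠ 0} → {t : G // D.W t} := fun i => ⟨T i, hT1 i⟩
  have h1 := Finset.card_le_mul_card_image (f := T') Finset.univ 2 (by
    intro t _
    by_contra hcon
    push Not at hcon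
    obtain ⟨a, ha, b, hb, c, hc, hab, hac, hbc⟩ := Finset.two_lt_card.1 hcon
    have fx : ∀ a, a ∈ Finset.univ.filter (fun x => T' x = t) → D.act t.1 (a.1 : OnePoint (ZMod p)) = a.1 := by
      intro a ha
      rw [← (Finset.mem_filter.1 ha).2]
      exact hT2 a
    have ne : ∀ a b : {i : ZMod p // i ≠ 0}, a ≠ b → (a.1 : OnePoint (ZMod p)) ≠ b.1 := by
      intro a b hab h
      exact hab (Subtype.ext (OnePoint.coe_injective h))
    have h4 := D.three (ne a b hab) (ne a c hac) (ne b c hbc) (fx a ha) (fx b hb) (fx c hc)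
    have h5 := t.2.1
    rw [h4, D.act_one] at h5
    exact OnePoint.infty_ne_coe _ h5)
  have h2 : Fintype.card {i : ZMod p // i ≠ 0} = 2 * m := by
    rw [Fintype.card_subtype_compl, ZMod.card, Fintype.card_subtype_eq]
    omega
  rw [Finset.card_univ, h2] at h1
  have h3 : Finset.univ.image T' = Finset.univ := by
    apply Finset.eq_univ_of_card
    apply le_antisymm (Finset.card_le_univ _)
    rw [← Nat.card_eq_fintype_card, D.card_W hpm]
    omega
  have h4 : (⟨t, ht⟩ : {t : G // D.W t}) ∈ Finset.univ.image T' := by rw [h3]; exact Finset.mem_univ _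
  obtain ⟨i, -, hi⟩ := Finset.mem_image.1 h4
  have h5 : T i = t := congrArg Subtype.val hi
  rw [← h5]
  exact hT3 i

theorem index_H (hpm : p = 2 * m + 1) : D.H.index = (p + 1) * p := by
  have h1 := Subgroup.index_mul_card D.H
  rw [D.card_H, D.card] at h1
  exact Nat.eq_of_mul_eq_mul_right (m_pos hpm) h1

theorem centralizer_aux (hpm : p = 2 * m + 1) (h1m : 1 < m) {w : G} (hw : D.W w) (hww : w * w = 1)
    (hcom : ∀ h ∈ D.H, w * h = h * w) (hcomm : ∀ g ∈ D.H, ∀ h ∈ D.H, g * h = h * g) :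
    Subgroup.normalizer (D.H : Set G) ≤ Subgroup.centralizer (D.H : Set G) := by
  obtain ⟨⟨h0, hh0⟩, hne⟩ : ∃ h : D.H, h ≠ 1 := by
    by_contra hcon
    push Not at hcon
    have : Nat.card D.H = 1 := by
      rw [Nat.card_eq_one_iff_unique]
      exact ⟨⟨fun a b => by rw [hcon a, hcon b]⟩, ⟨1⟩⟩
    rw [D.card_H] at this
    omega
  have hne' : h0 ≠ 1 := fun h => hne (Subtype.ext h)
  have hfix : ∀ x : OnePoint (ZMod p), D.act h0 x = x → x = ∞ ∨ x = ((0 : ZMod p) : OnePoint (ZMod p)) := by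
    intro x hx
    by_contra hcon
    push Not at hcon
    exact hne' (D.three (OnePoint.infty_ne_coe _) (Ne.symm hcon.1) (Ne.symm hcon.2) hh0.1 hh0.2 hx)
  intro g hg
  have h1 : g⁻¹ * h0 * g ∈ D.H := by
    rw [Subgroup.mem_normalizer_iff''] at hg
    exact (hg h0).1 hh0
  have h2 : ∀ x, D.act (g⁻¹ * h0 * g) x = x → D.act h0 (D.act g x) = D.act g x := by
    intro x hx
    have : D.act g (D.act (g⁻¹ * h0 * g) x) = D.act g x := by rw [hx]
    rw [D.act_mul, D.act_mul, D.act_inv'] at this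
    exact this
  have h3 := hfix _ (h2 _ h1.1)
  have h4 := hfix _ (h2 _ h1.2)
  rw [Subgroup.mem_centralizer_iff]
  intro h hh
  rcases h3 with h3 | h3
  · rcases h4 with h4 | h4
    · exact absurd (D.act_inj g (h3.trans h4.symm)) (OnePoint.infty_ne_coe _)
    · exact hcomm h hh g ⟨h3, h4⟩
  · rcases h4 with h4 | h4
    · have h5 : w * g ∈ D.H := ⟨by rw [D.act_mul, h3, hw.2], by rw [D.act_mul, h4, hw.1]⟩
      have h6 := hcomm h hh _ h5
      have h7 := hcom h hh
      have h8 : w * (h * g) = w * (g * h) := by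
        rw [← mul_assoc, h7, mul_assoc, h6, mul_assoc]
      exact mul_left_cancel h8
    · exact absurd (D.act_inj g (h3.trans h4.symm)) (OnePoint.infty_ne_coe _)

theorem inv_odd [IsSimpleGroup G] (hpm : p = 2 * m + 1) {r k : ℕ} (hr : r.Prime) (hr2 : r ≠ 2) (hm : m = r ^ k) (hk : k ≠ 0)
    (hs : ∀ s < m, (s * s) % m = 1 → s = 1 ∨ s + 1 = m) (t : G) (ht : D.W t) : t * t = 1 := by
  classical
  haveI : Fact r.Prime := ⟨hr⟩
  have h1m : 1 < m := by
    rw [hm]
    exact Nat.one_lt_pow hk hr.one_lt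
  obtain ⟨w, hw1, hw2, hww⟩ := D.exists_swap hpm
  have hwinv : w⁻¹ = w := inv_eq_of_mul_eq_one_left hww
  choose f hf using fun h : D.H => D.exists_sc h.2
  let φ : D.H →* ZMod p :=
    { toFun := f
      map_one' := (hf 1).uniq D.sc_one
      map_mul' := fun a b => (hf (a * b)).uniq ((hf a).mul (hf b)) }
  have hφ : Function.Injective φ := by
    intro a b hab
    have h1 := hf a
    have h2 := hf b
    have h3 : f a = f b := hab
    rw [h3] at h1
    exact Subtype.ext (h1.eq h2)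
  haveI : IsCyclic D.H := isCyclic_of_injective_ringHom φ hφ
  obtain ⟨h1, hgen⟩ := IsCyclic.exists_generator (α := D.H)
  have hord : orderOf h1 = m := by rw [orderOf_eq_card_of_forall_mem_zpowers hgen, D.card_H]
  have hconj : ∀ h : D.H, w * h.1 * w ∈ D.H := by
    intro h
    exact ⟨by rw [D.act_mul, D.act_mul, hw1, h.2.2, hw2], by rw [D.act_mul, D.act_mul, hw2, h.2.1, hw1]⟩
  have hconjmul : ∀ a b : G, w * (a * b) * w = (w * a * w) * (w * b * w) := by
    intro a b
    calc w * (a * b) * w = w * a * 1 * b * w := by group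
      _ = w * a * (w * w) * b * w := by rw [hww]
      _ = _ := by group
  have hconjpow : ∀ (a : G) (n : ℕ), w * a ^ n * w = (w * a * w) ^ n := by
    intro a n
    induction n with
    | zero => rw [pow_zero, pow_zero, mul_one, hww]
    | succ n ih => rw [pow_succ, pow_succ, hconjmul, ih]
  obtain ⟨s, hs1, hs2⟩ : ∃ s < m, w * h1.1 * w = h1.1 ^ s := by
    have h2 := hgen ⟨_, hconj h1⟩
    rw [← mem_powers_iff_mem_zpowers, Submonoid.mem_powers_iff] at h2
    obtain ⟨n, hn⟩ := h2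
    refine ⟨n % m, Nat.mod_lt _ (by omega), ?_⟩
    have h3 := congrArg Subtype.val hn
    have h4 : h1 ^ (n % orderOf h1) = h1 ^ n := pow_mod_orderOf _ _
    rw [hord] at h4
    have h5 := congrArg Subtype.val h4
    change h1.1 ^ n = w * h1.1 * w at h3
    change h1.1 ^ (n % m) = h1.1 ^ n at h5
    rw [h5, h3]
  have hss : (s * s) % m = 1 := by
    have h2 : h1.1 ^ (s * s) = h1.1 := by
      rw [pow_mul, ← hs2, ← hconjpow, ← hs2]
      calc w * (w * h1.1 * w) * w = (w * w) * h1.1 * (w * w) := by group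
        _ = h1.1 := by rw [hww, one_mul, mul_one]
    have h3 : h1 ^ (s * s) = h1 ^ 1 := by
      apply Subtype.ext
      rw [pow_one]
      exact h2
    rw [pow_eq_pow_iff_modEq, hord] at h3
    have h4 : (s * s) % m = 1 % m := h3
    rwa [Nat.mod_eq_of_lt h1m] at h4
  have hpowgen : ∀ h ∈ D.H, ∃ n : ℕ, h = h1.1 ^ n := by
    intro h hh
    have h2 := hgen ⟨h, hh⟩
    rw [← mem_powers_iff_mem_zpowers, Submonoid.mem_powers_iff] at h2
    obtain ⟨n, hn⟩ := h2
    exact ⟨n, (congrArg Subtype.val hn).symm⟩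
  rcases hs s hs1 hss with h2 | h2
  · exfalso
    subst h2
    rw [pow_one] at hs2
    have hcomm : ∀ g ∈ D.H, ∀ h ∈ D.H, g * h = h * g := by
      intro g hg h hh
      obtain ⟨n, rfl⟩ := hpowgen g hg
      obtain ⟨l, rfl⟩ := hpowgen h hh
      rw [← pow_add, ← pow_add, add_comm]
    have hcom : ∀ h ∈ D.H, w * h = h * w := by
      intro h hh
      obtain ⟨n, rfl⟩ := hpowgen h hh
      have h3 := hconjpow h1.1 n
      rw [hs2] at h3
      calc w * h1.1 ^ n = w * h1.1 ^ n * (w * w) := by rw [hww, mul_one]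
        _ = (w * h1.1 ^ n * w) * w := by group
        _ = _ := by rw [h3]
    have hN := D.centralizer_aux hpm h1m ⟨hw1, hw2⟩ hww hcom hcomm
    have hpg : IsPGroup r D.H := IsPGroup.of_card (n := k) (by rw [D.card_H, hm])
    have hidx : ¬ r ∣ D.H.index := by
      rw [D.index_H hpm]
      intro h3
      have hrm : r ∣ m := by rw [hm]; exact dvd_pow_self r hk
      rcases (hr.dvd_mul).1 h3 with h4 | h4
      · have h5 : r ∣ 2 * m + 2 := by rwa [hpm] at h4
        have h6 : r ∣ 2 := (Nat.dvd_add_right (Dvd.dvd.mul_left hrm 2)).1 h5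
        exact hr2 ((Nat.prime_dvd_prime_iff_eq hr Nat.prime_two).1 h6)
      · rw [hpm] at h4
        have h6 : r ∣ 1 := (Nat.dvd_add_right (Dvd.dvd.mul_left hrm 2)).1 h4
        exact hr.one_lt.ne' (Nat.dvd_one.1 h6)
    let P : Sylow r G := hpg.toSylow hidx
    have hPN : Subgroup.normalizer (P : Set G) ≤ Subgroup.centralizer (P : Set G) := hN
    have hcomp := MonoidHom.ker_transferSylow_isComplement' P hPN
    have hcard := hcomp.card_mul
    have hPc : Nat.card (P : Subgroup G) = m := D.card_H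
    rcases Subgroup.Normal.eq_bot_or_eq_top (inferInstance : (MonoidHom.transferSylow P hPN).ker.Normal) with h3 | h3
    · rw [h3, hPc, D.card, Subgroup.card_bot] at hcard
      have h4 := Nat.eq_of_mul_eq_mul_right (by omega) hcard
      have h5 := (Fact.out : p.Prime).two_le
      nlinarith
    · rw [h3, hPc, Subgroup.card_top] at hcard
      have h4 : 0 < Nat.card G := Nat.card_pos
      nlinarith
  · have h3 : w * h1.1 * w = h1.1⁻¹ := by
      rw [hs2]
      apply eq_inv_of_mul_eq_one_left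
      rw [← pow_succ, h2]
      have := pow_orderOf_eq_one h1
      rw [hord] at this
      exact congrArg Subtype.val this
    have h4 : w * t ∈ D.H := ⟨by rw [D.act_mul, ht.1, hw2], by rw [D.act_mul, ht.2, hw1]⟩
    obtain ⟨n, hn⟩ := hpowgen _ h4
    have h5 : t = w * h1.1 ^ n := by rw [← hn, ← mul_assoc, hww, one_mul]
    rw [h5]
    calc w * h1.1 ^ n * (w * h1.1 ^ n) = (w * h1.1 ^ n * w) * h1.1 ^ n := by group
      _ = 1 := by rw [hconjpow, h3, inv_pow, inv_mul_cancel]

theorem odd_p (hpm : p = 2 * m + 1) : (2 : ZMod p) ≠ 0 := by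
  intro h
  have h1 : ((2 : ℕ) : ZMod p) = 0 := by exact_mod_cast h
  rw [ZMod.natCast_eq_zero_iff] at h1
  have := Nat.le_of_dvd (by norm_num) h1
  have := m_pos hpm
  omega

theorem exists_sq_succ (hpm : p = 2 * m + 1) : ∃ s : ZMod p, s ≠ 0 ∧ IsSquare s ∧ ¬ IsSquare (1 + s) := by
  by_contra hcon
  push Not at hcon
  have h1 : ∀ n : ℕ, IsSquare (n : ZMod p) := by
    intro n
    induction n with
    | zero => rw [Nat.cast_zero]; exact IsSquare.zero
    | succ n ih =>
      rw [Nat.cast_succ, add_comm]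
      by_cases h0 : (n : ZMod p) = 0
      · rw [h0, add_zero]; exact IsSquare.one
      · exact hcon _ h0 ih
  obtain ⟨a, ha⟩ := FiniteField.exists_nonsquare (F := ZMod p) (by
    rw [ZMod.ringChar_zmod_n]
    have := m_pos hpm
    omega)
  apply ha
  have := h1 a.val
  rwa [ZMod.natCast_zmod_val] at this

theorem sq_div (hpm : p = 2 * m + 1) {x y : ZMod p} (hx : ¬ IsSquare x) (hy : ¬ IsSquare y) : IsSquare (x / y) := by
  have hx0 : x ≠ 0 := by rintro rfl; exact hx IsSquare.zero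
  have hy0 : y ≠ 0 := by rintro rfl; exact hy IsSquare.zero
  have key : ∀ z : ZMod p, z ≠ 0 → ¬ IsSquare z → z ^ m = -1 := by
    intro z hz hz2
    rw [ZMod.euler_criterion p hz, show p / 2 = m by omega] at hz2
    have := ZMod.pow_div_two_eq_neg_one_or_one p hz
    rw [show p / 2 = m by omega] at this
    exact this.resolve_left hz2
  rw [ZMod.euler_criterion p (div_ne_zero hx0 hy0), show p / 2 = m by omega, div_pow, key x hx0 hx, key y hy0 hy]
  norm_num

theorem exists_f {w : G} (hw : D.W w) : ∃ f : ZMod p → ZMod p, ∀ i : ZMod p, i ≠ 0 → f i ≠ 0 ∧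
    D.act w (i : OnePoint (ZMod p)) = (f i : OnePoint (ZMod p)) := by
  have key : ∀ i : ZMod p, ∃ j : ZMod p, i ≠ 0 → j ≠ 0 ∧ D.act w (i : OnePoint (ZMod p)) = (j : OnePoint (ZMod p)) := by
    intro i
    by_cases hi : i = 0
    · exact ⟨0, fun h => absurd hi h⟩
    · have h1 : D.act w (i : OnePoint (ZMod p)) ≠ ∞ := by
        intro h
        exact hi (OnePoint.coe_injective (D.act_inj w (h.trans hw.2.symm)))
      obtain ⟨j, hj⟩ := OnePoint.ne_infty_iff_exists.1 h1
      refine ⟨j, fun _ => ⟨?_, hj.symm⟩⟩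
      rintro rfl
      exact OnePoint.coe_ne_infty _ (D.act_inj w (hj.symm.trans hw.1.symm))
  choose f hf using key
  exact ⟨f, hf⟩

theorem f_sq (hW : ∀ t, D.W t → t * t = 1) (hpm : p = 2 * m + 1) {w : G} (hw : D.W w) {f : ZMod p → ZMod p}
    (hf : ∀ i : ZMod p, i ≠ 0 → f i ≠ 0 ∧ D.act w (i : OnePoint (ZMod p)) = (f i : OnePoint (ZMod p))) {c i : ZMod p} (hc : c ≠ 0)
    (hsq : IsSquare c) (hi : i ≠ 0) : f (f i) = i ∧ f (c * i) = c⁻¹ * f i := by
  have h1 : ∀ i : ZMod p, i ≠ 0 → f (f i) = i := by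
    intro i hi
    have h2 : D.act (w * w) (i : OnePoint (ZMod p)) = i := by rw [hW w hw, D.act_one]
    rw [D.act_mul, (hf i hi).2, (hf _ (hf i hi).1).2] at h2
    exact OnePoint.coe_injective h2
  refine ⟨h1 i hi, ?_⟩
  obtain ⟨g, hg⟩ := (D.sc_iff_sq hpm hc).2 hsq
  have h2 : D.W (w * g) := ⟨by rw [D.act_mul, hg.1, hw.1], by rw [D.act_mul, hg.2, mul_zero, hw.2]⟩
  have hci : c * i ≠ 0 := mul_ne_zero hc hi
  have h3 : D.act ((w * g) * (w * g)) (i : OnePoint (ZMod p)) = i := by rw [hW _ h2, D.act_one]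
  rw [D.act_mul, D.act_mul w g i, hg.2, (hf _ hci).2, D.act_mul, hg.2, (hf _ (mul_ne_zero hc (hf _ hci).1)).2] at h3
  have h4 := OnePoint.coe_injective h3
  have h5 := h1 _ (mul_ne_zero hc (hf _ hci).1)
  rw [h4] at h5
  rw [h5]
  field_simp

theorem no_inv (hpm : p = 2 * m + 1) (hm : Odd m) {t : G} {x : OnePoint (ZMod p)} (hx : D.act t x = x) (ht : t * t = 1) : t = 1 := by
  have h20 := odd_p hpm
  obtain ⟨k, hk⟩ := D.exists_to_inf x
  set t' := k⁻¹ * t * k with ht'
  have e1 : D.act t' ∞ = ∞ := by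
    rw [ht', D.act_mul, D.act_mul, hk, hx]
    exact D.act_inv_eq hk
  have e2 : t' * t' = 1 := by
    calc k⁻¹ * t * k * (k⁻¹ * t * k) = k⁻¹ * (t * t) * k := by group
      _ = 1 := by rw [ht]; group
  have e3 : D.act t' ((0 : ZMod p) : OnePoint (ZMod p)) ≠ ∞ := by
    intro h
    exact OnePoint.coe_ne_infty _ (D.act_inj t' (h.trans e1.symm))
  obtain ⟨j, hj⟩ := OnePoint.ne_infty_iff_exists.1 e3
  obtain ⟨c, hc⟩ := D.exists_sc (g := D.X (-j) * t') ⟨by rw [D.act_mul, e1, D.aX_inf], by rw [D.act_mul, ← hj, D.aX_some, neg_add_cancel]⟩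
  have e4 : ∀ z : ZMod p, D.act t' (z : OnePoint (ZMod p)) = ((c * z + j : ZMod p) : OnePoint (ZMod p)) := by
    intro z
    have h1 : D.act t' (z : OnePoint (ZMod p)) ≠ ∞ := by
      intro h
      exact OnePoint.coe_ne_infty _ (D.act_inj t' (h.trans e1.symm))
    obtain ⟨l, hl⟩ := OnePoint.ne_infty_iff_exists.1 h1
    have h2 := hc.2 z
    rw [D.act_mul, ← hl, D.aX_some] at h2
    rw [← hl]
    congr 1
    linear_combination OnePoint.coe_injective h2
  have e5 : ∀ z : ZMod p, c * (c * z + j) + j = z := by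
    intro z
    have h1 : D.act (t' * t') (z : OnePoint (ZMod p)) = z := by rw [e2, D.act_one]
    rw [D.act_mul, e4, e4] at h1
    exact OnePoint.coe_injective h1
  have e6 := e5 0
  have e7 := e5 1
  have e8 : (c - 1) * (c + 1) = 0 := by linear_combination e7 - e6
  have e9 : t' = 1 := by
    rcases mul_eq_zero.1 e8 with h | h
    · have hc1 : c = 1 := by linear_combination h
      subst hc1
      have hj0 : j = 0 := by
        have : 2 * j = 0 := by linear_combination e6
        exact (mul_eq_zero.1 this).resolve_left h20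
      apply D.ext
      · rw [e1, D.act_one]
      · intro i
        rw [e4, D.act_one, hj0, one_mul, add_zero]
    · exfalso
      have hc1 : c = -1 := by linear_combination h
      have h2 := (D.sc_iff hpm c).1 ⟨_, hc⟩
      rw [hc1, hm.neg_one_pow] at h2
      exact h20 (by linear_combination -h2)
  calc t = k * t' * k⁻¹ := by rw [ht']; group
    _ = 1 := by rw [e9]; group

theorem exists_div (hW : ∀ t, D.W t → t * t = 1) (hpm : p = 2 * m + 1) : ∃ (a : ZMod p) (w : G), a ≠ 0 ∧ D.W w ∧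
    ∀ z : ZMod p, z ≠ 0 → D.act w (z : OnePoint (ZMod p)) = ((a / z : ZMod p) : OnePoint (ZMod p)) := by
  obtain ⟨w, hw1, hw2, hww⟩ := D.exists_swap hpm
  have hw : D.W w := ⟨hw1, hw2⟩
  obtain ⟨f, hf⟩ := D.exists_f hw
  have hfs : ∀ {c i : ZMod p}, c ≠ 0 → IsSquare c → i ≠ 0 → f (c * i) = c⁻¹ * f i := fun h1 h2 h3 => (D.f_sq hW hpm hw hf h1 h2 h3).2
  have hff : ∀ {i : ZMod p}, i ≠ 0 → f (f i) = i := fun h3 => (D.f_sq hW hpm hw hf one_ne_zero IsSquare.one h3).1
  have hf10 := (hf 1 one_ne_zero).1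
  by_cases ha : IsSquare (f 1)
  · -- normalise
    obtain ⟨g, hg⟩ := (D.sc_iff_sq hpm (c := (f 1)⁻¹) (inv_ne_zero hf10)).2 (by
      obtain ⟨r, hr⟩ := ha
      exact ⟨r⁻¹, by rw [hr, _root_.mul_inv]⟩)
    clear hfs hff
    have hw' : D.W (g * w) := ⟨by rw [D.act_mul, hw1, hg.2, mul_zero], by rw [D.act_mul, hw2, hg.1]⟩
    have hw'1 : D.act (g * w) ((1 : ZMod p) : OnePoint (ZMod p)) = ((1 : ZMod p) : OnePoint (ZMod p)) := by
      rw [D.act_mul, (hf 1 one_ne_zero).2, hg.2, inv_mul_cancel₀ hf10]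
    obtain ⟨e, he⟩ := D.exists_f hw'
    generalize g * w = u at hw' hw'1 he
    have hes : ∀ {c i : ZMod p}, c ≠ 0 → IsSquare c → i ≠ 0 → e (c * i) = c⁻¹ * e i := fun h1 h2 h3 => (D.f_sq hW hpm hw' he h1 h2 h3).2
    have hee : ∀ {i : ZMod p}, i ≠ 0 → e (e i) = i := fun h3 => (D.f_sq hW hpm hw' he one_ne_zero IsSquare.one h3).1
    have he1 : e 1 = 1 := by
      have h1 := (he 1 one_ne_zero).2
      rw [hw'1] at h1
      exact (OnePoint.coe_injective h1).symm
    have hes1 : ∀ {c : ZMod p}, c ≠ 0 → IsSquare c → e c = c⁻¹ := by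
      intro c h1 h2
      have := hes h1 h2 (one_ne_zero (α := ZMod p))
      rwa [mul_one, he1, mul_one] at this
    rcases Nat.even_or_odd m with hm | hm
    · have hneg : IsSquare (-1 : ZMod p) := by
        rw [ZMod.euler_criterion p (neg_ne_zero.2 one_ne_zero), show p / 2 = m by omega]
        exact hm.neg_one_pow
      have hneg0 : (-1 : ZMod p) ≠ 0 := neg_ne_zero.2 one_ne_zero
      have en1 : e (-1) = -1 := by rw [hes1 hneg0 hneg]; norm_num
      obtain ⟨s, hs0, hs1, hs2⟩ := exists_sq_succ hpm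
      have hv0 : 1 + s ≠ 0 := by
        intro h; rw [h] at hs2; exact hs2 IsSquare.zero
      have hsi : IsSquare s⁻¹ := by
        obtain ⟨r, hr⟩ := hs1
        exact ⟨r⁻¹, by rw [hr, _root_.mul_inv]⟩
      have hv1 : e (s⁻¹ * (1 + s)) = s * e (1 + s) := by
        rw [hes (inv_ne_zero hs0) hsi hv0, inv_inv]
      have hv2 : e (-(1 + s)) = -e (1 + s) := by
        have := hes hneg0 hneg hv0
        rw [show (-1 : ZMod p) * (1 + s) = -(1 + s) by ring] at this
        rw [this]
        have : (-1 : ZMod p)⁻¹ = -1 := by norm_num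
        rw [this]; ring
      set g1 := u * D.X (-1) * u * D.X 1 * u * D.X (-1) with hg1
      have hact : ∀ x, D.act g1 x = D.act u (D.act (D.X (-1)) (D.act u (D.act (D.X 1) (D.act u (D.act (D.X (-1)) x))))) := by
        intro x
        rw [hg1, D.act_mul, D.act_mul, D.act_mul, D.act_mul, D.act_mul]
      have h1 : D.act g1 ∞ = ∞ := by
        rw [hact, D.aX_inf, hw'.1, D.aX_some, add_zero, hw'1, D.aX_some, neg_add_cancel, hw'.2]
      have h2 : D.act g1 ((0 : ZMod p) : OnePoint (ZMod p)) = ((0 : ZMod p) : OnePoint (ZMod p)) := by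
        rw [hact, D.aX_some, add_zero, (he _ hneg0).2, en1, D.aX_some, add_neg_cancel, hw'.2, D.aX_inf, hw'.1]
      obtain ⟨c, hc⟩ := D.exists_sc ⟨h1, h2⟩
      have h3 : D.act g1 ((1 : ZMod p) : OnePoint (ZMod p)) = ((-1 : ZMod p) : OnePoint (ZMod p)) := by
        rw [hact, D.aX_some, neg_add_cancel, hw'.2, D.aX_inf, hw'.1, D.aX_some, add_zero, (he _ hneg0).2, en1]
      have h4 : c = -1 := by
        rw [hc.2, mul_one] at h3
        exact OnePoint.coe_injective h3
      subst h4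
      have h5 : D.act g1 ((1 + s : ZMod p) : OnePoint (ZMod p)) = D.act u ((-1 + s * e (1 + s) : ZMod p) : OnePoint (ZMod p)) := by
        have hx : (s⁻¹ * (1 + s)) ≠ 0 := mul_ne_zero (inv_ne_zero hs0) hv0
        rw [hact, D.aX_some, show (-1 : ZMod p) + (1 + s) = s by ring, (he s hs0).2, hes1 hs0 hs1, D.aX_some,
          show (1 : ZMod p) + s⁻¹ = s⁻¹ * (1 + s) by field_simp; ring, (he _ hx).2, hv1, D.aX_some]
      rw [hc.2] at h5
      have h6 : D.act u (((-1 : ZMod p) * (1 + s) : ZMod p) : OnePoint (ZMod p)) = ((-1 + s * e (1 + s) : ZMod p) : OnePoint (ZMod p)) := by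
        rw [h5, ← D.act_mul, hW u hw', D.act_one]
      rw [show (-1 : ZMod p) * (1 + s) = -(1 + s) by ring, (he _ (neg_ne_zero.2 hv0)).2, hv2] at h6
      have h7 := OnePoint.coe_injective h6
      have h8 : e (1 + s) = (1 + s)⁻¹ := by
        apply eq_inv_of_mul_eq_one_left
        linear_combination -h7
      refine ⟨1, u, one_ne_zero, hw', ?_⟩
      intro z hz
      rw [(he z hz).2]
      congr 1
      by_cases hzs : IsSquare z
      · rw [hes1 hz hzs, one_div]
      · have h9 := sq_div hpm hzs hs2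
        have h10 := hes (div_ne_zero hz hv0) h9 hv0
        rw [div_mul_cancel₀ _ hv0, h8] at h10
        rw [h10]
        field_simp
    · exfalso
      have h1 := D.no_inv hpm hm hw'1 (hW u hw')
      have h2 := hw'.1
      rw [h1, D.act_one] at h2
      exact OnePoint.infty_ne_coe _ h2
  · refine ⟨f 1, w, hf10, hw, ?_⟩
    intro z hz
    rw [(hf z hz).2]
    congr 1
    by_cases hzs : IsSquare z
    · have := hfs hz hzs (one_ne_zero (α := ZMod p))
      rw [mul_one] at this
      rw [this]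
      field_simp
    · have h9 := sq_div hpm hzs ha
      have h10 := hfs (div_ne_zero hz hf10) h9 hf10
      rw [div_mul_cancel₀ _ hf10, hff one_ne_zero] at h10
      rw [h10]
      field_simp

end Dat

end Cfsg.Agent.H7.Zas
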