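import Cfsg.Agent.H7.Zas
import Cfsg.Agent.S0242

/-!
Simple groups of order `(p+1)p(p-1)/2`: the isomorphism with `PSL_2`.
-/

set_option autoImplicit false
set_option linter.unusedSectionVars false

namespace Cfsg.Agent.H7.Zas

open OnePoint Matrix
open Cfsg.Agent.H7.KF Cfsg.Agent.H7.SL2 Cfsg.Agent.H7.IsoCl

section mob
variable {K : Type*} [Field K] [DecidableEq K]

/-- the action on the projective line -/
def mob : SL K →* Equiv.Perm (OnePoint K) := (MulAction.toPermHom (GL (Fin 2) K) (OnePoint K)).comp SpecialLinearGroup.toGL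

theorem mob_inf (a b c d : K) (h : a * d - b * c = 1) : mob (S a b c d h) ∞ = if c = 0 then ∞ else ((a / c : K) : OnePoint K) := by
  change (SpecialLinearGroup.toGL (S a b c d h)) • (∞ : OnePoint K) = _
  rw [OnePoint.smul_infty_eq_ite]
  rfl

theorem mob_some (a b c d : K) (h : a * d - b * c = 1) (k : K) : mob (S a b c d h) (k : OnePoint K) =
    if c * k + d = 0 then ∞ else (((a * k + b) / (c * k + d) : K) : OnePoint K) := by
  change (SpecialLinearGroup.toGL (S a b c d h)) • (k : OnePoint K) = _
  rw [OnePoint.smul_some_eq_ite]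
  rfl

theorem mem_ker_mob (g : SL K) : g ∈ (mob (K := K)).ker ↔ g = 1 ∨ g = -1 := by
  obtain ⟨a, b, c, d, h, rfl⟩ := exists_S g
  rw [MonoidHom.mem_ker]
  constructor
  · intro e
    have e1 : mob (S a b c d h) ∞ = ∞ := by rw [e]; rfl
    have e2 : mob (S a b c d h) ((0 : K) : OnePoint K) = ((0 : K) : OnePoint K) := by rw [e]; rfl
    have e3 : mob (S a b c d h) ((1 : K) : OnePoint K) = ((1 : K) : OnePoint K) := by rw [e]; rfl
    have hc : c = 0 := by
      by_contra hc
      rw [mob_inf, if_neg hc] at e1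
      exact OnePoint.coe_ne_infty _ e1
    subst hc
    have hd : d ≠ 0 := by
      rintro rfl
      simp at h
    rw [mob_some, if_neg (by rwa [zero_mul, zero_add])] at e2
    have hb := OnePoint.coe_injective e2
    rw [mul_zero, zero_add, zero_mul, zero_add, div_eq_zero_iff] at hb
    have hb' : b = 0 := hb.resolve_right hd
    subst hb'
    rw [mob_some, if_neg (by rwa [zero_mul, zero_add])] at e3
    have ha := OnePoint.coe_injective e3
    rw [mul_one, add_zero, zero_mul, zero_add, div_eq_one_iff_eq hd] at ha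
    subst ha
    have h3 : (a - 1) * (a + 1) = 0 := by linear_combination h
    rcases mul_eq_zero.1 h3 with h3 | h3
    · left
      rw [S_one]
      apply S_eq
      · linear_combination h3
      · rfl
      · rfl
      · linear_combination h3
    · right
      rw [S_neg_one]
      apply S_eq
      · linear_combination h3
      · rfl
      · rfl
      · linear_combination h3
  · rintro (e | e)
    · rw [e, map_one]
    · rw [e, S_neg_one]
      apply Equiv.ext
      intro x
      induction x using OnePoint.rec with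
      | infty => rw [mob_inf, if_pos rfl]; rfl
      | coe i =>
        rw [mob_some, if_neg (by rw [zero_mul, zero_add]; exact neg_ne_zero.2 one_ne_zero)]
        change _ = (i : OnePoint K)
        congr 1
        rw [zero_mul, zero_add]
        norm_num

end mob

variable {p m : ℕ} [Fact p.Prime] {G : Type*} [Group G] [Finite G] (D : Dat p m G)

theorem Dat.equiv (hW : ∀ t, D.W t → t * t = 1) (hpm : p = 2 * m + 1) : Nonempty (G ≃* ProjectiveSpecialLinearGroup (Fin 2) (ZMod p)) := by
  have h20 := Dat.odd_p hpm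
  obtain ⟨a, w, ha, hw, hwz⟩ := D.exists_div hW hpm
  have hinc : ∀ g : SL (ZMod p), mob g ∈ D.ψ.range := by
    intro g
    refine sl2_induct (P := fun g => mob g ∈ D.ψ.range) ?_ ?_ ?_ ?_ g
    · intro g h hg hh; rw [map_mul]; exact mul_mem hg hh
    · intro g hg; rw [map_inv]; exact inv_mem hg
    · intro b
      refine ⟨D.X b, ?_⟩
      apply Equiv.ext
      intro x
      induction x using OnePoint.rec with
      | infty => rw [mob_inf, if_pos rfl]; exact D.X_inf b
      | coe i =>
        rw [mob_some, if_neg (by rw [zero_mul, zero_add]; exact one_ne_zero), D.X_some]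
        congr 1
        rw [zero_mul, zero_add, div_one, one_mul, add_comm]
    · intro b
      refine ⟨w * D.X (a * b) * w, ?_⟩
      apply Equiv.ext
      intro x
      change D.act (w * D.X (a * b) * w) x = _
      rw [D.act_mul, D.act_mul]
      induction x using OnePoint.rec with
      | infty =>
        rw [mob_inf, hw.1, D.aX_some, add_zero]
        by_cases hb : b = 0
        · rw [if_pos hb, hb, mul_zero, hw.2]
        · rw [if_neg hb, hwz _ (mul_ne_zero ha hb)]
          congr 1
          field_simp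
      | coe i =>
        rw [mob_some]
        by_cases hi : i = 0
        · rw [hi, hw.2, D.aX_inf, hw.1, if_neg (by rw [mul_zero, zero_add]; exact one_ne_zero)]
          congr 1
          simp
        · rw [hwz i hi, D.aX_some]
          by_cases hbi : b * i + 1 = 0
          · rw [if_pos hbi]
            have : a * b + a / i = 0 := by
              field_simp
              linear_combination a * hbi
            rw [this, hw.2]
          · rw [if_neg hbi]
            have h1 : a * b + a / i = a * (b * i + 1) / i := by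
              field_simp
            rw [h1, hwz _ (div_ne_zero (mul_ne_zero ha hbi) hi)]
            congr 1
            field_simp
            ring
  have hle : (mob (K := ZMod p)).range ≤ D.ψ.range := by
    rintro _ ⟨g, rfl⟩
    exact hinc g
  have hkc : Nat.card (mob (K := ZMod p)).ker = 2 :=
    Cfsg.Agent.H7.Rho.card_two (neg_one_ne h20) mem_ker_mob
  have hsl := card_sl2 (S0242.result (F := ZMod p) rfl 2 (by norm_num))
  rw [ZMod.card] at hsl
  have h1 : Nat.card (mob (K := ZMod p)).ker * Nat.card (mob (K := ZMod p)).range = Nat.card (SL (ZMod p)) := by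
    have h2 := Subgroup.card_eq_card_quotient_mul_card_subgroup (mob (K := ZMod p)).ker
    rw [h2, mul_comm, Nat.card_congr (QuotientGroup.quotientKerEquivRange (mob (K := ZMod p))).toEquiv]
  have h2 : Nat.card D.ψ.range = Nat.card G := (Nat.card_congr (MonoidHom.ofInjective D.inj).toEquiv).symm
  have h3 : Nat.card D.ψ.range ≤ Nat.card (mob (K := ZMod p)).range := by
    rw [h2, D.card]
    rw [hkc, hsl] at h1
    have h4 : p ^ 2 - 1 = 2 * (m * (p + 1)) := by
      have : p ^ 2 = 2 * (m * (p + 1)) + 1 := by rw [hpm]; ring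
      omega
    rw [h4] at h1
    have h5 : 2 * Nat.card (mob (K := ZMod p)).range = 2 * ((p + 1) * p * m) := by rw [h1]; ring
    omega
  have heq : (mob (K := ZMod p)).range = D.ψ.range := Subgroup.eq_of_le_of_card_ge hle h3
  have hker : (mob (K := ZMod p)).ker = Subgroup.center (SL (ZMod p)) := by
    ext g
    rw [mem_ker_mob, ← pr_eq_one]
    exact QuotientGroup.eq_one_iff g
  exact ⟨(MonoidHom.ofInjective D.inj).trans ((MulEquiv.subgroupCongr heq.symm).trans
    ((QuotientGroup.quotientKerEquivRange (mob (K := ZMod p))).symm.trans (QuotientGroup.quotientMulEquivOfEq hker)))⟩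

theorem exists_dat [IsSimpleGroup G] (hpm : p = 2 * m + 1) (h5 : 5 ≤ p) (hcard : Nat.card G = (p + 1) * p * m) : Nonempty (Dat p m G) := by
  classical
  have hp : p.Prime := Fact.out
  have hm : 0 < m := by omega
  obtain ⟨x, hx⟩ := exists_prime_orderOf_dvd_card' (G := G) p (by
    rw [hcard]
    exact Dvd.dvd.mul_right (Dvd.intro_left _ rfl) _)
  have hPc : Nat.card (Subgroup.zpowers x) = p := by rw [Nat.card_zpowers, hx]
  have hidx : (Subgroup.zpowers x).index = (p + 1) * m := by
    have h1 := Subgroup.index_mul_card (Subgroup.zpowers x)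
    rw [hPc, hcard] at h1
    apply Nat.eq_of_mul_eq_mul_right hp.pos
    rw [h1]; ring
  have hndvd : ¬ p ∣ (p + 1) * m := by
    intro h
    rcases (hp.dvd_mul).1 h with h | h
    · have : p ∣ 1 := (Nat.dvd_add_right (dvd_refl p)).1 h
      exact hp.one_lt.ne' (Nat.dvd_one.1 this)
    · have := Nat.le_of_dvd hm h
      omega
  let P : Sylow p G := (IsPGroup.of_card (n := 1) (by rw [hPc, pow_one])).toSylow (P := Subgroup.zpowers x) (by rw [hidx]; exact hndvd)
  have hP : (P : Subgroup G) = Subgroup.zpowers x := rfl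
  have hcS : ∀ Q : Sylow p G, Nat.card Q = p := by
    intro Q
    have h1 := Sylow.card_eq_multiplicity Q
    have h2 := Sylow.card_eq_multiplicity P
    have h3 : Nat.card P = p := hPc
    rw [h1, ← h2, h3]
  -- the number of Sylow subgroups
  have hN : Nat.card (Sylow p G) = p + 1 := by
    have h1 : Nat.card (Sylow p G) ∣ (p + 1) * m := by
      rw [← hidx]
      exact P.card_dvd_index
    have h2 : Nat.card (Sylow p G) ≡ 1 [MOD p] := card_sylow_modEq_one p G
    have h3 : Nat.card (Sylow p G) ≠ 1 := by
      intro h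
      haveI : Subsingleton (Sylow p G) := (Nat.card_eq_one_iff_unique.1 h).1
      have h4 := P.normal_of_subsingleton
      rcases h4.eq_bot_or_eq_top with h5 | h5
      · rw [hP] at h5
        rw [h5, Subgroup.card_bot] at hPc
        exact hp.one_lt.ne hPc
      · rw [hP] at h5
        rw [h5, Subgroup.card_top, hcard] at hPc
        have h6 : 0 < p * m := Nat.mul_pos hp.pos hm
        have h7 : 1 ≤ m := hm
        nlinarith
    obtain ⟨l, hl⟩ := h1
    have h4 : 1 ≤ Nat.card (Sylow p G) := Nat.card_pos
    obtain ⟨k, hk⟩ := (Nat.modEq_iff_dvd' h4).1 h2.symm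
    have hk' : Nat.card (Sylow p G) = 1 + p * k := by omega
    rw [hk'] at hl h3 ⊢
    have hk1 : 1 ≤ k := by
      rcases Nat.eq_zero_or_pos k with h | h
      · rw [h, mul_zero] at h3
        exact absurd rfl h3
      · exact h
    have hlm : l % p = m := by
      have h5 : (1 + p * k) * l = l + p * (k * l) := by ring
      have h6 : (p + 1) * m = m + p * m := by ring
      rw [h5, h6] at hl
      have h7 : (m + p * m) % p = (l + p * (k * l)) % p := by rw [hl]
      rw [Nat.add_mul_mod_self_left, Nat.add_mul_mod_self_left, Nat.mod_eq_of_lt (by omega : m < p)] at h7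
      exact h7.symm
    have hl2 : m ≤ l := by rw [← hlm]; exact Nat.mod_le _ _
    have h8 : (1 + p * k) * m ≤ (1 + p * 1) * m := by
      calc (1 + p * k) * m ≤ (1 + p * k) * l := Nat.mul_le_mul_left _ hl2
        _ = (p + 1) * m := hl.symm
        _ = (1 + p * 1) * m := by ring
    have h9 := Nat.le_of_mul_le_mul_right h8 hm
    have h10 : k ≤ 1 := Nat.le_of_mul_le_mul_left (by omega : p * k ≤ p * 1) hp.pos
    have h11 : k = 1 := by omega
    rw [h11]; ring
  haveI : Nontrivial (Sylow p G) := Finite.one_lt_card_iff_nontrivial.1 (by rw [hN]; omega)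
  obtain ⟨Q₀, hQ⟩ := exists_ne P
  -- powers
  let X : ZMod p → G := fun i => x ^ i.val
  have hXn : ∀ n : ℕ, X (n : ZMod p) = x ^ n := by
    intro n
    change x ^ (n : ZMod p).val = x ^ n
    rw [ZMod.val_natCast, ← hx, pow_mod_orderOf]
  have hXadd : ∀ i j, X (i + j) = X i * X j := by
    intro i j
    rw [← ZMod.natCast_zmod_val i, ← ZMod.natCast_zmod_val j, ← Nat.cast_add, hXn, hXn, hXn, pow_add]
  have hX0 : X 0 = 1 := by
    change x ^ (0 : ZMod p).val = 1
    rw [ZMod.val_zero, pow_zero]
  have hXP : ∀ i, X i ∈ P := fun i => Subgroup.pow_mem _ (Subgroup.mem_zpowers x) _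
  have hXsm : ∀ i, X i • P = P := fun i => Sylow.smul_eq_iff_mem_normalizer.2 (Subgroup.le_normalizer (hXP i))
  have hfree : ∀ i, X i • Q₀ = Q₀ → i = 0 := by
    intro i hi
    by_contra hi0
    apply hQ
    have h1 := Sylow.smul_eq_iff_mem_normalizer.1 hi
    have h2 : X i ∈ (P : Subgroup G) ⊓ Subgroup.normalizer (Q₀ : Set G) := ⟨hXP i, h1⟩
    rw [P.isPGroup'.inf_normalizer_sylow Q₀] at h2
    have hne : X i ≠ 1 := by
      intro h3
      have h4 : orderOf x ∣ i.val := orderOf_dvd_of_pow_eq_one h3
      rw [hx] at h4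
      have h5 := ZMod.val_lt i
      have h6 := Nat.eq_zero_of_dvd_of_lt h4 h5
      exact hi0 ((ZMod.val_eq_zero i).1 h6)
    have ho : orderOf (X i) = p := by
      apply orderOf_eq_prime
      · change (x ^ i.val) ^ p = 1
        have hxp : x ^ p = 1 := by
          have := pow_orderOf_eq_one x
          rwa [hx] at this
        rw [← pow_mul, mul_comm, pow_mul, hxp, one_pow]
      · exact hne
    have e : ∀ R : Sylow p G, X i ∈ R → Subgroup.zpowers (X i) = R := by
      intro R hR
      apply Subgroup.eq_of_le_of_card_ge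
      · rw [Subgroup.zpowers_le]; exact hR
      · rw [Nat.card_zpowers, ho]
        exact (hcS R).le
    apply Sylow.ext
    rw [← e Q₀ h2.2, ← e P h2.1]
  let F : OnePoint (ZMod p) → Sylow p G := fun o => o.elim P (fun i => X i • Q₀)
  have hFinf : F ∞ = P := rfl
  have hFi : ∀ i : ZMod p, F (i : OnePoint (ZMod p)) = X i • Q₀ := fun i => rfl
  have hne : ∀ i, X i • Q₀ ≠ P := by
    intro i h
    apply hQ
    have h1 : X i • Q₀ = X i • P := by rw [h, hXsm]
    exact smul_left_cancel _ h1
  have hFinj : Function.Injective F := by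
    intro a b hab
    induction a using OnePoint.rec with
    | infty =>
      induction b using OnePoint.rec with
      | infty => rfl
      | coe j => exact absurd hab.symm (hne j)
    | coe i =>
      induction b using OnePoint.rec with
      | infty => exact absurd hab (hne i)
      | coe j =>
        rw [hFi, hFi] at hab
        have h1 : X (i - j) • Q₀ = Q₀ := by
          have h2 : X i = X j * X (i - j) := by rw [← hXadd]; congr 1; ring
          rw [h2, mul_smul] at hab
          exact smul_left_cancel _ hab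
        have h3 := hfree _ h1
        rw [sub_eq_zero.1 h3]
  have hcO : Nat.card (OnePoint (ZMod p)) = p + 1 := by
    change Nat.card (Option (ZMod p)) = p + 1
    rw [Nat.card_eq_fintype_card, Fintype.card_option, ZMod.card]
  have hFbij : Function.Bijective F := (Nat.bijective_iff_injective_and_card F).2 ⟨hFinj, by rw [hcO, hN]⟩
  let e : OnePoint (ZMod p) ≃ Sylow p G := Equiv.ofBijective F hFbij
  let ψ : G →* Equiv.Perm (OnePoint (ZMod p)) := (e.symm.permCongrHom.toMonoidHom).comp (MulAction.toPermHom G (Sylow p G))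
  have hψ : ∀ g y z, ψ g y = z ↔ g • F y = F z := by
    intro g y z
    change e.symm (g • e y) = z ↔ _
    rw [Equiv.symm_apply_eq]
    rfl
  have hψX : ∀ (i j : ZMod p), ψ (X i) (j : OnePoint (ZMod p)) = ((i + j : ZMod p) : OnePoint (ZMod p)) := by
    intro i j
    rw [hψ, hFi, hFi, hXadd, mul_smul]
  refine ⟨{ ψ := ψ, inj := ?_, X := X, X_inf := ?_, X_some := hψX, norm := ?_, tr := ?_, card := hcard }⟩
  · rw [← MonoidHom.ker_eq_bot_iff]
    rcases (inferInstance : ψ.ker.Normal).eq_bot_or_eq_top with h | h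
    · exact h
    · exfalso
      have h1 : X 1 ∈ ψ.ker := by rw [h]; trivial
      rw [MonoidHom.mem_ker] at h1
      have h2 := hψX 1 0
      rw [h1] at h2
      have h3 := OnePoint.coe_injective (X := ZMod p) (show ((0 : ZMod p) : OnePoint (ZMod p)) = ((1 + 0 : ZMod p) : OnePoint (ZMod p)) from h2)
      rw [add_zero] at h3
      exact zero_ne_one h3
  · intro i
    rw [hψ, hFinf, hXsm]
  · intro g hg1 hg2
    rw [hψ, hFinf] at hg1
    rw [hψ, hFi, hX0, one_smul] at hg2
    have h1 := Sylow.smul_eq_iff_mem_normalizer.1 hg1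
    have h2 : g * x * g⁻¹ ∈ (P : Subgroup G) := (Subgroup.mem_normalizer_iff.1 h1 x).1 (Subgroup.mem_zpowers x)
    rw [hP, ← mem_powers_iff_mem_zpowers, Submonoid.mem_powers_iff] at h2
    obtain ⟨n, hn⟩ := h2
    refine ⟨(n : ZMod p), ?_⟩
    intro i
    rw [hψ, hFi, hFi]
    have h3 : X ((n : ZMod p) * i) = g * X i * g⁻¹ := by
      have h4 : g * X i * g⁻¹ = (g * x * g⁻¹) ^ i.val := by rw [conj_pow]
      rw [h4, ← hn, ← pow_mul, ← hXn, Nat.cast_mul, ZMod.natCast_zmod_val]
    rw [h3, mul_smul, mul_smul]
    have h5 : g⁻¹ • Q₀ = Q₀ := by rw [inv_smul_eq_iff, hg2]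
    rw [h5]
  · obtain ⟨g, hg⟩ := MulAction.exists_smul_eq G P Q₀
    refine ⟨g, ?_⟩
    rw [hψ, hFinf, hFi, hX0, one_smul, hg]

theorem psl_of_card {F : Type*} [Field F] [Fintype F] (hF : Fintype.card F = p) :
    Nonempty (ProjectiveSpecialLinearGroup (Fin 2) (ZMod p) ≃* ProjectiveSpecialLinearGroup (Fin 2) F) := by
  haveI : CharP F p := by
    obtain ⟨r, hr⟩ := CharP.exists F
    obtain ⟨n, hrp, hn⟩ := FiniteField.card F r
    rw [hF] at hn
    have : r = p := by
      have h1 : r ∣ p := by rw [hn]; exact dvd_pow_self r n.ne_zero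
      exact (Nat.prime_dvd_prime_iff_eq hrp Fact.out).1 h1
    rw [← this]; exact hr
  have hb : Function.Bijective (ZMod.castHom (dvd_refl p) F) := by
    rw [Nat.bijective_iff_injective_and_card]
    exact ⟨ZMod.castHom_injective F, by rw [Nat.card_zmod, Nat.card_eq_fintype_card, hF]⟩
  let e : ZMod p ≃+* F := RingEquiv.ofBijective _ hb
  obtain ⟨φ, hφ⟩ := psl_embed (e : ZMod p →+* F)
  obtain ⟨χ, hχ⟩ := psl_embed (e.symm : F →+* ZMod p)
  haveI : Finite (PSL F) := inferInstance
  have hc : Nat.card (PSL (ZMod p)) = Nat.card (PSL F) :=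
    le_antisymm (Nat.card_le_card_of_injective _ hφ) (Nat.card_le_card_of_injective _ hχ)
  exact ⟨MulEquiv.ofBijective φ ((Nat.bijective_iff_injective_and_card φ).2 ⟨hφ, hc⟩)⟩

theorem main_even [IsSimpleGroup G] (hpm : p = 2 * m + 1) (h5 : 5 ≤ p) (hcard : Nat.card G = (p + 1) * p * m) (hm : Even m)
    {F : Type*} [Field F] [Fintype F] (hF : Fintype.card F = p) : Nonempty (G ≃* ProjectiveSpecialLinearGroup (Fin 2) F) := by
  obtain ⟨D⟩ := exists_dat hpm h5 hcard
  obtain ⟨e⟩ := D.equiv (D.inv_even hpm hm) hpm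
  obtain ⟨f⟩ := psl_of_card hF
  exact ⟨e.trans f⟩

theorem main_odd [IsSimpleGroup G] (hpm : p = 2 * m + 1) (h5 : 5 ≤ p) (hcard : Nat.card G = (p + 1) * p * m) {r k : ℕ} (hr : r.Prime) (hr2 : r ≠ 2)
    (hm : m = r ^ k) (hk : k ≠ 0) (hs : ∀ s < m, (s * s) % m = 1 → s = 1 ∨ s + 1 = m)
    {F : Type*} [Field F] [Fintype F] (hF : Fintype.card F = p) : Nonempty (G ≃* ProjectiveSpecialLinearGroup (Fin 2) F) := by
  obtain ⟨D⟩ := exists_dat hpm h5 hcard
  obtain ⟨e⟩ := D.equiv (D.inv_odd hpm hr hr2 hm hk hs) hpm
  obtain ⟨f⟩ := psl_of_card hF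
  exact ⟨e.trans f⟩

end Cfsg.Agent.H7.Zas
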